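import Cfsg.Agent.H13.MaxCl2
import Cfsg.Agent.H13.Heis

/-! Abelian radical subgroups whose Sylow automizer fixes a subgroup of index `p`. -/

set_option autoImplicit false

namespace H13

open Equiv Cfsg Cfsg.FusionSystem Matrix
open scoped commutatorElement MatrixGroups

variable {Ω : Type*} [Group Ω] {p : ℕ} [hp : Fact p.Prime] {P : Subgroup Ω} [Finite P] {A U : Subgroup (Perm Ω)}

/-- a subgroup of index `p` fixed by a Sylow subgroup -/
structure Axis (p : ℕ) (P : Subgroup Ω) (A : Subgroup (Perm Ω)) (Z : Subgroup Ω) (U : Subgroup (Perm Ω)) : Prop where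
  syl : SylIn p U A
  le : Z ≤ P
  card : Nat.card P = p * Nat.card Z
  fix : ∀ u ∈ U, ∀ z ∈ Z, u z = z

section
variable (D : RadD p P A U) (hc : ∀ x ∈ P, ∀ y ∈ P, Commute x y)
include D hc

omit hp [Finite P] D in
theorem norm_of_comm {K : Subgroup Ω} (hK : K ≤ P) : P ≤ Subgroup.normalizer (K : Set Ω) :=
  le_normalizer_iff.2 fun g hg x hx => by rwa [(hc g hg x (hK hx)).eq, mul_inv_cancel_right]

omit hc in
theorem Axis.conj {Z : Subgroup Ω} {V : Subgroup (Perm Ω)} (h : Axis p P A Z V) {α : Perm Ω} (hα : α ∈ A) :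
    Axis p P A (img α Z) (img (cj α) V) := by
  haveI := D.finite
  have h1 := (D.hom hα).mono h.le
  refine ⟨h.syl.conj (A.le_normalizer hα), img_le_iff.2 fun x hx => (D.maps hα).mem (h.le hx),
    by rw [h.card, h1.maps_img.card_eq], fun u hu z hz => ?_⟩
  obtain ⟨z, hz', rfl⟩ := h1.mem_img.1 hz
  have := congrArg α (h.fix _ (mem_img_cj.1 hu) z hz')
  rwa [mul_ap, mul_ap, ap_inv] at this

variable {Z Z' : Subgroup Ω} {V V' : Subgroup (Perm Ω)}

theorem Axis.triv (h : Axis p P A Z V) : ∀ u ∈ V, ∀ x ∈ P, x⁻¹ * u x ∈ Z :=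
  haveI := finite_of_le h.le
  triv_of_card D.pg h.le (norm_of_comm hc h.le) h.card.le h.syl.isPGroup (fun _ hu => D.hom (h.syl.le hu))
    (fun _ hu => D.maps (h.syl.le hu)) fun u hu =>
      ((D.hom (h.syl.le hu)).mono h.le).maps_of_mem fun x hx => (h.fix u hu x hx).symm ▸ hx

theorem Axis.eq_one (h : Axis p P A Z V) (h' : Axis p P A Z' V') (hne : Z ≠ Z') {u : Perm Ω} (hu : u ∈ V)
    (hm : ∀ x ∈ Z', u x ∈ Z') : u = 1 := by
  haveI := finite_of_le h'.le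
  haveI := finite_of_le h.le
  have hA := h.syl.le hu
  have h1 := h'.syl.le_of_le_normalizer (isPGroup_of_le h.syl.isPGroup (Subgroup.zpowers_le.2 hu))
    (Subgroup.zpowers_le.2 hA) (Subgroup.zpowers_le.2 (mem_of_stab D.pg h'.le D.le h'.syl h'.fix (h'.triv D hc)
      ⟨hA, mem_stab.2 (((D.hom hA).mono h'.le).maps_of_mem hm)⟩)) (Subgroup.mem_zpowers u)
  have h2 : Z ⊔ Z' = P := (eq_or_eq_of_card le_sup_left (sup_le h.le h'.le) h.card).resolve_left fun e =>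
    hne (eq_of_le_of_card_le (le_sup_right.trans e.le) (Nat.eq_of_mul_eq_mul_left hp.out.pos
      (h.card.symm.trans h'.card)).le).symm
  refine perm_ext_on (mem_autAll.1 (D.le hA)).2.2 (fun _ _ => rfl) ?_
  rw [← h2]
  exact HomOn.eqOn_sup (h2 ▸ D.hom hA) (homOn_id _) (h.fix u hu) (h'.fix u h1)

omit hc in
theorem Axis.exists_ne_one (h : Axis p P A Z V) : ∃ u ∈ V, u ≠ 1 := by
  haveI := D.finite
  by_contra! h1
  refine D.ne fun u hu => ?_
  obtain ⟨g, -, hg⟩ := h.syl.exists_conj D.syl.isPGroup D.syl.le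
  rw [show u = 1 by simpa using h1 _ (hg u hu)]
  exact Subgroup.one_mem _

omit D hc in
theorem Axis.exists_not_mem (h : Axis p P A Z V) (h' : Axis p P A Z' V') (hne : Z ≠ Z') : ∃ y ∈ Z', y ∉ Z := by
  by_contra! h1
  haveI := finite_of_le h.le
  exact hne (eq_of_le_of_card_le h1 (Nat.eq_of_mul_eq_mul_left hp.out.pos (h.card.symm.trans h'.card)).le).symm

omit hc in
theorem Axis.card_inf (h : Axis p P A Z V) (h' : Axis p P A Z' V') (hne : Z ≠ Z') :
    Nat.card Z' = p * Nat.card (Z' ⊓ Z : Subgroup Ω) := by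
  haveI := finite_of_le h'.le
  obtain ⟨y, hy, hy'⟩ := h.exists_not_mem h' hne
  refine (card_le_mul_cases (isPGroup_of_le D.pg h'.le) inf_le_left ?_).resolve_left fun e => hy' (e.le hy).2
  rw [relIndex_card (inf_le_left (a := Z') (b := Z)), Subgroup.inf_relIndex_left]
  haveI := finite_of_le h.le
  have h1 := Nat.eq_of_mul_eq_mul_right Nat.card_pos ((relIndex_card h.le).symm.trans h.card)
  exact Nat.mul_le_mul_right _ ((Subgroup.relIndex_le_of_le_right h'.le (h1 ▸ hp.out.ne_zero)).trans h1.le)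

omit hc in
/-- invariance can be tested on a generator -/
theorem Axis.maps_of (h : Axis p P A Z V) (h' : Axis p P A Z' V') (hne : Z ≠ Z') {u : Perm Ω} (hu : u ∈ V)
    {y : Ω} (hy : y ∈ Z') (hy' : y ∉ Z) {M : Subgroup Ω} (h1 : Z' ⊓ Z ≤ M) (h2 : u y ∈ M) : ∀ x ∈ Z', u x ∈ M := by
  haveI := finite_of_le h'.le
  have h3 := (D.hom (h.syl.le hu)).mono h'.le
  rcases eq_or_eq_of_card (Y := Z' ⊓ Z) (K := pre Z' u M) (fun x hx => h3.mem_pre.2 ⟨hx.1, (h.fix u hu x hx.2).symm ▸ h1 hx⟩)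
    (pre_le _ _ _) (h.card_inf D h' hne) with e | e
  · exact absurd (e.le (h3.mem_pre.2 ⟨hy, h2⟩)).2 hy'
  · exact fun x hx => (h3.mem_pre.1 (e.ge hx)).2

theorem Axis.line (h : Axis p P A Z V) (h' : Axis p P A Z' V') (hne : Z ≠ Z') {M : Subgroup Ω} (h1 : Z' ⊓ Z ≤ M)
    (h2 : M ≤ P) (h3 : Nat.card P = p * Nat.card M) : ∃ W, Axis p P A M W := by
  by_cases h4 : M ≤ Z
  · haveI := finite_of_le h.le
    exact ⟨V, eq_of_le_of_card_le h4 (Nat.eq_of_mul_eq_mul_left hp.out.pos (h.card.symm.trans h3)).le ▸ h⟩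
  haveI := finite_of_le h.le
  haveI := finite_of_le h2
  obtain ⟨m, hm, hm'⟩ := SetLike.not_le_iff_exists.1 h4
  obtain ⟨u, hu, hu'⟩ := h.exists_ne_one D
  have h5 : Z' ⊔ Z = P := (eq_or_eq_of_card le_sup_right (sup_le h'.le h.le) h.card).resolve_left fun e => by
    obtain ⟨y, hy, hy'⟩ := h.exists_not_mem h' hne
    exact hy' (e.le (Subgroup.mem_sup_left hy))
  obtain ⟨y, hy, z, hz, rfl⟩ := (mem_sup_of_normalizes (h'.le.trans (norm_of_comm hc h.le))).1 (h5.ge (h2 hm))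
  have hy' : y ∉ Z := fun e => hm' (Z.mul_mem e hz)
  have hr := h.triv D hc u hu y (h'.le hy)
  set r := y⁻¹ * u y with hr'
  have h6 : r ∉ Z ⊓ Z' := fun e => hu' (h.eq_one D hc h' hne hu (h.maps_of D h' hne hu hy hy' inf_le_left (by
    simpa [hr'] using Z'.mul_mem hy e.2)))
  have h7 := (eq_or_eq_of_card (K := (Z ⊓ Z') ⊔ Subgroup.zpowers r) le_sup_left
    (sup_le inf_le_left (Subgroup.zpowers_le.2 hr)) (h'.card_inf D h hne.symm)).resolve_left
    fun e => h6 (e.le (Subgroup.mem_sup_right (Subgroup.mem_zpowers r)))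
  obtain ⟨d, hd, k, rfl⟩ := (H9.mem_sup_zpowers (norm_of_comm hc (inf_le_left.trans h.le) (h.le hr))).1 (h7.ge hz)
  have h8 : ∀ n : ℕ, (u ^ n) y = y * r ^ n := fun n => by
    induction n with
    | zero => simp
    | succ n ih =>
      rw [pow_succ', mul_ap, ih, (D.hom (h.syl.le hu)).map_mul (h'.le hy) (h.le (Z.pow_mem hr n)),
        h.fix u hu _ (Z.pow_mem hr n), pow_succ', hr', ← mul_assoc, mul_inv_cancel_left]
  obtain ⟨n, hn⟩ : ∃ n : ℕ, r ^ n = r ^ k := (Submonoid.mem_powers_iff _ _).1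
    ((Z.subtype.isOfFinOrder (isOfFinOrder_of_finite (⟨r, hr⟩ : Z))).mem_powers_iff_mem_zpowers.2 ⟨k, rfl⟩)
  have h9 := h.maps_of D h' hne (V.pow_mem hu n) hy hy' h1 (by
    rw [h8, hn, show y * r ^ k = y * (d * r ^ k) * d⁻¹ by
      rw [(hc d (h.le hd.1) _ (h.le (Z.zpow_mem hr k))).eq]; group]
    exact M.mul_mem hm (M.inv_mem (h1 ⟨hd.2, hd.1⟩)))
  have h10 := h'.conj D (h.syl.le (V.pow_mem hu n))
  exact ⟨_, eq_of_le_of_card_le (img_le_iff.2 h9)
    (Nat.eq_of_mul_eq_mul_left hp.out.pos (h3.symm.trans h10.card)).le ▸ h10⟩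

theorem Axis.inf_le (h : Axis p P A Z V) (h' : Axis p P A Z' V') (hne : Z ≠ Z') {Z'' : Subgroup Ω}
    {V'' : Subgroup (Perm Ω)} (h'' : Axis p P A Z'' V'') : Z' ⊓ Z ≤ Z'' := by
  by_cases h1 : Z'' = Z'
  · exact h1 ▸ inf_le_left
  by_cases h0 : Z'' = Z
  · exact h0 ▸ inf_le_right
  obtain ⟨u, hu, hu'⟩ := h.exists_ne_one D
  obtain ⟨y, hy, hy'⟩ := h.exists_not_mem h' hne
  have hyP := h'.le hy
  have hA := D.hom (h.syl.le hu)
  have hr := h.triv D hc u hu y hyP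
  set r := y⁻¹ * u y with hr'
  have h2 : ∀ M, M ≤ P → r ∈ M → ∀ x ∈ M, u x ∈ M := fun M hM h2 x hx => by
    rcases eq_or_eq_of_card (K := fixMod (norm_of_comm hc hM) hA) (fun z hz => ⟨h.le hz, by
      rw [h.fix u hu z hz, inv_mul_cancel]; exact M.one_mem⟩) (fun _ hz => hz.1) h.card with e | e
    · exact absurd (e.le ⟨hyP, h2⟩) hy'
    · simpa using M.mul_mem hx (e.ge (hM hx)).2
  have h3 : r ∉ Z' := fun e => hu' (h.eq_one D hc h' hne hu (h2 Z' h'.le e))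
  have hyp : y ^ p ∈ Z := by
    have h4 : (Z.subgroupOf P).index = p := by
      haveI := finite_of_le h.le
      exact Nat.eq_of_mul_eq_mul_right Nat.card_pos ((relIndex_card h.le).symm.trans h.card)
    exact H9.pow_mem_coatom D.pg (H9.isCoatom_of_index_eq_prime h4) ⟨y, hyP⟩
  have h4 : r ^ p = 1 := by
    rw [hr', (hc _ (P.inv_mem hyP) _ ((D.maps (h.syl.le hu)).mem hyP)).mul_pow, ← hA.map_pow hyP, h.fix u hu _ hyp]
    group
  have hI : Z' ⊓ Z'' ≤ P := inf_le_left.trans h'.le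
  have h5 := H9.card_sup_zpowers hp.out (norm_of_comm hc hI (h.le hr)) (fun e => h3 e.1) (h4 ▸ Subgroup.one_mem _)
  have hM : Z' ⊓ Z'' ⊔ Subgroup.zpowers r ≤ P := sup_le hI (Subgroup.zpowers_le.2 (h.le hr))
  obtain ⟨W, hW⟩ := h''.line D hc h' h1 le_sup_left hM (by rw [h5, ← h''.card_inf D h' h1, h'.card])
  have h6 : Z = Z' ⊓ Z'' ⊔ Subgroup.zpowers r := by
    by_contra h6
    exact hu' (h.eq_one D hc hW h6 hu (h2 _ hM (Subgroup.mem_sup_right (Subgroup.mem_zpowers r))))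
  haveI := finite_of_le (inf_le_left.trans h'.le : Z' ⊓ Z ≤ P)
  exact (eq_of_le_of_card_le (le_inf inf_le_left (le_sup_left.trans h6.ge)) (Nat.eq_of_mul_eq_mul_left hp.out.pos
    ((h.card_inf D h' hne).symm.trans (h''.card_inf D h' h1))).le).ge.trans inf_le_right

theorem RadD.sl2_axis (hZ : Z ≤ P) (hcard : Nat.card P = p * Nat.card Z) (hf : ∀ u ∈ U, ∀ z ∈ Z, u z = z) :
    ∃ Y χ, Y ≤ Z ∧ (∀ β ∈ OUp' p A, ∀ y ∈ Y, β y = y) ∧ SL2D p P A U P Y χ := by
  have h : Axis p P A Z U := ⟨D.syl, hZ, hcard, hf⟩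
  obtain ⟨α, hα, hne⟩ : ∃ α ∈ A, Z ≠ img α Z := by
    by_contra! h1
    exact D.ne ((le_op D.syl.le D.syl.isPGroup fun α hα => mem_of_stab D.pg hZ D.le D.syl hf (h.triv D hc)
      ⟨hα, mem_stab.2 (((D.hom hα).mono hZ).maps_iff.2 (h1 α hα).symm)⟩).trans D.op)
  have h' := h.conj D hα
  have hY : img α Z ⊓ Z ≤ P := inf_le_right.trans hZ
  haveI := finite_of_le hY
  have h1 : ∀ β ∈ A, Maps (img α Z ⊓ Z) (img α Z ⊓ Z) β := fun β hβ => ((D.hom hβ).mono hY).maps_of_mem fun x hx => by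
    have key : ∀ {K W}, Axis p P A K W → β x ∈ K := fun {K W} hK =>
      ((D.hom (A.inv_mem hβ)).mono hK.le).maps_img.inv_mem (h.inf_le D hc h' hne (hK.conj D (A.inv_mem hβ)) hx)
    exact ⟨key h', key h⟩
  have h2 : ∀ β ∈ OUp' p A, ∀ y ∈ img α Z ⊓ Z, β y = y := fun β hβ y hy => (inv_mul_eq_one.1
    (D.oUp'_triv hY h1 (fun α hα => (D.hom hα).maps_bot)
      (fun u hu x hx => by rw [hf u hu x hx.2, inv_mul_cancel]; exact Subgroup.one_mem _) β hβ y hy)).symm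
  obtain ⟨-, χ, hχ⟩ := D.sl2_of_card hY le_rfl (fun α hα => D.maps hα) h1
    (by rw [h'.card, h.card_inf D h' hne, pow_two, mul_assoc])
    fun β hβ h3 h4 => fix_step D.pg hY le_rfl (D.hom (oUp'_le p _ hβ)) h3 (h2 β hβ) h4
  exact ⟨_, χ, inf_le_right, h2, hχ⟩

end

end H13
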