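import Cfsg.Agent.H25.PrimeCyc
import Cfsg.Agent.S0713
import Cfsg.Agent.S2119

/-! Derangements of prime order in primitive groups with alternating socle. -/

set_option autoImplicit false

namespace H13.AltDer

open Finset Equiv MulAction

/-- The number of primes up to `j`. -/
def pc (j : ℕ) : ℕ := #((range (j + 1)).filter Nat.Prime)

theorem pc_succ (j : ℕ) : pc (j + 1) = pc j + if (j + 1).Prime then 1 else 0 := by
  rw [pc, pc, range_add_one (n := j + 1), filter_insert]
  split_ifs with h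
  · rw [card_insert_of_notMem (by simp)]
  · rfl

theorem pc_lt (j : ℕ) : 2 * pc (j + 9) < j + 9 := by
  have key : ∀ j : ℕ, 2 * pc (j + 9) < j + 9 ∧ 2 * pc (j + 10) < j + 10 := by
    intro j
    induction j with
    | zero => constructor <;> decide +kernel
    | succ j ih =>
      refine ⟨ih.2, ?_⟩
      have h1 := pc_succ (j + 9)
      have h2 := pc_succ (j + 10)
      have h3 : ¬ ((j + 9 + 1).Prime ∧ (j + 10 + 1).Prime) := by
        rintro ⟨a, b⟩
        have a' := a.eq_two_or_odd
        have b' := b.eq_two_or_odd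
        omega
      have e : j + 1 + 10 = j + 10 + 1 := by ring
      have e2 : j + 9 + 1 = j + 10 := by ring
      rw [e, h2, ← e2, h1]
      have := ih.1
      split_ifs <;> first | omega | (exfalso; apply h3; constructor <;> assumption)
  exact (key j).1

theorem pow_le_mul {n j : ℕ} (h : j ≤ n) : n ^ j ≤ j ^ j * n.choose j := by
  have key : ∀ i ≤ j, n ^ i * j.descFactorial i ≤ j ^ i * n.descFactorial i := by
    intro i hi
    induction i with
    | zero => simp
    | succ i ih =>
      rw [Nat.descFactorial_succ, Nat.descFactorial_succ, pow_succ, pow_succ]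
      have h1 : n * (j - i) ≤ j * (n - i) := by
        rw [Nat.mul_sub, Nat.mul_sub, mul_comm n j]
        exact Nat.sub_le_sub_left (Nat.mul_le_mul_right _ h) _
      calc n ^ i * n * ((j - i) * j.descFactorial i)
          = (n ^ i * j.descFactorial i) * (n * (j - i)) := by ring
        _ ≤ (j ^ i * n.descFactorial i) * (j * (n - i)) := Nat.mul_le_mul (ih (by omega)) h1
        _ = _ := by ring
  have h1 := key j le_rfl
  rw [Nat.descFactorial_self, Nat.descFactorial_eq_factorial_mul_choose] at h1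
  refine Nat.le_of_mul_le_mul_right ?_ j.factorial_pos
  calc _ ≤ _ := h1
    _ = _ := by ring

theorem big_choose {n r : ℕ} (hr : r.Prime) (h5 : 5 ≤ n) (h : r ^ 2 ≤ n) :
    n ^ pc r < n.choose r := by
  have h2 := hr.two_le
  have hrn : r ≤ n := by nlinarith
  have h1 := pow_le_mul hrn
  by_cases h9 : 9 ≤ r
  · obtain ⟨j, rfl⟩ := Nat.exists_eq_add_of_le' h9
    have h3 := pc_lt j
    generalize j + 9 = r at *
    have h4 : (r ^ r) ^ 2 ≤ n ^ r := by
      rw [← pow_mul, mul_comm, pow_mul]; exact Nat.pow_le_pow_left h _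
    have h6 : n ^ r ≤ n.choose r ^ 2 := by
      have h7 : n ^ r * n ^ r ≤ n ^ r * n.choose r ^ 2 := by
        calc n ^ r * n ^ r ≤ (r ^ r * n.choose r) * (r ^ r * n.choose r) := Nat.mul_le_mul h1 h1
          _ = (r ^ r) ^ 2 * n.choose r ^ 2 := by ring
          _ ≤ _ := Nat.mul_le_mul_right _ h4
      exact Nat.le_of_mul_le_mul_left h7 (by positivity)
    have h8 : (n ^ pc r) ^ 2 < n.choose r ^ 2 := by
      rw [← pow_mul]
      exact lt_of_lt_of_le (Nat.pow_lt_pow_right (by omega) (by omega)) h6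
    exact lt_of_pow_lt_pow_left₀ 2 (Nat.zero_le _) h8
  · by_cases hn : n < 94
    · have key : ∀ n < 94, ∀ r < 9, 2 ≤ r → 5 ≤ n → r ^ 2 ≤ n →
          r.factorial * n ^ pc r < n.descFactorial r := by decide +kernel
      have h3 := key n hn r (by omega) h2 h5 h
      rw [Nat.descFactorial_eq_factorial_mul_choose] at h3
      exact Nat.lt_of_mul_lt_mul_left h3
    · have key : ∀ r < 9, 2 ≤ r → pc r ≤ r ∧ r ^ r < 94 ^ (r - pc r) := by decide +kernel
      obtain ⟨h3, h4⟩ := key r (by omega) h2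
      have h6 : r ^ r < n ^ (r - pc r) := lt_of_lt_of_le h4 (Nat.pow_le_pow_left (by omega) _)
      have h7 : r ^ r * n ^ pc r < r ^ r * n.choose r := by
        refine lt_of_lt_of_le ?_ h1
        calc r ^ r * n ^ pc r < n ^ (r - pc r) * n ^ pc r :=
              Nat.mul_lt_mul_of_pos_right h6 (by positivity)
          _ = n ^ r := by rw [← pow_add, Nat.sub_add_cancel h3]
      exact Nat.lt_of_mul_lt_mul_left h7

theorem choose_mono_half {n : ℕ} : ∀ {k r : ℕ}, r ≤ k → k ≤ n / 2 → n.choose r ≤ n.choose k := by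
  intro k r h hk
  induction k with
  | zero => rw [Nat.le_zero.1 h]
  | succ k ih =>
    rcases h.lt_or_eq with h | rfl
    · exact (ih (by omega) (by omega)).trans (Nat.choose_le_succ_of_lt_half_left (by omega))
    · exact le_rfl

theorem large_prime {n k r : ℕ} (h5 : 5 ≤ n) (hk : 2 * k ≤ n) (hr : r.Prime)
    (hmax : ∀ s : ℕ, s.Prime → s ∣ n.choose k → s ≤ r) : k < r ∨ n < r ^ 2 := by
  by_contra hcon
  push Not at hcon
  have h1 := big_choose hr h5 hcon.2
  have h2 : n.choose r ≤ n.choose k := choose_mono_half hcon.1 (by omega)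
  have h0 : n.choose k ≠ 0 := Nat.choose_ne_zero (by omega)
  have h3 : n.choose k ≤ n ^ pc r := by
    conv_lhs => rw [← Nat.prod_factorization_pow_eq_self h0]
    rw [Finsupp.prod, Nat.support_factorization]
    refine (prod_le_pow_card _ _ n fun p _ => Nat.pow_factorization_choose_le (by omega)).trans ?_
    refine Nat.pow_le_pow_right (by omega) (card_le_card fun p hp => ?_)
    have hp1 := Nat.prime_of_mem_primeFactors hp
    exact mem_filter.2 ⟨mem_range.2 (Nat.lt_succ_of_le
      (hmax p hp1 (Nat.dvd_of_mem_primeFactors hp))), hp1⟩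
  omega

theorem not_dvd_choose {r a b : ℕ} (hr : r.Prime) (ha : a < r) (hb : b ≤ a) : ¬ r ∣ a.choose b := by
  intro h
  have h3 : r ∣ a.factorial := by
    refine h.trans ?_
    rw [← Nat.choose_mul_factorial_mul_factorial hb, mul_assoc]
    exact Dvd.intro _ rfl
  rw [hr.dvd_factorial] at h3
  omega

theorem carry {n k r : ℕ} (hk : k ≤ n) (hr : r.Prime) (hd : r ∣ n.choose k)
    (h : k < r ∨ n < r ^ 2) : n % r < k % r := by
  by_contra hcon
  push Not at hcon
  have := Fact.mk hr
  have h1 := Choose.choose_modEq_choose_mod_mul_choose_div_nat (n := n) (k := k) (p := r)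
  have h2 := (h1.dvd_iff dvd_rfl).1 hd
  rcases (Nat.Prime.dvd_mul hr).1 h2 with h3 | h3
  · exact not_dvd_choose hr (Nat.mod_lt _ hr.pos) hcon h3
  · rcases h with h | h
    · rw [Nat.div_eq_of_lt h, Nat.choose_zero_right] at h3
      exact hr.one_lt.ne' (Nat.dvd_one.1 h3)
    · exact not_dvd_choose hr ((Nat.div_lt_iff_lt_mul hr.pos).2 (by rwa [← pow_two]))
        (Nat.div_le_div_right hk) h3

theorem shortcut {L Ω : Type*} [Group L] [Finite L] [MulAction L Ω] [IsPretransitive L Ω]
    [hΩ : Nonempty Ω] {m r : ℕ} (hL : Nat.card L ∣ m.factorial) (hr : r.Prime) (hd : r ∣ Nat.card Ω) (hm : m < 2 * r) :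
    ∃ g : L, orderOf g = r ∧ ∀ ω : Ω, g • ω ≠ ω := by
  have := Fact.mk hr
  have h1 : ∀ ω : Ω, Nat.card Ω * Nat.card (stabilizer L ω) = Nat.card L := by
    intro ω
    rw [← index_stabilizer_of_transitive L ω, Subgroup.index_mul_card]
  obtain ⟨ω0⟩ := hΩ
  obtain ⟨g, hg⟩ := exists_prime_orderOf_dvd_card' (G := L) r (hd.trans ⟨_, (h1 ω0).symm⟩)
  refine ⟨g, hg, fun ω hω => ?_⟩
  have h2 : r ∣ Nat.card (stabilizer L ω) := by
    rw [← hg]
    exact Subgroup.orderOf_dvd_natCard _ hω
  have h3 : r ^ 2 ∣ m.factorial := by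
    rw [pow_two]
    exact (Nat.mul_dvd_mul hd h2).trans (h1 ω ▸ hL)
  have h4 : r ^ 2 ∣ (2 * r - 1).factorial := h3.trans (Nat.factorial_dvd_factorial (by omega))
  have h5 := (hr.pow_dvd_factorial_iff (n := 2 * r - 1) (r := 2) (b := 2) ?_).1 h4
  · simp only [Nat.Ico_succ_singleton, sum_singleton, pow_one] at h5
    have := (Nat.le_div_iff_mul_le hr.pos).1 h5
    have := hr.pos
    omega
  · refine Nat.log_lt_of_lt_pow' (by omega) ?_
    have := hr.two_le
    have : 2 * r ≤ r ^ 2 := by nlinarith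
    omega

theorem prim_of_cycle {α : Type*} [Fintype α] [DecidableEq α] {H : Subgroup (Perm α)}
    [IsPretransitive H α] {y : Perm α} (hy : y ∈ H) (hc : y.IsCycle) (hq : (#y.support).Prime)
    (hlt : Fintype.card α < 2 * #y.support) : IsPreprimitive H α := by
  classical
  have h1 := Perm.isPretransitive_of_isCycle_mem hc hy
  have h2 : Nat.card (SubMulAction.ofFixingSubgroup H (y.support : Set α)ᶜ) = #y.support := by
    rw [Nat.card_eq_fintype_card, Fintype.card_subtype]
    apply congr_arg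
    ext x
    simp [SubMulAction.mem_ofFixingSubgroup_iff]
  have h3 : IsPreprimitive (fixingSubgroup H (y.support : Set α)ᶜ)
      (SubMulAction.ofFixingSubgroup H (y.support : Set α)ᶜ) :=
    IsPreprimitive.of_prime_card (by rw [h2]; exact hq)
  refine IsPreprimitive.of_card_lt
    (f := SubMulAction.ofFixingSubgroup_equivariantMap H (y.support : Set α)ᶜ) ?_
  rw [Set.ncard_range_of_injective SubMulAction.ofFixingSubgroup_equivariantMap_injective, h2,
    Nat.card_eq_fintype_card]
  exact hlt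

theorem exists_even {m p c : ℕ} (hp : p.Prime) (hc : 0 < c) (h : c * p ≤ m)
    (he : p ≠ 2 ∨ Even c) : ∃ σ ∈ alternatingGroup (Fin m), orderOf σ = p ∧ #σ.support = c * p ∧
      σ.cycleType = Multiset.replicate c p := by
  obtain ⟨σ, h1, h2, h3⟩ := H25.exists_perm_prime_order (α := Fin m) hp hc (by simpa using h)
  refine ⟨σ, ?_, h1, h2, h3⟩
  rw [Perm.mem_alternatingGroup, Perm.sign_of_cycleType, h3, Multiset.sum_replicate,
    Multiset.card_replicate, smul_eq_mul]
  refine Even.neg_one_pow ?_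
  rw [← Nat.mul_succ]
  rcases he with he | he
  · exact Even.mul_left (hp.odd_of_ne_two he).add_one _
  · exact he.mul_right _

theorem fix_of_not_dvd {L Ω : Type*} [Group L] [MulAction L Ω] [Finite Ω] {p : ℕ} (hp : p.Prime)
    (hd : ¬ p ∣ Nat.card Ω) {g : L} (hg : orderOf g = p) : ∃ ω : Ω, g • ω = ω := by
  classical
  have := Fact.mk hp
  letI := Fintype.ofFinite Ω
  rw [Nat.card_eq_fintype_card] at hd
  exact Perm.exists_fixed_point_of_prime (σ := toPermHom L Ω g) (n := 1) hd
    (by rw [pow_one, ← map_pow, ← hg, pow_orderOf_eq_one, map_one])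

theorem core {L Ω : Type*} [Group L] [Finite L] [MulAction L Ω] [Finite Ω] [Nontrivial Ω]
    (hprim : IsPreprimitive L Ω) {m : ℕ} (hm : 5 ≤ m) (φ : L →* Perm (Fin m))
    (hφ : Function.Injective φ) (hA : ∀ a ∈ alternatingGroup (Fin m), ∃ g, φ g = a)
    (hnt : ∀ ω : Ω, ∃ g, φ g ∈ alternatingGroup (Fin m) ∧ g • ω ≠ ω) {r : ℕ} (hr : r.Prime)
    (hrd : r ∣ Nat.card Ω) (hmax : ∀ s : ℕ, s.Prime → s ∣ Nat.card Ω → s ≤ r) (h2 : 2 * r ≤ m) :
    (∃ g : L, orderOf g = r ∧ ∀ ω : Ω, g • ω ≠ ω) ∧ (r = 2 → 4 ∣ m) := by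
  classical
  obtain ⟨q, hq, hq1, hq2⟩ := Nat.exists_prime_lt_and_le_two_mul (m / 2) (by omega)
  obtain ⟨y0, hy0, hy1, hy2, hy3⟩ := exists_even (m := m) (c := 1) hq one_pos (by omega)
    (Or.inl (by omega))
  obtain ⟨y, rfl⟩ := hA y0 hy0
  rw [orderOf_injective φ hφ] at hy1
  obtain ⟨ω, hω⟩ := fix_of_not_dvd (Ω := Ω) hq (fun h => by have := hmax q hq h; omega) hy1
  have hco : IsCoatom (stabilizer L ω) := (isCoatom_stabilizer_iff_preprimitive L ω).2 hprim
  have hconj : ∀ (x : L) (ω' : Ω), x • ω' = ω' → ∃ g : L, g⁻¹ * x * g ∈ stabilizer L ω := by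
    intro x ω' h
    obtain ⟨g, rfl⟩ := exists_smul_eq L ω ω'
    exact ⟨g, by rw [mem_stabilizer_iff, mul_smul, mul_smul, h, inv_smul_smul]⟩
  set H := (stabilizer L ω).map φ with hH
  by_cases htr : IsPretransitive H (Fin m)
  · have hp : IsPreprimitive H (Fin m) := prim_of_cycle (y := φ y) ⟨y, hω, rfl⟩
      (by rw [← Perm.card_cycleType_eq_one, hy3]; simp) (by rw [hy2, one_mul]; exact hq)
      (by rw [hy2, Fintype.card_fin]; omega)
    have hno : ¬ alternatingGroup (Fin m) ≤ H := by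
      intro hle
      obtain ⟨g, hg1, hg2⟩ := hnt ω
      obtain ⟨g', hg', e⟩ := hle hg1
      exact hg2 (hφ e ▸ hg')
    have hcyc : ∀ s : ℕ, s.Prime → s ≠ 2 → s ≤ m → ∃ x : L, orderOf x = s ∧
        ∀ ω' : Ω, x • ω' = ω' → ∃ z ∈ H, z.IsCycle ∧ #z.support = s := by
      intro s hs hs2 hsm
      obtain ⟨x0, hx0, hx1, hx2, hx3⟩ := exists_even (m := m) (c := 1) hs one_pos (by omega)
        (Or.inl hs2)
      obtain ⟨x, rfl⟩ := hA x0 hx0
      rw [orderOf_injective φ hφ] at hx1
      refine ⟨x, hx1, fun ω' h => ?_⟩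
      obtain ⟨g, hg⟩ := hconj x ω' h
      have hc : (φ x).IsCycle := by rw [← Perm.card_cycleType_eq_one, hx3]; simp
      have e : φ (g⁻¹ * x * g) = (φ g)⁻¹ * φ x * (φ g)⁻¹⁻¹ := by simp
      refine ⟨_, ⟨_, hg, rfl⟩, ?_, ?_⟩
      · rw [e]; exact hc.conj
      · rw [e, Perm.card_support_conj, hx2, one_mul]
    have hr2 : r ≠ 2 := by
      rintro rfl
      obtain ⟨x, hx1, hx2⟩ := hcyc 3 Nat.prime_three (by omega) (by omega)
      obtain ⟨ω', h⟩ := fix_of_not_dvd (Ω := Ω) Nat.prime_three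
        (fun h => by have := hmax 3 Nat.prime_three h; omega) hx1
      obtain ⟨z, hz, -, hz2⟩ := hx2 ω' h
      exact hno (Perm.alternatingGroup_le_of_isPreprimitive_of_isThreeCycle_mem hp
        (card_support_eq_three_iff.1 hz2) hz)
    refine ⟨?_, fun h => absurd h hr2⟩
    obtain ⟨x, hx1, hx2⟩ := hcyc r hr hr2 (by omega)
    refine ⟨x, hx1, fun ω' h => ?_⟩
    obtain ⟨z, hz, hz1, hz2⟩ := hx2 ω' h
    have := hr.two_le
    exact hno (Cfsg.Agent.S0713.result H hp hr (by simpa using hm)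
      (by rw [Fintype.card_fin]; omega) hz1 hz2 hz)
  · letI : MulAction L (Fin m) := MulAction.compHom _ φ
    have hsm : ∀ (g : L) (a : Fin m), g • a = φ g a := fun _ _ => rfl
    obtain ⟨Δ, hΔ0, hΔ1, hΔ⟩ : ∃ Δ : Finset (Fin m), 0 < #Δ ∧ 2 * #Δ ≤ m ∧
        ∀ g ∈ stabilizer L ω, ∀ a, a ∈ Δ ↔ φ g a ∈ Δ := by
      have : ¬ ∀ a b : Fin m, ∃ g : H, g • a = b := fun h => htr ⟨h⟩
      push Not at this
      obtain ⟨a, b, hab⟩ := this
      let O : Finset (Fin m) := univ.filter fun c => ∃ g ∈ stabilizer L ω, φ g a = c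
      have hO : ∀ g ∈ stabilizer L ω, ∀ c, c ∈ O ↔ φ g c ∈ O := by
        intro g hg c
        simp only [O, mem_filter, mem_univ, true_and]
        constructor
        · rintro ⟨u, hu, rfl⟩
          exact ⟨g * u, Subgroup.mul_mem _ hg hu, by simp⟩
        · rintro ⟨u, hu, e⟩
          exact ⟨g⁻¹ * u, Subgroup.mul_mem _ (Subgroup.inv_mem _ hg) hu, by simp [e]⟩
      have haO : a ∈ O := by
        simp only [O, mem_filter, mem_univ, true_and]
        exact ⟨1, Subgroup.one_mem _, by simp⟩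
      have hbO : b ∈ Oᶜ := by
        simp only [O, mem_compl, mem_filter, mem_univ, true_and]
        rintro ⟨u, hu, e⟩
        exact hab ⟨φ u, u, hu, rfl⟩ e
      by_cases hle : 2 * #O ≤ m
      · exact ⟨O, card_pos.2 ⟨a, haO⟩, hle, hO⟩
      · refine ⟨Oᶜ, card_pos.2 ⟨b, hbO⟩, ?_, fun g hg c => ?_⟩
        · rw [card_compl, Fintype.card_fin]; omega
        · rw [mem_compl, mem_compl, hO g hg c]
    set k := #Δ with hk
    let D : Set.powersetCard (Fin m) k := ⟨Δ, rfl⟩
    have hcoe : ∀ (g : L) (s : Set.powersetCard (Fin m) k),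
        ((g • s : Set.powersetCard (Fin m) k) : Finset (Fin m)) = (s : Finset (Fin m)).image (φ g) :=
      fun g s => rfl
    have htrP : IsPretransitive L (Set.powersetCard (Fin m) k) := by
      have := Set.powersetCard.isPretransitive_alternatingGroup (α := Fin m) (n := k)
        (by simp; omega)
      refine ⟨fun s t => ?_⟩
      obtain ⟨a, ha⟩ := exists_smul_eq (alternatingGroup (Fin m)) s t
      obtain ⟨g, hg⟩ := hA a a.2
      refine ⟨g, Subtype.ext ?_⟩
      rw [hcoe, hg, ← ha]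
      rfl
    have hidx : (stabilizer L D).index = m.choose k := by
      rw [index_stabilizer_of_transitive, Set.powersetCard.card]; simp
    have hle : stabilizer L ω ≤ stabilizer L D := by
      intro g hg
      refine Subtype.ext ?_
      rw [hcoe]
      refine eq_of_subset_of_card_le (fun c hc => ?_) ?_
      · obtain ⟨a, ha, rfl⟩ := mem_image.1 hc
        exact (hΔ g hg a).1 ha
      · rw [card_image_of_injective _ (φ g).injective]
    have heq : stabilizer L D = stabilizer L ω := by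
      by_contra hne
      have := hco.2 _ (lt_of_le_of_ne hle (Ne.symm hne))
      rw [this, Subgroup.index_top] at hidx
      have h3 : m.choose 1 ≤ m.choose k := choose_mono_half hΔ0 (by omega)
      rw [Nat.choose_one_right] at h3
      omega
    have hN : Nat.card Ω = m.choose k := by
      rw [← hidx, heq, index_stabilizer_of_transitive]
    rw [hN] at hrd hmax
    have hl := large_prime hm hΔ1 hr hmax
    have hcarry := carry (by omega) hr hrd hl
    have h4 : r = 2 → 4 ∣ m := by
      rintro rfl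
      have hk1 : k = 1 := by omega
      rw [hk1, Nat.choose_one_right] at hmax hrd
      by_contra hcon
      obtain ⟨s, hs, hs2⟩ := Nat.exists_prime_and_dvd (n := m / 2) (by omega)
      have h5 := hmax s hs (hs2.trans (Nat.div_dvd_of_dvd hrd))
      have h6 : s = 2 := le_antisymm h5 hs.two_le
      subst h6
      omega
    refine ⟨?_, h4⟩
    have hmr := Nat.div_add_mod' m r
    obtain ⟨x0, hx0, hx1, -, hx3⟩ := exists_even (m := m) (c := m / r) hr
      (Nat.div_pos (by omega) hr.pos) (by omega) (by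
        by_cases h : r = 2
        · obtain ⟨j, hj⟩ := h4 h
          exact Or.inr ⟨j, by rw [h]; omega⟩
        · exact Or.inl h)
    obtain ⟨x, rfl⟩ := hA x0 hx0
    refine ⟨x, by rwa [orderOf_injective φ hφ] at hx1, fun ω' h => ?_⟩
    obtain ⟨g, hg⟩ := hconj x ω' h
    rw [← heq, mem_stabilizer_iff, mul_smul, mul_smul, inv_smul_eq_iff] at hg
    have h5 : ((g • D : Set.powersetCard (Fin m) k) : Finset (Fin m)).image (φ x) = (g • D :) := by
      rw [← hcoe, hg]
    obtain ⟨a, b, -, hb, e⟩ := (H25.exists_invariant_iff hr hx1 hx3 k).1 ⟨_, (g • D).2, h5⟩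
    rw [Fintype.card_fin] at hb
    have h6 : b < r := lt_of_le_of_lt (by omega) (Nat.mod_lt m hr.pos)
    rw [e, Nat.mul_add_mod_of_lt h6] at hcarry
    omega

theorem main {G Ω : Type*} [Group G] [Finite G] [MulAction G Ω] [FaithfulSMul G Ω] [Finite Ω]
    (T : Subgroup G) (hT : T.Normal) (hTc : Subgroup.centralizer (T : Set G) = ⊥) (m : ℕ)
    (hm : 5 ≤ m) (eT : ↥T ≃* ↥(alternatingGroup (Fin m))) (hprim : IsPreprimitive G Ω)
    (hΩ : 2 ≤ Nat.card Ω) (r : ℕ) (hr : r.Prime) (hrd : r ∣ Nat.card Ω)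
    (hmax : ∀ s : ℕ, s.Prime → s ∣ Nat.card Ω → s ≤ r) :
    ∃ g : G, orderOf g = r ∧ ∀ ω : Ω, g • ω ≠ ω := by
  classical
  haveI : Nontrivial Ω := Finite.one_lt_card_iff_nontrivial.1 hΩ
  haveI : Nontrivial (Fin m) := Fin.nontrivial_iff_two_le.2 (by omega)
  have hcard : Nat.card T ∣ m.factorial := by
    rw [Nat.card_congr eT.toEquiv]
    have := Subgroup.card_subgroup_dvd_card (alternatingGroup (Fin m))
    rwa [Nat.card_perm, Nat.card_eq_fintype_card (α := Fin m), Fintype.card_fin] at this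
  have htr : IsPretransitive T Ω := by
    refine IsQuasiPreprimitive.isPretransitive_of_normal fun h => ?_
    haveI : Nontrivial (alternatingGroup (Fin m)) :=
      alternatingGroup.nontrivial_of_three_le_card (by simp; omega)
    obtain ⟨a, ha⟩ := exists_ne (1 : alternatingGroup (Fin m))
    apply ha
    have : eT.symm a = 1 := Subtype.ext (FaithfulSMul.eq_of_smul_eq_smul (α := Ω) fun ω => by
      have h1 : ω ∈ fixedPoints T Ω := h ▸ Set.mem_univ ω
      exact (h1 (eT.symm a)).trans (one_smul G ω).symm)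
    simpa using this
  have hdown : (∃ g : T, orderOf g = r ∧ ∀ ω : Ω, g • ω ≠ ω) →
      ∃ g : G, orderOf g = r ∧ ∀ ω : Ω, g • ω ≠ ω := by
    rintro ⟨g, h1, h2⟩
    exact ⟨g, by rwa [Subgroup.orderOf_coe], h2⟩
  by_cases h2 : m < 2 * r
  · exact hdown (shortcut hcard hr hrd h2)
  push Not at h2
  by_cases h6 : m = 6
  · apply hdown
    obtain ⟨ω⟩ : Nonempty Ω := inferInstance
    have hidx : (stabilizer T ω).index = Nat.card Ω := index_stabilizer_of_transitive T ω
    have hne : stabilizer T ω ≠ ⊤ := fun h => by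
      rw [h, Subgroup.index_top] at hidx; omega
    obtain ⟨M, hM, hle⟩ := (eq_top_or_exists_le_coatom _).resolve_left hne
    have hM1 : M.index ≠ 1 := fun h => hM.1 (Subgroup.index_eq_one.1 h)
    have hM0 : M.index ≠ 0 := M.index_ne_zero_of_finite
    haveI : Nontrivial (T ⧸ M) := Finite.one_lt_card_iff_nontrivial.1 (by
      rw [← Subgroup.index_eq_card]; omega)
    have hp : IsPreprimitive T (T ⧸ M) := by
      rw [← isCoatom_stabilizer_iff_preprimitive T ((1 : T) : T ⧸ M), stabilizer_quotient]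
      exact hM
    have hdv : Nat.card (T ⧸ M) ∣ Nat.card Ω := by
      rw [← hidx]; exact Subgroup.index_dvd_of_le hle
    have hne2 : (Nat.card (T ⧸ M)).primeFactors.Nonempty :=
      Nat.nonempty_primeFactors.2 Finite.one_lt_card
    set r' := (Nat.card (T ⧸ M)).primeFactors.max' hne2 with hr'
    have hr1 := Finset.max'_mem _ hne2
    rw [← hr'] at hr1
    have hr2 := Nat.prime_of_mem_primeFactors hr1
    have hr3 := Nat.dvd_of_mem_primeFactors hr1
    have hr4 := hmax r' hr2 (hr3.trans hdv)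
    obtain ⟨⟨g, hg1, hg2⟩, h4⟩ := core hp hm ((alternatingGroup (Fin m)).subtype.comp eT.toMonoidHom)
      (Subtype.val_injective.comp eT.injective)
      (fun a ha => ⟨eT.symm ⟨a, ha⟩, by simp⟩)
      (fun w => by
        obtain ⟨w', hw'⟩ := exists_ne w
        obtain ⟨g, hg⟩ := exists_smul_eq T w w'
        exact ⟨g, (eT g).2, by rw [hg]; exact hw'⟩) hr2 hr3
      (fun s hs hd => Finset.le_max' _ s (Nat.mem_primeFactors.2 ⟨hs, hd, Nat.card_pos.ne'⟩))
      (by omega)
    have hr5 : r' ≠ 2 := fun h => by have := h4 h; omega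
    have := hr2.two_le
    refine ⟨g, by omega, fun ω' h => ?_⟩
    obtain ⟨t, rfl⟩ := exists_smul_eq T ω ω'
    refine hg2 (t : T ⧸ M) ?_
    have h5 : (g * t)⁻¹ * t ∈ stabilizer T ω := by
      rw [mem_stabilizer_iff, mul_smul, inv_smul_eq_iff, mul_smul, h]
    exact QuotientGroup.eq.2 (hle h5)
  · let ψ := MulEquiv.ofBijective _ (Cfsg.Agent.S2119.result m (by omega) h6)
    let φ : G →* Perm (Fin m) :=
      ψ.symm.toMonoidHom.comp ((MulAut.congr eT).toMonoidHom.comp MulAut.conjNormal)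
    have hφT : ∀ t : T, φ t = eT t := by
      intro t
      show ψ.symm (MulAut.congr eT (MulAut.conjNormal (t : G))) = _
      rw [MulEquiv.symm_apply_eq]
      show _ = MulAut.conjNormal ((eT t : alternatingGroup (Fin m)) : Perm (Fin m))
      rw [MulAut.conjNormal_val, MulAut.conjNormal_val]
      ext1 a
      simp [MulAut.congr]
    have hφ : Function.Injective φ := by
      rw [injective_iff_map_eq_one]
      intro g hg
      have h1 : ψ.symm (MulAut.congr eT (MulAut.conjNormal g)) = 1 := hg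
      rw [map_eq_one_iff _ ψ.symm.injective, map_eq_one_iff _ (MulAut.congr eT).injective] at h1
      rw [← Subgroup.mem_bot, ← hTc, Subgroup.mem_centralizer_iff]
      intro t ht
      have h3 : g * t * g⁻¹ = t := by
        rw [← MulAut.conjNormal_apply (H := T) g ⟨t, ht⟩, h1]; rfl
      rw [← mul_inv_eq_iff_eq_mul.1 h3]
    refine (core hprim hm φ hφ (fun a ha => ⟨eT.symm ⟨a, ha⟩, by rw [hφT]; simp⟩)
      (fun w => ?_) hr hrd hmax h2).1
    obtain ⟨w', hw'⟩ := exists_ne w
    obtain ⟨g, hg⟩ := exists_smul_eq T w w'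
    exact ⟨g, by rw [hφT]; exact (eT g).2, by rw [← hg] at hw'; exact hw'⟩

end H13.AltDer
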