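import Cfsg.Agent.H3.S8h
import Cfsg.Prelude.Def_Local

/-! The product of two alternating groups of degree 5 in the second case. -/

set_option autoImplicit false
set_option maxRecDepth 100000
open Subgroup Equiv H3S

namespace H13.D1

def cc : Perm (Fin 5) := swap 0 1 * swap 1 2
def ee : Perm (Fin 5) := swap 0 1 * swap 3 4
def ff : Perm (Fin 5) := swap 0 3 * swap 1 4
def SL : List (Perm (Fin 5)) := [1, cc, cc * cc, ee, cc * ee, cc * cc * ee]

theorem gen5 : ∀ a : Perm (Fin 5), Perm.sign a = 1 →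
    ∃ x ∈ SL, ∃ y ∈ SL, a = x * ff * y ∨ ∃ w ∈ SL, a = x * ff * y * ff * w := by decide +kernel

theorem gen (C : Subgroup (Perm (Fin 5))) (h1 : cc ∈ C) (h2 : ee ∈ C) (h3 : ff ∈ C) (a : A5) :
    (a : Perm (Fin 5)) ∈ C := by
  have hS : ∀ x ∈ SL, x ∈ C := by
    intro x hx
    simp only [SL, List.mem_cons, List.not_mem_nil, or_false] at hx
    rcases hx with rfl | rfl | rfl | rfl | rfl | rfl
    exacts [one_mem _, h1, mul_mem h1 h1, h2, mul_mem h1 h2, mul_mem (mul_mem h1 h1) h2]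
  obtain ⟨x, hx, y, hy, e | ⟨w, hw, e⟩⟩ := gen5 a (Perm.mem_alternatingGroup.1 a.2) <;> rw [e]
  · exact mul_mem (mul_mem (hS x hx) h3) (hS y hy)
  · exact mul_mem (mul_mem (mul_mem (mul_mem (hS x hx) h3) (hS y hy)) h3) (hS w hw)

set_option synthInstance.maxSize 4000 in
set_option synthInstance.maxHeartbeats 400000 in
theorem cen4 : ∀ p : P, p * t0 = t0 * p → p * r0 = r0 * p → p * (r1 * t0) = r1 * t0 * p →
    p * p = 1 ∧ (v0 * p * v0 * p = 1 → p = 1 ∨ p = r0 ∨ p = r1 * t0 ∨ p = r0 * (r1 * t0)) := by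
  decide +kernel

theorem nc1 : ∀ p : P, p * r0 ≠ r1 * t0 * p := by decide +kernel
theorem nc2 : ∀ p : P, p * p = 1 → p * z0 * p ≠ z1 := by decide +kernel
theorem s3 : ∀ a : Perm (Fin 3), ∃ i ∈ [0, 1, 2], ∃ j ∈ [0, 1], ((a, 1) : P) = z0 ^ i * r0 ^ j := by
  decide +kernel
theorem zc : ∀ a : Perm (Fin 5), a * cc = cc * a → a * ff = ff * a → a = 1 := by decide +kernel
theorem c18 : Nat.card (centralizer ({z0 * z1} : Set P)) = 18 := by
  rw [Nat.card_congr (Equiv.subtypeEquivRight (q := fun p : P => p * (z0 * z1) = z0 * z1 * p)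
    fun p => mem_centralizer_singleton_iff), Nat.card_eq_fintype_card]
  decide +kernel

variable {G : Type*} [Group G] [Finite G] {φ : P →* G} {σ t : G} {ψ : Perm (Fin 6) →* G}
  {θ : A5 × A5 →* G}

theorem vv (h : Hy φ σ) (hc : σ * φ r0 * σ = φ (r1 * t0))
    (ct : ∀ g, g * φ t0 = φ t0 * g → g ∈ φ.range ∨ σ * g ∈ φ.range) :
    Commute (φ v0) (σ * φ v0 * σ) := by
  have si : σ⁻¹ = σ := inv_eq_of_mul_eq_one_right h.ss
  have cj : ∀ a b : G, σ * a * σ * (σ * b * σ) = σ * (a * b) * σ := fun a b => by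
    calc _ = σ * a * (σ * σ) * b * σ := by group
      _ = _ := by rw [h.ss]; group
  have hc' : σ * φ (r1 * t0) * σ = φ r0 := by
    rw [← hc]
    calc _ = (σ * σ) * φ r0 * (σ * σ) := by group
      _ = _ := by rw [h.ss]; group
  have mm : ∀ {a b c d : P}, a * b = c * d → φ a * φ b = φ c * φ d := fun e => by
    rw [← map_mul, ← map_mul, e]
  obtain ⟨v, hv⟩ : ∃ v, v = φ v0 := ⟨_, rfl⟩
  obtain ⟨r, hr⟩ : ∃ r, r = φ r0 := ⟨_, rfl⟩
  obtain ⟨s, hs⟩ : ∃ s, s = φ (r1 * t0) := ⟨_, rfl⟩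
  obtain ⟨u, hu⟩ : ∃ u, u = φ t0 := ⟨_, rfl⟩
  obtain ⟨w, hw⟩ : ∃ w, w = σ * φ v0 * σ := ⟨_, rfl⟩
  have v2 : v * v = 1 := by rw [hv, ← map_mul, ← map_one φ]; congr 1; decide
  have w2 : w * w = 1 := by rw [hw, cj, ← hv, v2, mul_one, h.ss]
  have vr : Commute v r := by rw [hv, hr]; exact mm (by decide)
  have vs : Commute v s := by rw [hv, hs]; exact mm (by decide)
  have rs : Commute r s := by rw [hr, hs]; exact mm (by decide)
  have r2 : r * r = 1 := by rw [hr, ← map_mul, ← map_one φ]; congr 1; decide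
  have s2 : s * s = 1 := by rw [hs, ← map_mul, ← map_one φ]; congr 1; decide
  have wr : Commute w r := by
    rw [hw, hr, ← hc']; change _ * _ = _ * _; rw [cj, cj, ← hv, ← hs, vs.eq]
  have ws : Commute w s := by
    rw [hw, hs, ← hc]; change _ * _ = _ * _; rw [cj, cj, ← hv, ← hr, vr.eq]
  have vu : v * u = u * s * v := by
    rw [hv, hu, hs, ← map_mul, ← map_mul, ← map_mul]; congr 1; decide
  have wu : w * u = u * r * w := by
    rw [hw, hu, hr, ← hc', ← h.st, cj, cj, cj, ← hv, ← hu, ← hs, vu]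
  have cu : v * w * v * w * u = u * (v * w * v * w) := by
    calc v * w * v * w * u = v * w * v * (w * u) := by group
      _ = v * w * (v * u) * r * w := by rw [wu]; group
      _ = v * (w * u) * s * (v * r) * w := by rw [vu]; group
      _ = (v * u) * r * (w * s) * r * v * w := by rw [wu, vr.eq]; group
      _ = u * s * (v * r) * s * (w * r) * v * w := by rw [vu, ws.eq]; group
      _ = u * (s * r) * (v * s) * r * w * v * w := by rw [vr.eq, wr.eq]; group
      _ = u * r * (s * s) * (v * r) * w * v * w := by rw [← rs.eq, vs.eq]; group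
      _ = u * (r * r) * v * w * v * w := by rw [s2, vr.eq]; group
      _ = _ := by rw [r2]; group
  have cr : Commute (v * w * v * w) r := ((vr.mul_left wr).mul_left vr).mul_left wr
  have cs : Commute (v * w * v * w) s := ((vs.mul_left ws).mul_left vs).mul_left ws
  have vi : v⁻¹ = v := inv_eq_of_mul_eq_one_right v2
  have wi : w⁻¹ = w := inv_eq_of_mul_eq_one_right w2
  rw [← hw, ← hv]
  have fin : v * w * v * w = 1 → Commute v w := fun e => by
    have : v * w = (v * w)⁻¹ := eq_inv_of_mul_eq_one_left (by rw [← e]; group)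
    change v * w = w * v
    rw [this, mul_inv_rev, vi, wi]
  rcases ct _ (hu ▸ cu) with ⟨p, hp⟩ | ⟨p, hp⟩
  · obtain ⟨p2, hp2⟩ := cen4 p (h.inj (by rw [map_mul, map_mul, hp, ← hu, cu]))
      (h.inj (by rw [map_mul, map_mul, hp, ← hr, cr.eq]))
      (h.inj (by rw [map_mul, map_mul φ _ p, hp, ← hs, cs.eq]))
    have pc : φ p * φ p = 1 := by rw [← map_mul, p2, map_one]
    have sp : σ * φ p * σ * φ p = 1 := by
      have e1 : σ * v * σ = w := by rw [hw, hv]
      have e2 : σ * w * σ = v := by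
        rw [hw, ← hv]
        calc _ = (σ * σ) * v * (σ * σ) := by group
          _ = _ := by rw [h.ss]; group
      have e3 : σ * (v * w * v * w) * σ = w * v * w * v := by rw [← cj, ← cj, ← cj, e1, e2]
      rw [hp, e3]
      calc w * v * w * v * (v * w * v * w) = w * v * w * (v * v) * w * v * w := by group
        _ = w * v * (w * w) * v * w := by rw [v2]; group
        _ = w * (v * v) * w := by rw [w2]; group
        _ = 1 := by rw [v2, mul_one, w2]
    have sp' : σ * φ p * σ = φ p := by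
      rw [eq_inv_of_mul_eq_one_left sp, inv_eq_of_mul_eq_one_right pc]
    rcases hp2 (h.inj (by
      rw [map_mul, map_mul, map_mul, hp, ← hv, map_one]
      calc v * (v * w * v * w) * v * (v * w * v * w)
          = (v * v) * w * v * w * (v * v) * w * v * w := by group
        _ = w * v * (w * w) * v * w := by rw [v2]; group
        _ = w * (v * v) * w := by rw [w2]; group
        _ = 1 := by rw [v2, mul_one, w2])) with e | e | e | e
    · exact fin (by rw [← hp, e, map_one])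
    · rw [e, hc] at sp'
      exact absurd (h.inj sp') (by decide)
    · rw [e, hc'] at sp'
      exact absurd (h.inj sp') (by decide)
    · exfalso
      have wz : Commute w (φ z1) := by
        rw [hw, ← h.sz]; change _ * _ = _ * _; rw [cj, cj, mm (show v0 * z0 = z0 * v0 by decide)]
      have e4 : w * φ (z1 * v0) * w⁻¹ = φ (z1 * v0 * p) := by
        rw [map_mul, map_mul, map_mul, hp, ← hv, wi, ← mul_assoc w, wz.eq]
        calc φ z1 * w * v * w = φ z1 * 1 * w * v * w := by group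
          _ = _ := by rw [← v2]; group
      have e5' : φ ((z1 * v0 * p) ^ 5) = φ 1 := by
        rw [map_pow, ← e4, conj_pow, ← map_pow, show (z1 * v0) ^ 5 = 1 by decide, map_one]; group
      rw [e] at e5'
      exact absurd (h.inj e5') (by decide)
  · exfalso
    refine nc1 p (h.inj ?_)
    rw [map_mul, map_mul φ _ p, hp, ← hr, ← hc, ← hr, mul_assoc σ, cr.eq]
    calc σ * (r * (v * w * v * w)) = σ * r * 1 * (v * w * v * w) := by group
      _ = _ := by rw [← h.ss]; group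

theorem d1 (h : Hy φ σ) (hc : σ * φ r0 * σ = φ (r1 * t0)) (ct : ∀ g, g * φ t0 = φ t0 * g → g ∈ φ.range ∨ σ * g ∈ φ.range) : ∃ θ, H2 θ (φ t0) σ := by
  have si : σ⁻¹ = σ := inv_eq_of_mul_eq_one_right h.ss
  have cj : ∀ a b : G, σ * a * σ * (σ * b * σ) = σ * (a * b) * σ := fun a b => by
    calc _ = σ * a * (σ * σ) * b * σ := by group
      _ = _ := by rw [h.ss]; group
  have cj2 : ∀ a : G, σ * (σ * a * σ) * σ = a := fun a => by
    calc _ = (σ * σ) * a * (σ * σ) := by group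
      _ = _ := by rw [h.ss]; group
  have hc' : σ * φ (r1 * t0) * σ = φ r0 := by rw [← hc, cj2]
  have sz' : σ * φ z1 * σ = φ z0 := by rw [← h.sz, cj2]
  have mm : ∀ {a b : P}, a * b = b * a → Commute (φ a) (φ b) := fun e => by
    change _ * _ = _ * _
    rw [← map_mul, ← map_mul, e]
  let f0 : Perm (Fin 5) →* G := φ.comp (MonoidHom.inr _ _)
  let g0 : Perm (Fin 5) →* G := (MulAut.conj σ).toMonoidHom.comp f0
  have g0e : ∀ b, g0 b = σ * f0 b * σ := fun b => by
    change σ * f0 b * σ⁻¹ = _; rw [si]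
  have fc : f0 cc = φ z1 := rfl
  have fe : f0 ee = φ (r1 * t0) := rfl
  have fv : f0 ff = φ v0 := rfl
  have p1 : ∀ (x : Perm (Fin 3)) (b : Perm (Fin 5)), Commute (φ (x, 1)) (f0 b) := fun x b =>
    mm (show ((x, 1) : P) * (1, b) = (1, b) * (x, 1) by simp)
  have hv := vv h hc ct
  have k1 : ∀ a : A5, Commute (f0 a) (g0 ff) := fun a => by
    refine mem_centralizer_singleton_iff.1 (gen ((centralizer {g0 ff}).comap f0) ?_ ?_ ?_ a) <;>
      refine mem_centralizer_singleton_iff.2 ?_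
    · rw [fc, g0e, ← h.sz, cj, cj, (show Commute (φ z0) (f0 ff) from p1 _ ff).eq]
    · rw [fe, g0e, ← hc, cj, cj, (show Commute (φ r0) (f0 ff) from p1 _ ff).eq]
    · rw [fv, g0e, fv]; exact hv
  have comm : ∀ a b : A5, Commute (f0 a) (g0 b) := fun a b => by
    refine (mem_centralizer_singleton_iff.1 (gen ((centralizer {f0 a}).comap g0) ?_ ?_ ?_ b)).symm <;>
      refine mem_centralizer_singleton_iff.2 ?_
    · rw [g0e, fc, sz']; exact p1 _ a
    · rw [g0e, fe, hc']; exact p1 _ a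
    · exact (k1 a).symm
  let θ : A5 × A5 →* G := MonoidHom.noncommCoprod (f0.comp (alternatingGroup (Fin 5)).subtype)
    (g0.comp (alternatingGroup (Fin 5)).subtype) comm
  have θe : ∀ a b : A5, θ (a, b) = f0 a * (σ * f0 b * σ) := fun a b => by
    rw [← g0e]; rfl
  have fi : Function.Injective f0 := fun a b e => (Prod.ext_iff.1 (h.inj e)).2
  have tt : φ t0 * φ t0 = 1 := by rw [← map_mul, ← map_one φ]; congr 1; decide
  have ts : φ t0 * σ = σ * φ t0 := by
    calc φ t0 * σ = σ * φ t0 * σ * σ := by rw [h.st]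
      _ = _ := by rw [mul_assoc, h.ss, mul_one]
  have tf : ∀ a : A5, φ t0 * f0 a * φ t0 = f0 (τ a) := fun a => by
    change φ t0 * φ (1, (a : Perm (Fin 5))) * φ t0 = φ (1, swap 3 4 * (a : Perm (Fin 5)) * (swap 3 4)⁻¹)
    rw [← map_mul, ← map_mul, swap_inv]; rfl
  have ta : ∀ a b, φ t0 * θ (a, b) * φ t0 = θ (τ a, τ b) := fun a b => by
    rw [θe, θe, ← tf, ← tf]
    calc _ = φ t0 * f0 a * 1 * σ * f0 b * (σ * φ t0) := by group
      _ = φ t0 * f0 a * φ t0 * (φ t0 * σ) * f0 b * (φ t0 * σ) := by rw [← tt, ← ts]; group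
      _ = _ := by rw [ts]; nth_rw 2 [← ts]; group
  have sa : ∀ a b, σ * θ (a, b) * σ = θ (b, a) := fun a b => by
    rw [θe, θe, ← cj, cj2, ← g0e, (comm b a).eq]
  have tm : ∀ m, ∃ m', φ t0 * θ m = θ m' * φ t0 := fun m => ⟨(τ m.1, τ m.2), by
    rw [← ta m.1 m.2, mul_assoc, tt, mul_one]⟩
  have sm : ∀ m, ∃ m', σ * θ m = θ m' * σ := fun m => ⟨(m.2, m.1), by
    rw [← sa m.1 m.2, mul_assoc, h.ss, mul_one]⟩
  have mul2 : ∀ {a b : G}, (∃ m, a = θ m ∨ a = θ m * φ t0) → (∃ m, b = θ m ∨ b = θ m * φ t0) →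
      ∃ m, a * b = θ m ∨ a * b = θ m * φ t0 := by
    rintro _ _ ⟨m, rfl | rfl⟩ ⟨n, rfl | rfl⟩
    · exact ⟨m * n, .inl (map_mul _ _ _).symm⟩
    · exact ⟨m * n, .inr (by rw [map_mul, mul_assoc])⟩
    · obtain ⟨n', e⟩ := tm n
      exact ⟨m * n', .inr (by rw [map_mul, mul_assoc, e, mul_assoc])⟩
    · obtain ⟨n', e⟩ := tm n
      exact ⟨m * n', .inl (by rw [map_mul, mul_assoc, ← mul_assoc (φ t0), e, mul_assoc, tt, mul_one])⟩
  have L2 : ∀ p : P, ∃ m, φ p = θ m ∨ φ p = θ m * φ t0 := by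
    rintro ⟨a, b⟩
    rw [show ((a, b) : P) = (a, 1) * (1, b) by simp, map_mul]
    refine mul2 ?_ ?_
    · obtain ⟨i, -, j, -, e⟩ := s3 a
      refine ⟨(1, c5) ^ i * (1, e5) ^ j, .inl ?_⟩
      rw [e, map_mul, map_mul, map_pow, map_pow, map_pow, map_pow, θe, θe, ← sz', ← hc']
      simp only [OneMemClass.coe_one, map_one, one_mul]; rfl
    · rcases Int.units_eq_one_or (Perm.sign b) with e | e
      · exact ⟨(⟨b, Perm.mem_alternatingGroup.2 e⟩, 1), .inl (by
          rw [θe]; simp only [OneMemClass.coe_one, map_one, mul_one, h.ss]; rfl)⟩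
      · refine ⟨(⟨b * swap 3 4, Perm.mem_alternatingGroup.2 (by
          rw [map_mul, e, Perm.sign_swap (by decide)]; rfl)⟩, 1), .inr ?_⟩
        rw [θe]; simp only [OneMemClass.coe_one, map_one, mul_one, h.ss]
        change _ = φ (1, b * swap 3 4) * φ (1, swap 3 4)
        rw [← map_mul]; congr 1
        simp [mul_assoc]
  have IN : ∀ g, g ∈ φ.range ∨ σ * g ∈ φ.range → In θ (φ t0) σ g := by
    rintro g (⟨p, rfl⟩ | ⟨p, hp⟩)
    · obtain ⟨m, e | e⟩ := L2 p
      exacts [⟨m, .inl e⟩, ⟨m, .inr (.inl e)⟩]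
    · have e0 : g = σ * φ p := by rw [hp, ← mul_assoc, h.ss, one_mul]
      obtain ⟨m, e | e⟩ := L2 p <;> obtain ⟨m', e'⟩ := sm m
      · exact ⟨m', .inr (.inr (.inl (by rw [e0, e, e'])))⟩
      · exact ⟨m', .inr (.inr (.inr (by rw [e0, e, ← mul_assoc, e', mul_assoc, ← ts, mul_assoc])))⟩
  have θc : θ (c5, 1) = φ z1 := by
    rw [θe]; simp only [OneMemClass.coe_one, map_one, mul_one, h.ss]; rfl
  have θy : θ (c5, c5) = φ z0 * φ z1 := by
    rw [θe, (mm (show z0 * z1 = z1 * z0 by decide)).eq, ← sz']; rfl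
  refine ⟨θ, ⟨(injective_iff_map_eq_one _).2 ?_, tt, h.ss, ts, ta, sa, fun g hg => IN g (ct g hg),
    fun g hg => ?_, fun g hg => IN g ?_, h.n27⟩⟩
  · rintro ⟨a, b⟩ e
    rw [θe, ← g0e] at e
    have e1 : f0 a = (g0 b)⁻¹ := eq_inv_of_mul_eq_one_left e
    have e2 : ∀ x : A5, (a : Perm (Fin 5)) * x = x * a := fun x => fi (by
      rw [map_mul, map_mul, e1]; exact (comm x b).inv_right.symm)
    have a1 : (a : Perm (Fin 5)) = 1 := zc a (e2 c5) (e2 f5)
    rw [a1, map_one, one_mul, g0e] at e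
    have b1 : f0 b = f0 1 := by rw [← cj2 (f0 b), e, mul_one, h.ss, map_one]
    exact Prod.ext (Subtype.ext a1) (Subtype.ext (fi b1))
  · rw [θc] at hg
    obtain ⟨k, hk⟩ := hg
    obtain ⟨p, hp⟩ := h.nz (σ * g * σ) ⟨k, by
      have hk' : φ z1 ^ k = g * φ z1 * g⁻¹ := hk
      have e : φ z0 = σ * φ z1 * σ⁻¹ := by rw [si, sz']
      change φ z0 ^ k = _
      rw [e, conj_zpow, hk']
      calc _ = σ * g * (σ * σ) * φ z1 * (σ * σ)⁻¹ * g⁻¹ * σ⁻¹ := by rw [h.ss]; group
        _ = _ := by group⟩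
    have e0 : g = σ * φ p * σ := by rw [hp, cj2]
    obtain ⟨m, e | e⟩ := L2 p
    · exact ⟨(m.2, m.1), .inl (by rw [e0, e, ← sa m.1 m.2])⟩
    · exact ⟨(m.2, m.1), .inr (by
        rw [e0, e, ← sa m.1 m.2, ← mul_assoc, mul_assoc _ _ σ, ts, ← mul_assoc])⟩
  · rw [θy] at hg
    have gm : g ∈ centralizer ({φ z0 * φ z1} : Set G) := mem_centralizer_singleton_iff.2 hg
    have sm' : σ ∈ centralizer ({φ z0 * φ z1} : Set G) := mem_centralizer_singleton_iff.2 (by
      have : σ * (φ z0 * φ z1) * σ = φ z0 * φ z1 := by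
        rw [← cj, h.sz, sz', (mm (show z0 * z1 = z1 * z0 by decide)).eq]
      calc σ * (φ z0 * φ z1) = σ * (φ z0 * φ z1) * σ * σ := by rw [mul_assoc _ σ σ, h.ss, mul_one]
        _ = _ := by rw [this])
    have sn : σ ∉ φ.range := by
      rintro ⟨p, hp⟩
      exact nc2 p (h.inj (by rw [map_mul, hp, h.ss, map_one]))
        (h.inj (by rw [map_mul, map_mul, hp, h.sz]))
    let B := φ.range.subgroupOf (centralizer ({φ z0 * φ z1} : Set G))
    have le : (centralizer ({z0 * z1} : Set P)).map φ ≤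
        φ.range ⊓ centralizer ({φ z0 * φ z1} : Set G) := by
      rintro _ ⟨p, hp, rfl⟩
      exact ⟨⟨p, rfl⟩, mem_centralizer_singleton_iff.2 (by
        rw [← map_mul, ← map_mul, ← map_mul, mem_centralizer_singleton_iff.1 hp])⟩
    have d18 : 18 ∣ Nat.card B := by
      have := card_dvd_of_le le
      rw [card_map_of_injective h.inj, c18, ← subgroupOf_map_subtype, card_subtype] at this
      exact this
    have ci := B.card_mul_index
    rw [h.cy] at ci
    have i1 : B.index ≠ 1 := fun c => sn (by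
      have : (⟨σ, sm'⟩ : centralizer ({φ z0 * φ z1} : Set G)) ∈ B := by
        rw [index_eq_one.1 c]; exact mem_top _
      exact this)
    have i2 : B.index = 2 := by
      obtain ⟨k, hk⟩ := d18
      rw [hk] at ci
      have : k * B.index = 2 := by linarith
      have d2 : B.index ∣ 2 := Dvd.intro_left k this
      exact ((Nat.dvd_prime Nat.prime_two).1 d2).resolve_left i1
    by_cases c : g ∈ φ.range
    · exact .inl c
    · exact .inr ((mul_mem_iff_of_index_two i2 (a := ⟨σ, sm'⟩) (b := ⟨g, gm⟩)).2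
        (iff_of_false sn c))

end H13.D1
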