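import Cfsg.Agent.H2.Sm3
import Cfsg.Agent.S0713

/-! There is no simple group of order 3600. -/

set_option autoImplicit false

namespace H13.E36

open Subgroup MulAction H2

variable {G : Type*} [Group G] [Finite G]

theorem n150 (h : Nat.card G = 150) : Nat.card (Sylow 5 G) = 1 := by
  haveI : Fact (Nat.Prime 2) := ⟨by norm_num⟩
  haveI : Fact (Nat.Prime 5) := ⟨by norm_num⟩
  obtain ⟨T⟩ : Nonempty (Sylow 2 G) := inferInstance
  have hT : Nat.card (T : Subgroup G) = 2 ^ 1 := sm_card_sylow_eq T (m := 75) (by rw [h]; norm_num) (by norm_num)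
  have hc : IsCyclic (T : Subgroup G) := isCyclic_of_prime_card (p := 2) (by simpa using hT)
  have hm : (Nat.card G).minFac = 2 := by rw [h]; norm_num
  have hK := hc.isComplement' hm
  set K := (MonoidHom.transferSylow T (hc.normalizer_le_centralizer hm)).ker with hKd
  haveI : K.Normal := by rw [hKd]; infer_instance
  have hk : Nat.card K = 75 := by
    have := hK.card_mul_card
    rw [hT, h] at this; omega
  obtain ⟨Q⟩ : Nonempty (Sylow 5 K) := inferInstance
  have hQ : Nat.card (Q : Subgroup K) = 5 ^ 2 := sm_card_sylow_eq Q (m := 3) (by rw [hk]; norm_num) (by norm_num)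
  have hQi : (Q : Subgroup K).index = 3 := sm_index_sylow_eq Q (k := 2) (by rw [hk]; norm_num) (by norm_num)
  have h1 : Nat.card (Sylow 5 K) = 1 := by
    have a := card_sylow_modEq_one 5 K
    have b := Sylow.card_dvd_index Q
    rw [hQi] at b
    have c := Nat.le_of_dvd (by norm_num) b
    generalize Nat.card (Sylow 5 K) = n at a b c
    interval_cases n <;> first | rfl | (exfalso; revert a; decide)
  have hN := sm_normal_of_sylow_normal Q (sm_normal_of_card_sylow Q h1)
  have hN' : Nat.card ((Q : Subgroup K).map K.subtype) = 5 ^ (Nat.card G).factorization 5 := by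
    rw [card_map_of_injective K.subtype_injective, hQ, h]
    have : (150 : ℕ).factorization 5 = 2 := by
      have : (150 : ℕ) = 5 ^ 2 * 6 := by norm_num
      rw [this, Nat.factorization_mul (by norm_num) (by norm_num), Nat.factorization_pow]
      simp [Nat.Prime.factorization_self (by norm_num : Nat.Prime 5),
        Nat.factorization_eq_zero_of_not_dvd (by norm_num : ¬ 5 ∣ 6)]
    rw [this]
  let S : Sylow 5 G := Sylow.ofCard _ hN'
  haveI : (S : Subgroup G).Normal := hN
  haveI := Sylow.unique_of_normal S inferInstance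
  exact Nat.card_unique

theorem idx [IsSimpleGroup G] (h : Nat.card G = 3600) {H : Subgroup G} (hH : H ≠ ⊤) : 10 ≤ H.index := by
  have hG : ¬ IsMulCommutative G := sm_noncomm_of_card (by rw [h]; norm_num)
  have a := sm_two_card_dvd hG H hH
  rw [h] at a
  by_contra hl
  push Not at hl
  have b : H.index.factorial ∣ Nat.factorial 9 := Nat.factorial_dvd_factorial (by omega)
  have c := a.trans b
  revert c; decide

theorem no12 [IsSimpleGroup G] (h : Nat.card G = 3600) {H : Subgroup G} (hH : H.index = 12) : False := by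
  classical
  haveI : Fact (Nat.Prime 5) := ⟨by norm_num⟩
  haveI := Fintype.ofFinite (G ⧸ H)
  have hne : H ≠ ⊤ := by rintro rfl; simp at hH
  have hα : Nat.card (G ⧸ H) = 12 := hH
  have hα' : Fintype.card (G ⧸ H) = 12 := by rw [← hα, Nat.card_eq_fintype_card]
  have hinj := sm_toPermHom_injective (sm_quot_nontriv hne)
  have hco : IsCoatom H := by
    refine ⟨hne, fun M hM => ?_⟩
    by_contra hM'
    have a := idx h hM'
    have b := relIndex_mul_index hM.le
    rw [hH] at b
    have c : H.relIndex M ≠ 1 := fun e => hM.not_ge (relIndex_eq_one.mp e)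
    have d : H.relIndex M ≠ 0 := by rintro e; rw [e] at b; omega
    have : 2 ≤ H.relIndex M := by omega
    nlinarith
  haveI : Nontrivial (G ⧸ H) := by
    rw [← Finite.one_lt_card_iff_nontrivial, hα]; norm_num
  have hprim : IsPreprimitive G (G ⧸ H) := by
    rw [← isCoatom_stabilizer_iff_preprimitive G ((1 : G) : G ⧸ H), stabilizer_quotient]; exact hco
  have hprim' : IsPreprimitive (toPermHom G (G ⧸ H)).range (G ⧸ H) := by
    let f : (G ⧸ H) →ₑ[(toPermHom G (G ⧸ H)).rangeRestrict] (G ⧸ H) := ⟨id, fun _ _ => rfl⟩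
    exact IsPreprimitive.of_surjective (f := f) Function.surjective_id
  obtain ⟨P⟩ : Nonempty (Sylow 5 G) := inferInstance
  have hP : Nat.card (P : Subgroup G) = 5 ^ 2 := sm_card_sylow_eq P (m := 144) (by rw [h]; norm_num) (by norm_num)
  have hPc := IsPGroup.isMulCommutative_of_card_eq_prime_sq hP
  have hx : ∃ (y : P) (x : G ⧸ H), y • x ≠ x := by
    by_contra hn
    push Not at hn
    have : (P : Subgroup G) = ⊥ := by
      rw [eq_bot_iff]; intro y hy
      rw [mem_bot]; apply hinj
      refine Equiv.ext fun x => ?_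
      rw [map_one]; exact hn ⟨y, hy⟩ x
    rw [this] at hP; simp at hP
  obtain ⟨y, x, hy⟩ := hx
  set S := stabilizer (P : Subgroup G) x with hS
  have hi : S.index = (orbit (P : Subgroup G) x).ncard := index_stabilizer _ x
  have hi1 : S.index ≠ 1 := by
    intro e; rw [index_eq_one] at e
    exact hy (show y ∈ S from e ▸ mem_top y)
  have hi2 : S.index ≤ 12 := by
    rw [hi, ← hα, ← Set.ncard_univ]; exact Set.ncard_le_ncard (Set.subset_univ _)
  have hi3 : S.index ∣ 25 := by have := S.index_dvd_card; rwa [hP] at this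
  have hi5 : S.index = 5 := by
    generalize S.index = n at hi1 hi2 hi3
    interval_cases n <;> first | rfl | omega
  have hSc : Nat.card S = 5 := by
    have := S.card_mul_index; rw [hi5, hP] at this; omega
  obtain ⟨g, hg, hg1⟩ := sm_exists_ne_one (p := 5) hSc
  have ho : orderOf g = 5 := sm_orderOf_eq hSc hg hg1
  set σ := toPermHom G (G ⧸ H) (g : G) with hσ
  have ho' : orderOf σ = 5 := by
    rw [hσ, orderOf_injective _ hinj, orderOf_coe, ho]
  have hsup : σ.support.card ≤ 7 := by
    have a : σ.support ⊆ (orbit (P : Subgroup G) x).toFinsetᶜ := by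
      intro z hz
      rw [Finset.mem_compl, Set.mem_toFinset]
      rintro ⟨u, rfl⟩
      apply Equiv.Perm.mem_support.mp hz
      have e : g • x = x := hg
      show g • (u • x) = u • x
      rw [← mul_smul, hPc.is_comm.comm g u, mul_smul, e]
    have b := Finset.card_le_card a
    rw [Finset.card_compl, hα', ← Set.ncard_eq_toFinset_card', ← hi, hi5] at b
    exact b
  have hcy : σ.IsCycle := Equiv.Perm.isCycle_of_prime_order (by rw [ho']; norm_num) (by rw [ho']; omega)
  have hA := Cfsg.Agent.S0713.result _ hprim' (p := 5) (by norm_num) (by omega) (by omega) hcy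
    (by rw [← hcy.orderOf, ho']) ⟨g, rfl⟩
  have a := card_le_of_le hA
  have b : Nat.card (toPermHom G (G ⧸ H)).range = 3600 := by
    rw [← h]; exact (Nat.card_congr (MonoidHom.ofInjective hinj).toEquiv).symm
  have c := two_mul_nat_card_alternatingGroup (α := G ⧸ H)
  rw [Nat.card_perm, hα] at c
  rw [b] at a
  have d : Nat.factorial 12 = 479001600 := by decide
  omega

theorem no3600 [IsSimpleGroup G] : Nat.card G ≠ 3600 := by
  intro h
  haveI : Fact (Nat.Prime 5) := ⟨by norm_num⟩
  have hG : ¬ IsMulCommutative G := sm_noncomm_of_card (by rw [h]; norm_num)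
  obtain ⟨P⟩ : Nonempty (Sylow 5 G) := inferInstance
  have hP : Nat.card (P : Subgroup G) = 5 ^ 2 := sm_card_sylow_eq P (m := 144) (by rw [h]; norm_num) (by norm_num)
  have hPi : (P : Subgroup G).index = 144 := sm_index_sylow_eq P (k := 2) (by rw [h]; norm_num) (by norm_num)
  have hn : ¬ Nat.card (Sylow 5 G) ≡ 1 [MOD 5 ^ 2] := by
    have a := sm_card_sylow_ne_one (p := 5) hG (by rw [h]; norm_num)
    have b := Sylow.card_dvd_index P
    rw [hPi] at b
    have c := Nat.le_of_dvd (by norm_num) b
    intro d
    unfold Nat.ModEq at d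
    generalize Nat.card (Sylow 5 G) = n at a b c d
    have : n = 26 ∨ n = 51 ∨ n = 76 ∨ n = 101 ∨ n = 126 := by omega
    rcases this with rfl | rfl | rfl | rfl | rfl <;> omega
  obtain ⟨R, hR, hD, h1, h2⟩ := sm_exists_inter hn P
  set D : Subgroup G := (R : Subgroup G) ⊓ P with hDd
  have hD5 : Nat.card D = 5 := by rw [hP] at hD; omega
  set H := normalizer (D : Set G) with hHd
  have hH : H ≠ ⊤ := sm_normalizer_ne_top (by intro e; rw [e] at hD5; simp at hD5)
    (by intro e; rw [e, card_top, h] at hD5; omega)
  have a := idx h hH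
  obtain ⟨b, c, d⟩ := sm_card_sub P h1
  have e := sm_card_sylow_sub_ne_one hR h1 h2
  have f := card_sylow_modEq_one 5 H
  rw [hPi] at d
  rw [hP] at b
  have hc : (P : Subgroup G).relIndex H ≤ 14 := by nlinarith
  have hc0 : (P : Subgroup G).relIndex H ≠ 0 := by intro z; rw [z] at d; omega
  have g := Nat.le_of_dvd (Nat.pos_of_ne_zero hc0) c
  have hd : (P : Subgroup G).relIndex H ∣ 144 := ⟨_, d.symm⟩
  unfold Nat.ModEq at f
  have hn6 : Nat.card (Sylow 5 H) = 6 ∨ Nat.card (Sylow 5 H) = 11 := by omega
  have : (P : Subgroup G).relIndex H = 6 ∨ (P : Subgroup G).relIndex H = 12 := by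
    rcases hn6 with z | z
    · rw [z] at c; omega
    · rw [z] at c
      have : (P : Subgroup G).relIndex H = 11 := by omega
      rw [this] at hd; omega
  rcases this with z | z
  · exact e (n150 (by rw [b, z]; norm_num))
  · exact no12 h (H := H) (by rw [z] at d; omega)

end H13.E36
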