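import Cfsg.Agent.H13.AbEss

/-! Fusion systems over `p`-groups with a unique abelian subgroup of index `p`. -/

set_option autoImplicit false

namespace H13

open Equiv Cfsg Cfsg.FusionSystem Matrix
open scoped commutatorElement MatrixGroups

variable {G : Type*} [Group G] [Finite G] {p : ℕ} [hp : Fact p.Prime]

/-- a unique abelian subgroup of index `p` -/
structure UA (p : ℕ) (A : Subgroup G) : Prop where
  pg : IsPGroup p G
  nab : ¬ IsMulCommutative G
  comm : IsMulCommutative A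
  idx : A.index = p
  uniq : ∀ B : Subgroup G, IsMulCommutative B → B.index = p → B = A

omit [Finite G] in
theorem comm_of_le_cent {B : Subgroup G} (h : B ≤ Subgroup.centralizer (B : Set G)) : IsMulCommutative B :=
  ⟨⟨fun x y => Subtype.ext (h y.2 x x.2)⟩⟩

namespace UA

variable {A : Subgroup G} (h : UA p A)
include h

omit [Finite G] hp in
theorem commute {a b : G} (ha : a ∈ A) (hb : b ∈ A) : Commute a b :=
  congrArg Subtype.val (h.comm.1.1 ⟨a, ha⟩ ⟨b, hb⟩)

omit [Finite G] in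
theorem coatom : IsCoatom A := H9.isCoatom_of_index_eq_prime h.idx

theorem normal : A.Normal := H9.normal_of_index_eq_prime h.pg h.idx

omit [Finite G] in
theorem mem_of {K : Subgroup G} (hK : A ≤ K) {x : G} (hx : x ∉ A) (hx' : x ∈ K) (g : G) : g ∈ K :=
  (h.coatom.2 K (lt_of_le_not_ge hK fun e => hx (e hx'))).ge trivial

omit [Finite G] in
theorem mem_center {a x : G} (ha : a ∈ A) (hx : x ∉ A) (e : Commute a x) : a ∈ Subgroup.center G :=
  Subgroup.mem_center_iff.2 fun g => Subgroup.mem_centralizer_singleton_iff.1 (h.mem_of (K := Subgroup.centralizer {a})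
    (fun _ hb => Subgroup.mem_centralizer_singleton_iff.2 (h.commute hb ha))
    hx (Subgroup.mem_centralizer_singleton_iff.2 e.symm) g)

omit [Finite G] in
theorem center_le : Subgroup.center G ≤ A := fun z hz => by
  by_contra h1
  have h2 : ∀ g, g ∈ Subgroup.center G := h.mem_of (fun a ha => h.mem_center ha h1
    (H9.commute_of_mem_center hz a)) h1 hz
  exact h.nab ⟨⟨fun a b => Subgroup.mem_center_iff.1 (h2 b) a⟩⟩

omit [Finite G] in
theorem exists_not_mem : ∃ x, x ∉ A := by simpa [Subgroup.eq_top_iff'] using h.coatom.1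

omit [Finite G] hp in
theorem card : Nat.card G = p * Nat.card A := by rw [← h.idx, A.index_mul_card]

theorem commutator_le : commutator G ≤ A := haveI := h.pg.isNilpotent; H9.commutator_le_coatom h.coatom

theorem sq_le : p ^ 2 * Nat.card (Subgroup.center G) ≤ Nat.card A := by
  obtain ⟨x, hx⟩ := h.exists_not_mem
  have h1 := H9.card_sup_zpowers hp.out ((Subgroup.normalizer_eq_top _).ge trivial) (fun e => hx (h.center_le e))
    (h.mem_center (H9.pow_mem_coatom h.pg h.coatom x) hx ((Commute.refl x).pow_left p))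
  have h2 := H9.isMulCommutative_sup_zpowers (A := Subgroup.center G) inferInstance (x := x)
    fun z hz => (Subgroup.mem_center_iff.1 hz x).symm
  have h3 : Subgroup.center G < A := lt_of_le_not_ge h.center_le fun e => h.nab ⟨⟨fun a b =>
    congrArg Subtype.val (h2.1.1 ⟨a, h.mem_of (e.trans le_sup_left) hx
      (Subgroup.mem_sup_right (Subgroup.mem_zpowers x)) a⟩ ⟨b, h.mem_of (e.trans le_sup_left) hx
      (Subgroup.mem_sup_right (Subgroup.mem_zpowers x)) b⟩)⟩⟩
  obtain ⟨a, ha⟩ := IsPGroup.iff_card.1 (h.pg.to_subgroup A)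
  obtain ⟨b, hb⟩ := IsPGroup.iff_card.1 (h.pg.to_subgroup (Subgroup.center G))
  have h4 := mul_card_le_of_lt (h.pg.to_subgroup A) h3
  have h5 : Nat.card A ≠ p * Nat.card (Subgroup.center G) := fun e => hx ((h.uniq _ h2
    (Nat.eq_of_mul_eq_mul_right (Nat.card_pos (α := A)) (by
      rw [← h.card, e, ← h1, Subgroup.index_mul_card]))).le (Subgroup.mem_sup_right (Subgroup.mem_zpowers x)))
  rw [ha, hb, ← pow_succ'] at h4 h5
  rw [ha, hb, ← pow_add]
  have := (Nat.pow_le_pow_iff_right hp.out.one_lt).1 h4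
  refine Nat.pow_le_pow_right hp.out.pos ?_
  have : a ≠ b + 1 := fun e => h5 (by rw [e])
  omega

variable {x : G} (hx : x ∉ A)
include hx

omit hx in
theorem comm_mem {a : G} (ha : a ∈ A) (g : G) : ⁅a, g⁆ ∈ A :=
  h.commutator_le (Subgroup.commutator_mem_commutator trivial trivial)

omit hx in
theorem hom (x : G) : HomOn A fun a => ⁅a, x⁆ := fun a ha b hb => by
  beta_reduce
  rw [H9.commutator_mul_left_of_commute (h.commute ha (h.comm_mem hb x)),
    (h.commute (h.comm_mem hb x) (h.comm_mem ha x)).eq]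

omit [Finite G] in
theorem comm_mem_of {N : Subgroup G} [N.Normal] {a : G} (ha : a ∈ A) (e : ⁅a, x⁆ ∈ N) (g : G) : ⁅a, g⁆ ∈ N :=
  comm_swap (h.mem_of (K := H9.centMod N {a}) (fun b hb _ e => by
    rw [e, commutatorElement_eq_one_iff_commute.2 (h.commute hb ha)]; exact N.one_mem) hx
    (fun _ e' => e' ▸ comm_swap e) g a rfl)

omit [Finite G] in
theorem commutator_le_of {N : Subgroup G} [N.Normal] (e : ∀ a ∈ A, ⁅a, x⁆ ∈ N) : commutator G ≤ N :=
  Subgroup.commutator_le.2 fun g _ k _ => h.mem_of (K := H9.centMod N {k})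
    (fun a ha _ _ => h.comm_mem_of hx ha (e a ha) _) hx (fun _ e' => e' ▸ comm_swap (h.mem_of (K := H9.centMod N {x})
      (fun a ha _ _ => h.comm_mem_of hx ha (e a ha) _) hx (by rintro _ rfl; simp) k x rfl)) g k rfl

theorem img_eq : img (fun a => ⁅a, x⁆) A = commutator G := by
  haveI := h.normal
  have h1 : img (fun a => ⁅a, x⁆) A ≤ commutator G :=
    img_le_iff.2 fun a _ => Subgroup.commutator_mem_commutator trivial trivial
  haveI : (img (fun a => ⁅a, x⁆) A).Normal := Subgroup.normalizer_eq_top_iff.1 (eq_top_iff.2 fun g _ =>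
    h.mem_of (le_normalizer_iff.2 fun a ha y hy => by
      rwa [(h.commute ha (h.commutator_le (h1 hy))).eq, mul_inv_cancel_right]) hx (normalizer_of_finite fun y hy => by
        obtain ⟨a, ha, rfl⟩ := (h.hom x).mem_img.1 hy
        exact (h.hom x).mem_img.2 ⟨_, h.normal.conj_mem _ ha x, by group⟩) g)
  exact le_antisymm h1 (h.commutator_le_of hx fun a ha => mem_img_of_mem (fun a => ⁅a, x⁆) ha)

theorem pre_bot {K : Subgroup G} (h1 : Subgroup.center G ≤ K) (h2 : K ≤ A) :
    pre K (fun a => ⁅a, x⁆) ⊥ = Subgroup.center G := by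
  ext a
  rw [((h.hom x).mono h2).mem_pre, Subgroup.mem_bot, commutatorElement_eq_one_iff_commute]
  exact ⟨fun e => h.mem_center (h2 e.1) hx e.2, fun e => ⟨h1 e, (H9.commute_of_mem_center e x).symm⟩⟩

theorem pre_center : pre A (fun a => ⁅a, x⁆) (Subgroup.center G) = Subgroup.upperCentralSeries G 2 ⊓ A := by
  ext a
  rw [(h.hom x).mem_pre, Subgroup.mem_inf, H9.mem_upper_two_iff]
  exact ⟨fun e => ⟨h.comm_mem_of hx e.1 e.2, e.1⟩, fun e => ⟨e.2, e.1 x⟩⟩

omit hx in
theorem card_eq : Nat.card A = Nat.card (Subgroup.center G) * Nat.card (commutator G) := by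
  obtain ⟨x, hx⟩ := h.exists_not_mem
  rw [(h.hom x).card_eq_card_pre_bot_mul, h.pre_bot hx h.center_le le_rfl, h.img_eq hx]

omit hx h hp [Finite G] in
theorem center_le_two : Subgroup.center G ≤ Subgroup.upperCentralSeries G 2 :=
  Subgroup.upperCentralSeries_one G ▸ Subgroup.upperCentralSeries_mono G one_le_two

omit hx in
theorem card_two : Nat.card (Subgroup.upperCentralSeries G 2 ⊓ A : Subgroup G) =
    Nat.card (Subgroup.center G) * Nat.card (Subgroup.center G ⊓ commutator G : Subgroup G) := by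
  obtain ⟨x, hx⟩ := h.exists_not_mem
  rw [((h.hom x).mono inf_le_right).card_eq_card_pre_bot_mul, h.pre_bot hx (le_inf center_le_two h.center_le)
    inf_le_right, ← h.pre_center hx, (h.hom x).img_pre, h.img_eq hx]

omit hx in
theorem two_le (h1 : ¬ commutator G ≤ Subgroup.center G) : Subgroup.upperCentralSeries G 2 ≤ A := fun y hy => by
  by_contra h2
  exact h1 (h.commutator_le_of h2 fun a _ => comm_swap (H9.mem_upper_two_iff.1 hy a))

omit hx in
theorem sq_le_commutator : p ^ 2 ≤ Nat.card (commutator G) := by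
  have := h.sq_le
  rw [h.card_eq, mul_comm] at this
  exact Nat.le_of_mul_le_mul_left this Nat.card_pos

omit hx in
theorem pow_le_lc (h1 : Nat.card (Subgroup.center G ⊓ commutator G : Subgroup G) ≤ p) (i : ℕ) :
    Nat.card (commutator G) ≤ p ^ i * Nat.card (lc G (i + 1)) := by
  obtain ⟨x, hx⟩ := h.exists_not_mem
  induction i with
  | zero => exact (one_mul _).ge
  | succ i ih =>
    have h2 : lc G (i + 1) ≤ commutator G := lc_anti (i := 1) (by omega)
    have h3 := H9.card_le_mul_card_centralizer (H := lc G (i + 1)) (x := x) fun g hg => comm_swap (comm_mem_lc' x hg)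
    have h4 := (Subgroup.card_le_of_le (show lc G (i + 1) ⊓ Subgroup.centralizer {x} ≤ _ ⊓ _ from fun y hy =>
      ⟨h.mem_center (h.commutator_le (h2 hy.1)) hx (Subgroup.mem_centralizer_singleton_iff.1 hy.2), h2 hy.1⟩)).trans h1
    exact ih.trans ((Nat.mul_le_mul_left _ (h3.trans (Nat.mul_le_mul_left _ h4))).trans_eq (by ring))

omit hx in
theorem lc_not_le (h1 : Nat.card (Subgroup.center G ⊓ commutator G : Subgroup G) ≤ p) {m : ℕ}
    (hm : (Subgroup.center G).index = p ^ m) (h3 : 3 ≤ m) : ¬ lc G (m - 2) ≤ Subgroup.center G := fun e => by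
  have h4 := (Subgroup.center G).index_mul_card
  rw [hm, h.card, h.card_eq, mul_comm (Nat.card (Subgroup.center G)), ← mul_assoc] at h4
  have h5 := h.pow_le_lc h1 (m - 3)
  rw [show m - 3 + 1 = m - 2 by omega] at h5
  have h6 := (Nat.eq_of_mul_eq_mul_right Nat.card_pos h4).le.trans (Nat.mul_le_mul_left _ (h5.trans
    (Nat.mul_le_mul_left _ ((Subgroup.card_le_of_le (le_inf e (lc_anti (i := 1) (by omega)))).trans h1))))
  rw [← pow_succ, ← pow_succ', Nat.pow_le_pow_iff_right hp.out.one_lt] at h6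
  omega

omit hx in
theorem card_inf (P : Subgroup G) : Nat.card P ≤ p * Nat.card (P ⊓ A : Subgroup G) := by
  simpa using card_inf_le (le_top (a := A)) (m := p) (by rw [Subgroup.card_top, h.card]) P

theorem eq_sup {P : Subgroup G} (hxP : x ∈ P) : P = P ⊓ A ⊔ Subgroup.zpowers x :=
  ((eq_or_eq_of_card_le h.pg le_sup_left (sup_le inf_le_left (Subgroup.zpowers_le.2 hxP)) (h.card_inf P)).resolve_left
    fun e => hx (e.le (Subgroup.mem_sup_right (Subgroup.mem_zpowers x))).2).symm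

variable {F : FusionSystem (⊤ : Subgroup G)} {P : Subgroup G}

omit hx in
theorem exists_mem (hP : EssD p F P) (hne : P ≠ A) : ∃ x ∈ P, x ∉ A := by
  by_contra! h1
  exact hne (le_antisymm h1 fun a ha => hP.cent fun y hy => h.commute (h1 y hy) ha)

theorem card_eq_inf (hxP : x ∈ P) : Nat.card P = p * Nat.card (P ⊓ A : Subgroup G) :=
  (card_le_mul_cases (h.pg.to_subgroup P) inf_le_left (h.card_inf P)).resolve_left fun e => hx (e.le hxP).2

omit h hx hp [Finite G] in
theorem fix_center : ∀ u ∈ AutBy ⊤ P, ∀ z ∈ Subgroup.center G, u z = z := fun u hu z hz => by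
  obtain ⟨g, -, hg, rfl⟩ := mem_autBy.1 hu
  by_cases h1 : z ∈ P
  · rw [cr_apply hg h1, Subgroup.mem_center_iff.1 hz g, mul_inv_cancel_right]
  · exact cr_apply_of_not_mem g h1

/-- abelian essential subgroups -/
theorem ab_ess (hP : EssD p F P) (hxP : x ∈ P) (hc : IsMulCommutative P) :
    P ⊓ A = Subgroup.center G ∧ ∃ Y χ, Y ≤ Subgroup.center G ∧ (∀ β ∈ OUp' p (AutF F P), ∀ y ∈ Y, β y = y) ∧
      SL2D p P (AutF F P) (AutBy ⊤ P) P Y χ := by
  have h1 : ∀ a ∈ P, ∀ b ∈ P, Commute a b := fun a ha b hb => congrArg Subtype.val (hc.1.1 ⟨a, ha⟩ ⟨b, hb⟩)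
  have h2 : P ⊓ A = Subgroup.center G := le_antisymm (fun a ha => h.mem_center ha.2 hx (h1 a ha.1 x hxP))
    (le_inf hP.center_le h.center_le)
  exact ⟨h2, hP.rad.sl2_axis h1 hP.center_le (h2 ▸ h.card_eq_inf hx hxP) fix_center⟩

theorem cent_eq (hP : EssD p F P) (hxP : x ∈ P) (hc : ¬ IsMulCommutative P) :
    centralizerIn P P = Subgroup.center G := by
  refine le_antisymm (fun y hy => ?_) (le_inf hP.center_le (Subgroup.center_le_centralizer _))
  by_cases h1 : y ∈ A
  · exact h.mem_center h1 hx (hy.2 x hxP).symm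
  · refine absurd ?_ hc
    rw [h.eq_sup h1 hy.1]
    exact H9.isMulCommutative_sup_zpowers (comm_of_le_cent (B := P ⊓ A) fun a ha b hb => h.commute hb.2 ha.2)
      fun a ha => hy.2 a ha.1

/-- non-abelian essential subgroups -/
theorem nab_ess (hP : EssD p F P) (hxP : x ∈ P) (hc : ¬ IsMulCommutative P) :
    Subgroup.upperCentralSeries G 2 ≤ A ∧ P ⊓ A = Subgroup.upperCentralSeries G 2 ∧
      (∀ β ∈ OUp' p (AutF F P), ∀ y ∈ Subgroup.center G, β y = y) ∧
      ∃ χ, SL2D p P (AutF F P) (AutBy ⊤ P) P (Subgroup.center G) χ := by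
  have D := hP.rad
  haveI := h.normal
  have h0 := h.cent_eq hx hP hxP hc
  have hZ : ∀ α ∈ AutF F P, Maps (Subgroup.center G) (Subgroup.center G) α := fun α hα =>
    h0 ▸ (D.hom hα).maps_centralizerIn (D.maps hα) le_rfl (D.maps hα)
  obtain ⟨α, hα, h1⟩ : ∃ α ∈ AutF F P, ¬ Maps (P ⊓ A) (P ⊓ A) α := by
    by_contra! h1
    obtain ⟨g, hg, hg'⟩ := SetLike.exists_of_lt (lt_inf_normalizer (pg_top h.pg) (lt_top_iff_ne_top.2 hP.ne_top))
    obtain ⟨y, hy, a, ha, rfl⟩ := (mem_sup_of_normalizes (A := P) (B := A)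
      (le_top.trans (Subgroup.normalizer_eq_top _).ge)).1
      (h.mem_of le_sup_right hx (Subgroup.mem_sup_left hxP) g)
    have h2 : a ∈ Subgroup.normalizer (P : Set G) := (Subgroup.mul_mem_cancel_left _ (P.le_normalizer hy)).1 hg.2
    refine hg' (P.mul_mem hy (mem_of_cr_mem_inn le_top ((ct_eq P).le.trans hP.cent) trivial h2 (D.op
      (mem_op_of_chain2 D.pg inf_le_left D.le h1 (cr_mem_autF F le_top trivial h2) (fun b hb => ?_) fun b hb => ?_))))
    · rw [cr_apply h2 hb.1, (h.commute ha hb.2).eq, mul_inv_cancel_right]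
    · rw [inv_mul_cr_eq h2 hb]
      exact ⟨inv_mul_cr_eq h2 hb ▸ P.mul_mem (P.inv_mem hb) ((maps_cr h2).mem hb), comm_swap (h.comm_mem ha _)⟩
  have h2 := (D.hom hα).mono (inf_le_left (b := A))
  have h3 : img α (P ⊓ A) ≤ P := img_le_iff.2 fun y hy => (D.maps hα).mem hy.1
  have h4 : ¬ img α (P ⊓ A) ≤ A := fun e => h1 (h2.maps_of_mem fun y hy =>
    ⟨(D.maps hα).mem hy.1, e (mem_img_of_mem _ hy)⟩)
  obtain ⟨w, hw, hw'⟩ := SetLike.not_le_iff_exists.1 h4
  have h5 : img α (P ⊓ A) ⊓ A ≤ Subgroup.center G := fun y hy => h.mem_center hy.2 hw' (by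
    obtain ⟨a, ha, rfl⟩ := h2.mem_img.1 hw
    obtain ⟨b, hb, e⟩ := h2.mem_img.1 hy.1
    rw [← e, commute_iff_eq, ← h2.map_mul hb ha, ← h2.map_mul ha hb, (h.commute hb.2 ha.2).eq])
  have h6 := (h.card_inf (img α (P ⊓ A))).trans (Nat.mul_le_mul_left _ (Subgroup.card_le_of_le h5))
  rw [← h2.maps_img.card_eq] at h6
  have h7 : ∀ β ∈ OUp' p (AutF F P), ∀ y ∈ Subgroup.center G, β y = y := fun β hβ y hy => (inv_mul_eq_one.1
    (D.oUp'_triv hP.center_le hZ (fun α hα => (D.hom hα).maps_bot)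
      (fun u hu x hx => by rw [fix_center u hu x hx, inv_mul_cancel]; exact Subgroup.one_mem _) β hβ y hy)).symm
  obtain ⟨-, χ, hχ⟩ := D.sl2_of_card hP.center_le le_rfl (fun α hα => D.maps hα) hZ
    ((h.card_inf P).trans ((Nat.mul_le_mul_left _ h6).trans_eq (by ring)))
    fun β hβ h3 h4 => fix_step D.pg hP.center_le le_rfl (D.hom (oUp'_le p _ hβ)) h3 (h7 β hβ) h4
  obtain ⟨ψ, hψ⟩ := hP.exists_psi hχ
  have h8 : Subgroup.upperCentralSeries G 2 ≤ P := fun g hg => by
    have h8 : ∀ y ∈ P, g * y * g⁻¹ ∈ P ∧ χ (g * y * g⁻¹) = χ y := fun y hy => by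
      have := H9.mem_upper_two_iff.1 hg y
      rw [show g * y * g⁻¹ = ⁅g, y⁆ * y by group, hχ.sec.mul _ (hχ.sec.le this) _ hy, hχ.sec.of_mem this, zero_add]
      exact ⟨P.mul_mem (hχ.sec.le this) hy, rfl⟩
    have h9 : g ∈ normalizerIn ⊤ P := mem_nt.2 (normalizer_of_finite fun y hy => (h8 y hy).1)
    obtain ⟨a, ha, ea⟩ := hχ.sec.surj ![0, 1]
    exact (hψ.ker g h9).1 (hψ.eq_zero h9 ha (by simp [ea]) (h8 a ha).2)
  have h9 := h.two_le fun e => hP.ne_top (eq_top_iff.2 fun g _ => h8 (H9.mem_upper_two_iff.2 fun k =>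
    e (Subgroup.commutator_mem_commutator trivial trivial)))
  refine ⟨h9, ((eq_or_eq_of_card_le h.pg center_le_two (le_inf h8 h9) h6).resolve_left fun e => ?_).symm, h7, χ, hχ⟩
  obtain ⟨y, -, hy, -, hy'⟩ := H9.exists_central_step h.pg (M := ⊤) (N := Subgroup.center G)
    fun e => hP.ne_top (eq_top_iff.2 (e.trans hP.center_le))
  exact hy (e.le (H9.mem_upper_two_iff.2 hy'))

omit hx in
theorem card_norm (hP : EssD p F P) (hne : P ≠ A) : Nat.card (normalizerIn ⊤ P) = p * Nat.card P := by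
  obtain ⟨x, hxP, hx⟩ := h.exists_mem hP hne
  by_cases hc : IsMulCommutative P
  · obtain ⟨-, Y, χ, -, -, hχ⟩ := h.ab_ess hx hP hxP hc
    exact (hP.exists_psi hχ).choose_spec.card le_top
  · obtain ⟨-, -, -, χ, hχ⟩ := h.nab_ess hx hP hxP hc
    exact (hP.exists_psi hχ).choose_spec.card le_top

theorem norm_inf (hxP : x ∈ P) (h1 : P ⊓ A = Subgroup.center G) :
    normalizerIn ⊤ P ⊓ A = Subgroup.upperCentralSeries G 2 ⊓ A := by
  rw [← h.pre_center hx]
  ext a
  rw [(h.hom x).mem_pre, Subgroup.mem_inf, mem_nt]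
  refine ⟨fun e => ⟨e.2, h1.le ⟨P.mul_mem (conj_mem_of_normalizer e.1 hxP) (P.inv_mem hxP), h.comm_mem e.2 x⟩⟩,
    fun e => ⟨normalizer_of_finite fun y hy => ?_, e.1⟩⟩
  simpa [commutatorElement_def] using P.mul_mem (h1.ge (h.comm_mem_of hx e.1 e.2 y)).1 hy

omit hx in
theorem struct (hP : EssD p F P) (hne : P ≠ A) : Subgroup.upperCentralSeries G 2 ≤ A ∧
    Nat.card (Subgroup.center G ⊓ commutator G : Subgroup G) = p := by
  obtain ⟨x, hxP, hx⟩ := h.exists_mem hP hne
  have h0 := h.card_two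
  by_cases hc : IsMulCommutative P
  · obtain ⟨h1, -⟩ := h.ab_ess hx hP hxP hc
    have h2 := h.card_eq_inf hx (le_normalizerIn (K := ⊤) le_top hxP)
    rw [h.card_norm hP hne, h.norm_inf hx hxP h1, h.card_eq_inf hx hxP, h1, h0, mul_comm p (Nat.card _)] at h2
    have h3 := (Nat.eq_of_mul_eq_mul_left Nat.card_pos (Nat.eq_of_mul_eq_mul_left hp.out.pos h2)).symm
    refine ⟨h.two_le fun e => ?_, h3⟩
    have h4 := h.sq_le_commutator
    rw [inf_of_le_right e] at h3
    have := hp.out.one_lt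
    nlinarith
  · obtain ⟨h1, h2, -, χ, hχ⟩ := h.nab_ess hx hP hxP hc
    have h3 := h.card_eq_inf hx hxP
    rw [inf_of_le_left h1] at h0
    rw [hχ.sec.card, h2, h0, pow_two, mul_assoc, mul_comm p (Nat.card _)] at h3
    exact ⟨h1, (Nat.eq_of_mul_eq_mul_left Nat.card_pos (Nat.eq_of_mul_eq_mul_left hp.out.pos h3)).symm⟩

end UA

end H13
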