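import Cfsg.Agent.H13.Idx

/-! Core-free systems over `p`-groups with a unique abelian subgroup of index `p`. -/

set_option autoImplicit false

namespace H13

open Equiv Cfsg Cfsg.FusionSystem Matrix
open scoped commutatorElement MatrixGroups

section transfer
variable {Ω : Type*} [Group Ω] {S : Subgroup Ω}

theorem map_center (S : Subgroup Ω) : (Subgroup.center S).map S.subtype = S ⊓ Subgroup.centralizer (S : Set Ω) := by
  ext g
  refine ⟨?_, fun hg => ⟨⟨g, hg.1⟩, Subgroup.mem_center_iff.2 fun x => Subtype.ext (hg.2 x x.2), rfl⟩⟩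
  rintro ⟨g, hg, rfl⟩
  exact ⟨g.2, fun x hx => congrArg Subtype.val (Subgroup.mem_center_iff.1 hg ⟨x, hx⟩)⟩

theorem map_normalizer {P : Subgroup Ω} (hP : P ≤ S) :
    (normalizerIn ⊤ (P.subgroupOf S)).map S.subtype = S ⊓ Subgroup.normalizer (P : Set Ω) := by
  rw [nt_eq, ← Subgroup.subgroupOf_normalizer_eq hP, Subgroup.subgroupOf_map_subtype, inf_comm]

theorem card_map_subtype (K : Subgroup S) : Nat.card (K.map S.subtype) = Nat.card K :=
  Subgroup.card_map_of_injective S.subtype_injective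

theorem index_subgroupOf_eq {Y W : Subgroup Ω} [Finite W] (h : Y ≤ W) {n : ℕ} (e : Nat.card W = n * Nat.card Y) :
    (Y.subgroupOf W).index = n :=
  haveI := finite_of_le h
  Nat.eq_of_mul_eq_mul_right Nat.card_pos ((relIndex_card h).symm.trans e)

theorem ua_of {p : ℕ} (hS : IsPGroup p S) (hna : ¬ IsMulCommutative S) {A : Subgroup Ω}
    (hA : A ≤ S ∧ IsMulCommutative A ∧ (A.subgroupOf S).index = p)
    (hu : ∀ B : Subgroup Ω, B ≤ S → IsMulCommutative B → (B.subgroupOf S).index = p → B = A) :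
    UA p (A.subgroupOf S) := by
  refine ⟨hS, hna, (comm_subgroupOf_iff hA.1).2 hA.2.1, hA.2.2, fun B h1 h2 => ?_⟩
  have e : (B.map S.subtype).subgroupOf S = B := Subgroup.comap_map_eq_self_of_injective S.subtype_injective B
  rw [← hu _ (Subgroup.map_subtype_le B) ((comm_subgroupOf_iff (Subgroup.map_subtype_le B)).1 (e.symm ▸ h1))
    (e.symm ▸ h2), e]

end transfer

variable {G : Type*} [Group G] [Finite G] {p : ℕ} [hp : Fact p.Prime] {F : FusionSystem (⊤ : Subgroup G)}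

omit [Finite G] in
theorem natCast_ne_zero_of_lt' (hp2 : p ≠ 2) : (2 : ZMod p) ≠ 0 := fun e =>
  hp2 ((Nat.prime_dvd_prime_iff_eq hp.out Nat.prime_two).1 ((ZMod.natCast_eq_zero_iff 2 p).1 (by exact_mod_cast e)))

omit [Finite G] in
theorem Iso.maps_char {σ : Perm G} (h : Iso F ⊤ ⊤ σ) (K : Subgroup G) [K.Characteristic] : Maps K K σ :=
  maps_char' h.hom K

/-- an automorphism of `S` stabilizing a chain of central subgroups fixes them -/
theorem fix_of_central (hG : IsPGroup p G) (hF : F.IsSaturated p) {σ : Perm G} (hσ : Iso F ⊤ ⊤ σ) {Y W : Subgroup G}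
    (hYW : Y ≤ W) (hW : W ≤ Subgroup.center G) (h1 : ∀ y ∈ Y, σ y = y) (h2 : ∀ x ∈ W, x⁻¹ * σ x ∈ Y) :
    ∀ x ∈ W, σ x = x := by
  have hA : σ ∈ AutF F ⊤ := (mem_autF le_rfl).2 ⟨hσ, fun _ h => absurd trivial h⟩
  haveI := finite_autF F ⊤
  obtain ⟨a, b, e, ⟨k, ha⟩, hb⟩ := exists_pPart (p := p) (orderOf_ne_zero_of_mem hA)
  have h3 : ∀ n : ℕ, (∀ y ∈ Y, (σ ^ n) y = y) ∧ ∀ x ∈ W, x⁻¹ * (σ ^ n) x ∈ Y := fun n => by
    induction n with
    | zero => simp
    | succ n ih =>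
      refine ⟨fun y hy => by rw [pow_succ, mul_ap, h1 y hy, ih.1 y hy], fun x hx => ?_⟩
      have h4 := Y.mul_mem (h2 x hx) (ih.2 x hx)
      rw [← h1 _ (ih.2 x hx), hσ.hom.map_mul trivial trivial, hσ.hom.map_inv trivial] at h4
      rw [pow_succ', mul_ap]
      convert h4 using 1; group
  obtain ⟨g, hg, h4⟩ := (sylIn_autF_top (pg_top hG) hF).exists_conj_mem (Subgroup.pow_mem _ hA a) ha
  have h5 := conj_mem_of_normalizer' (autF_le_normalizer_inn F ⊤ hg) h4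
  rw [show g⁻¹ * (g * σ ^ a * g⁻¹) * g = σ ^ a by group] at h5
  intro x hx
  rw [e, mul_ap, fix_step (pg_top hG) hYW le_top (homOn_of_mem_autF (Subgroup.pow_mem _ hA b)) hb (h3 b).1 (h3 b).2 x hx,
    UA.fix_center _ h5 x (hW hx)]

/-- automorphisms inverting `Z ∩ G'` and trivial on `Z` modulo it -/
def Inv0 (F : FusionSystem (⊤ : Subgroup G)) (σ : Perm G) : Prop :=
  Iso F ⊤ ⊤ σ ∧ (∀ z ∈ Subgroup.center G ⊓ commutator G, σ z = z⁻¹) ∧
    ∀ z ∈ Subgroup.center G, z⁻¹ * σ z ∈ Subgroup.center G ⊓ commutator G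

theorem Inv0.uniq (hG : IsPGroup p G) (hF : F.IsSaturated p) {σ τ : Perm G} (h1 : Inv0 F σ) (h2 : Inv0 F τ) :
    ∀ z ∈ Subgroup.center G, σ z = τ z := fun z hz => by
  have h3 := fix_of_central hG hF (h2.1.inv.mul h1.1) inf_le_left le_rfl (fun y hy => by
    rw [mul_ap, h1.2.1 y hy, ← h2.2.1 y hy, inv_ap]) (fun x hx => by
      have h3 := (h2.1.maps_char _).inv_mem (Subgroup.mul_mem _ (Subgroup.inv_mem _ (h2.2.2 x hx)) (h1.2.2 x hx))
      rwa [show (x⁻¹ * τ x)⁻¹ * (x⁻¹ * σ x) = (τ x)⁻¹ * σ x by group, h2.1.inv.hom.map_mul trivial trivial,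
        h2.1.inv.hom.map_inv trivial, inv_ap] at h3) z hz
  rw [mul_ap] at h3
  rw [← congrArg τ h3, ap_inv]

omit [Finite G] in
theorem Inv0.conj {σ α : Perm G} (h : Inv0 F σ) (hα : Iso F ⊤ ⊤ α) : Inv0 F (α * σ * α⁻¹) := by
  refine ⟨(hα.mul h.1).mul hα.inv, fun z hz => ?_, fun z hz => ?_⟩
  · rw [mul_ap, mul_ap, h.2.1 _ ((hα.maps_char _).inv_mem hz), hα.hom.map_inv trivial, ap_inv]
  · have := (hα.maps_char _).mem (h.2.2 _ ((hα.maps_char _).inv_mem hz))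
    rwa [hα.hom.map_mul trivial trivial, hα.hom.map_inv trivial, ap_inv] at this

namespace UA

variable {A : Subgroup G} (h : UA p A) (hF : F.IsSaturated p) (hA : ¬ F.IsEssential p A)
include h hF hA

theorem card_ess {E : Subgroup G} (hE : F.IsEssential p E) :
    Nat.card E ≤ p ^ 2 * Nat.card (Subgroup.center G) := by
  have hP : EssD p F E := ⟨h.pg, hF, hE⟩
  obtain ⟨x, hxP, hx⟩ := h.exists_mem hP fun e => hA (e ▸ hE)
  by_cases hc : IsMulCommutative E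
  · rw [h.card_eq_inf hx hxP, (h.ab_ess hx hP hxP hc).1, pow_two, mul_assoc]
    exact Nat.le_mul_of_pos_left _ hp.out.pos
  · obtain ⟨-, -, -, χ, hχ⟩ := h.nab_ess hx hP hxP hc
    exact hχ.sec.card.le

theorem extend_ab {P : Subgroup G} (hP : EssD p F P) (hc : IsMulCommutative P) {τ : Perm G}
    (hτ : Mor F (normalizerIn ⊤ P) τ) : ∃ σ, Iso F ⊤ ⊤ σ ∧ ∀ x ∈ normalizerIn ⊤ P, σ x = τ x := by
  refine extend_top (pg_top h.pg) hF (fun R ρ E h1 hE h2 => ?_) hτ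
  have hne : P ≠ A := fun e => hA (e ▸ hP.ess)
  obtain ⟨x, hxP, hx⟩ := h.exists_mem hP hne
  have h3 := (h.ab_ess hx hP hxP hc).1
  have hle : P ≤ normalizerIn ⊤ P := le_normalizerIn le_top
  have h4 : Nat.card P = p * Nat.card (Subgroup.center G) := h3 ▸ h.card_eq_inf hx hxP
  have h5 : R = E := eq_of_le_of_card_le h2 ((h.card_ess hF hA hE).trans_eq (by
    rw [← h1.card_eq, h.card_norm hP hne, h4, pow_two, mul_assoc]))
  subst h5
  have hR : EssD p F R := ⟨h.pg, hF, hE⟩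
  obtain ⟨y, hyP, hy⟩ := h.exists_mem hR fun e => hA (e ▸ hE)
  have h6 := h1.mor.iso_of_le hle
  have h7 : img ρ P ≤ R := h1.img_eq ▸ img_mono _ hle
  have h8 : ¬ IsMulCommutative R := fun e => by
    have := Subgroup.card_le_of_le (show R ≤ img ρ P from fun a ha => hP.centric h6 fun b hb =>
      congrArg Subtype.val (e.1.1 ⟨b, h7 hb⟩ ⟨a, ha⟩))
    rw [← h1.card_eq, ← h6.card_eq, h.card_norm hP hne] at this
    exact absurd this (not_le.2 (lt_mul_of_one_lt_left Nat.card_pos hp.out.one_lt))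
  obtain ⟨h9, h10, h11, χ, hχ⟩ := h.nab_ess hy hR hyP h8
  have h12 : ∀ z ∈ Subgroup.center G, ρ z ∈ Subgroup.center G := fun z hz => (h.cent_eq hy hR hyP h8).le
    ⟨h1.mem (hle (hP.center_le hz)), h1.hom.mem_centralizer le_rfl h1.maps (hle (hP.center_le hz))
      (Subgroup.center_le_centralizer _ hz)⟩
  have h13 := (h6.hom.mono hP.center_le).maps_of_mem h12
  obtain ⟨w, -, hw, -, hw'⟩ := H9.exists_central_step h.pg (M := ⊤) (N := Subgroup.center G)
    fun e => hP.ne_top (eq_top_iff.2 (e.trans hP.center_le))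
  have h14 := h10.ge (H9.mem_upper_two_iff.2 hw')
  obtain ⟨α, hα, e⟩ := hχ.trans (h7 (h6.mem hxP)) (fun e => hx (h.center_le ((h13 x).2 e))) h14.1 hw
  have h15 := ((iso_of_mem_autF le_top (oUp'_le p _ hα)).mor.iso_of_le h7).mul h6
  have h16 : img α (img ρ P) ≤ A := by
    rw [h6.hom.img_mul]
    refine img_le_iff.2 fun a ha => (h15.hom.mem_pre.1 (?_ : a ∈ pre P (α * ρ : Perm G) A)).2
    refine ((eq_or_eq_of_card (K := pre P (α * ρ : Perm G) A) (fun z hz => h15.hom.mem_pre.2 ⟨hP.center_le hz, ?_⟩)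
      (pre_le _ _ _) h4).resolve_left fun e' => hx (h.center_le (e'.le (h15.hom.mem_pre.2 ⟨hxP, ?_⟩)))).ge ha
    · rw [mul_ap, h11 α hα _ (h12 z hz)]; exact h.center_le (h12 z hz)
    · exact (A.mul_mem_cancel_right h14.2).1 (h.center_le e) |> A.inv_mem_iff.1
  have h17 := Subgroup.card_le_of_le (show A ≤ _ from fun a ha => hP.centric h15 fun b hb => h.commute (h16 hb) ha)
  rw [← h15.card_eq, h4] at h17
  have h18 := h.sq_le.trans h17
  rw [pow_two, mul_assoc] at h18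
  exact absurd h18 (not_le.2 (lt_mul_of_one_lt_left (Nat.mul_pos hp.out.pos Nat.card_pos) hp.out.one_lt))

theorem exists_inv0 (hp2 : p ≠ 2) {P : Subgroup G} (hP : EssD p F P) (hc : IsMulCommutative P) :
    ∃ σ Y, Inv0 F σ ∧ (∀ z, z ∈ Y ↔ z ∈ Subgroup.center G ∧ σ z = z) ∧ (∀ α, Iso F P P α → Maps Y Y α) := by
  have hne : P ≠ A := fun e => hA (e ▸ hP.ess)
  obtain ⟨x, hxP, hx⟩ := h.exists_mem hP hne
  obtain ⟨h1, Y, χ, h2, h3, hχ⟩ := h.ab_ess hx hP hxP hc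
  obtain ⟨ψ, hψ⟩ := hP.exists_psi hχ
  obtain ⟨τ, hτ, -, h4, h5, h6, -⟩ := hχ.exists_tau hP.rec' hψ (-1)
  obtain ⟨σ, hσ, e⟩ := h.extend_ab hF hA hP hc (iso_of_mem_autF le_top hτ).mor
  have hle : P ≤ normalizerIn ⊤ P := le_normalizerIn le_top
  have h7 : ∀ z ∈ P, χ (σ z) = - χ z := fun z hz => by
    rw [e z (hle hz), h6 z hz]; exact fin2_ext (by simp) (by simp [← neg_inv])
  have h8 : ∀ y ∈ Y, σ y = y := fun y hy => by
    rw [e y (hle (hχ.sec.le hy)), ← rs_apply h4 (hχ.sec.le hy), h3 _ h5 y hy]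
  obtain ⟨g, hg, eg⟩ := hψ.surj 1
  obtain ⟨a, ha, ea⟩ := hχ.sec.surj ![0, 1]
  have h9 := conj_mem_of_normalizer (mem_nt.1 hg) ha
  have hr : a⁻¹ * (g * a * g⁻¹) ∈ commutator G := by
    rw [show a⁻¹ * (g * a * g⁻¹) = ⁅a⁻¹, g⁆ by group]; exact Subgroup.commutator_mem_commutator trivial trivial
  have hrP := P.mul_mem (P.inv_mem ha) h9
  have er : χ (a⁻¹ * (g * a * g⁻¹)) = ![1, 0] := by
    rw [hχ.sec.mul _ (P.inv_mem ha) _ h9, hχ.sec.inv ha, hψ.act g hg a ha, ea, eg]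
    exact fin2_ext (by simp) (by simp)
  set r := a⁻¹ * (g * a * g⁻¹)
  have hrZ : r ∈ Subgroup.center G ⊓ commutator G := ⟨h1.le ⟨hrP, h.commutator_le hr⟩, hr⟩
  have h10 : ∀ z ∈ Subgroup.center G ⊓ commutator G, z ∈ Y → z = 1 := fun z hz hz' => by
    by_contra h10
    have h11 := eq_of_ne_bot_of_le (h.struct hP hne).2 (Subgroup.zpowers_le.2 hz) (by simpa using h10)
    simpa [er] using hχ.sec.of_mem (Subgroup.zpowers_le.2 hz' (h11.ge hrZ))
  have h11 : ∀ z ∈ Subgroup.center G ⊓ commutator G, σ z = z⁻¹ := fun z hz => by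
    have h11 := (hσ.maps_char _).mem hz
    refine eq_inv_of_mul_eq_one_left (h10 _ (Subgroup.mul_mem _ h11 hz) ((hχ.sec.ker _
      (hP.center_le (Subgroup.mul_mem _ h11 hz).1)).1 ?_))
    rw [hχ.sec.mul _ (hP.center_le h11.1) _ (hP.center_le hz.1), h7 z (hP.center_le hz.1), neg_add_cancel]
  refine ⟨σ, Y, ⟨hσ, h11, fun z hz => ?_⟩, fun z => ⟨fun hz => ⟨h2 hz, h8 z hz⟩, fun hz => ?_⟩, fun α hα =>
    (hχ.mY _ hα.rs_mem).congr fun y hy => rs_apply hα.maps (hχ.sec.le hy)⟩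
  · have h12 := hP.center_le hz
    have h13 := Subgroup.pow_mem _ hrZ (χ z 0).val
    have h14 := (hχ.sec.eq_iff (P.pow_mem hrP (χ z 0).val) h12).1 (by
      rw [hχ.sec.pow hrP, er, ZMod.natCast_zmod_val]
      exact fin2_ext (by simp) (by
        simp [hψ.snd_eq_zero hg (eg ▸ one_ne_zero) h12 (by rw [Subgroup.mem_center_iff.1 hz g, mul_inv_cancel_right])]))
    have h15 := h8 _ h14
    rw [hσ.hom.map_mul trivial trivial, hσ.hom.map_inv trivial, h11 _ h13, inv_inv, ← eq_inv_mul_iff_mul_eq] at h15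
    rw [h15, ← mul_assoc (r ^ _)⁻¹, Subgroup.mem_center_iff.1 hz, inv_mul_cancel_left]
    exact Subgroup.mul_mem _ (Subgroup.inv_mem _ h13) (Subgroup.inv_mem _ h13)
  · have h12 := h7 z (hP.center_le hz.1)
    rw [hz.2] at h12
    have h13 := natCast_ne_zero_of_lt' (p := p) hp2
    refine (hχ.sec.ker _ (hP.center_le hz.1)).1 ((smul_eq_zero.1 (?_ : (2 : ZMod p) • χ z = 0)).resolve_left h13)
    rw [two_smul]; exact eq_neg_iff_add_eq_zero.1 h12

theorem extend_nab {E : Subgroup G} (hP : EssD p F E) (hc : ¬ IsMulCommutative E) {α : Perm G} (hα : Iso F E E α) :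
    ∃ σ, Iso F ⊤ ⊤ σ ∧ ∀ z ∈ Subgroup.center G, α z = σ z := by
  have hne : E ≠ A := fun e => hA (e ▸ hP.ess)
  obtain ⟨x, hxP, hx⟩ := h.exists_mem hP hne
  obtain ⟨-, -, h1, χ, hχ⟩ := h.nab_ess hx hP hxP hc
  have D := hP.rad
  haveI := D.finite
  haveI := finite_of_le (oUp'_le p (AutF F E))
  obtain ⟨n, hn, h2⟩ := D.syl.oUp'.frattini' (le_normalizer_oUp' p _ hα.rs_mem)
  obtain ⟨τ, h3, h4⟩ := receptive_extend_of_conj hP.rec' (iso_of_mem_autF le_top
    (Subgroup.mul_mem _ hα.rs_mem (oUp'_le p _ hn))) le_rfl fun g hg =>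
      conj_mem_of_normalizer h2 (cr_mem_autBy trivial (mem_nt.1 hg))
  obtain ⟨σ, h5, h6⟩ := extend_top (pg_top h.pg) hF (fun R ρ E' h5 hE h6 => by
    have h7 := (Subgroup.card_le_of_le h6).trans (h.card_ess hF hA hE)
    rw [← h5.card_eq, sup_of_le_right (le_normalizerIn le_top), h.card_norm hP hne, hχ.sec.card] at h7
    exact absurd h7 (not_le.2 (lt_mul_of_one_lt_left (Nat.mul_pos (pow_pos hp.out.pos 2) Nat.card_pos)
      hp.out.one_lt))) h3
  refine ⟨σ, h5, fun z hz => ?_⟩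
  have h7 := hP.center_le hz
  rw [h6 z (Subgroup.mem_sup_left h7), h4 z h7, mul_ap, h1 n hn z hz, rs_apply hα.maps h7]

theorem core_free (hp2 : p ≠ 2) (hcore : F.core = ⊥) :
    (∃ P, F.IsEssential p P ∧ IsMulCommutative P) ∧ Subgroup.center G ≤ commutator G := by
  haveI := h.pg.isNilpotent
  have h0 : ∃ P, F.IsEssential p P ∧ IsMulCommutative P := by
    by_contra! h0
    have h1 := le_core (normal_of_base (pg_top h.pg) hF (Q := Subgroup.center G) (by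
      rintro P (rfl | hP)
      · exact ⟨le_top, fun σ hσ => hσ.maps_char _⟩
      · have hP' : EssD p F P := ⟨h.pg, hF, hP⟩
        obtain ⟨x, hxP, hx⟩ := h.exists_mem hP' fun e => hA (e ▸ hP)
        exact ⟨hP'.center_le, fun σ hσ => h.cent_eq hx hP' hxP (h0 P hP) ▸
          hσ.hom.maps_centralizerIn hσ.maps le_rfl hσ.maps⟩))
    refine H9.inf_center_ne_bot (M := (⊤ : Subgroup G)) (fun e => h.coatom.1 (eq_top_iff.2 (e.le.trans bot_le))) ?_
    rw [top_inf_eq, eq_bot_iff, ← hcore]; exact h1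
  refine ⟨h0, ?_⟩
  obtain ⟨P, hP, hc⟩ := h0
  obtain ⟨σ, Y, h1, h2, -⟩ := h.exists_inv0 hF hA hp2 ⟨h.pg, hF, hP⟩ hc
  have h3 : ∀ α, Iso F ⊤ ⊤ α → Maps Y Y α := fun α hα => (hα.hom.mono le_top).maps_of_mem fun y hy => by
    have h3 := (hα.maps_char _).mem ((h2 y).1 hy).1
    refine (h2 _).2 ⟨h3, ?_⟩
    rw [h1.uniq h.pg hF (h1.conj hα) _ h3, mul_ap, mul_ap, inv_ap, ((h2 y).1 hy).2]
  have h4 : Y ≤ Subgroup.center G := fun y hy => ((h2 y).1 hy).1
  have h5 := le_core (normal_of_base (pg_top h.pg) hF (Q := Y) (by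
    rintro E (rfl | hE)
    · exact ⟨le_top, h3⟩
    have hE' : EssD p F E := ⟨h.pg, hF, hE⟩
    refine ⟨h4.trans hE'.center_le, fun α hα => ?_⟩
    by_cases h5 : IsMulCommutative E
    · obtain ⟨σ', Y', h6, h7, h8⟩ := h.exists_inv0 hF hA hp2 hE' h5
      rw [show Y = Y' from Subgroup.ext fun z => by
        rw [h2, h7]; exact and_congr_right fun hz => by rw [h1.uniq h.pg hF h6 z hz]]
      exact h8 α hα
    · obtain ⟨σ', h6, h7⟩ := h.extend_nab hF hA hE' h5 hα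
      exact (h3 σ' h6).congr fun y hy => (h7 y (h4 hy)).symm))
  rw [hcore] at h5
  intro z hz
  have h6 := h1.2.2 z hz
  have h7 : z * (z * (z⁻¹ * σ z)) ∈ Y := (h2 _).2 ⟨Subgroup.mul_mem _ hz (Subgroup.mul_mem _ hz h6.1), by
    rw [h1.1.hom.map_mul trivial trivial, h1.1.hom.map_mul trivial trivial, h1.2.1 _ h6,
      ← Subgroup.mem_center_iff.1 hz]
    group⟩
  refine H9.mem_of_zpow_mem_of_isPGroup h.pg (j := 2) (fun e => hp2 ((Nat.prime_dvd_prime_iff_eq hp.out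
    Nat.prime_two).1 (Int.natCast_dvd_natCast.1 e))) ?_
  rw [← mul_assoc] at h7
  rw [zpow_two, eq_inv_of_mul_eq_one_left (h5 h7)]
  exact Subgroup.inv_mem _ h6.2

end UA

end H13
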