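import Cfsg.Agent.H13.Bartels

/-! Groups with an involutory automorphism that has few fixed points. -/

set_option autoImplicit false

namespace H13.InvBd

open Subgroup

variable {G : Type*} [Group G]

/-- The length of the conjugacy class of `g`. -/
noncomputable def ci (g : G) : ℕ := (centralizer ({g} : Set G)).index

theorem mem_c {g x : G} : x ∈ centralizer ({g} : Set G) ↔ g * x = x * g := by
  simp [mem_centralizer_iff]

theorem ci_mul [Finite G] (a b : G) : ci (a * b) ≤ ci a * ci b := by
  refine le_trans (index_antitone (H := centralizer {a} ⊓ centralizer {b}) ?_) index_inf_le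
  rintro x ⟨h1, h2⟩
  have h1 := mem_c.1 h1
  have h2 := mem_c.1 h2
  rw [mem_c, mul_assoc, h2, ← mul_assoc, h1, mul_assoc]

theorem ci_inv [Finite G] (a : G) : ci a⁻¹ ≤ ci a := by
  refine index_antitone fun x h => ?_
  have h1 : Commute a x := mem_c.1 h
  exact mem_c.2 h1.inv_left

theorem ci_one : ci (1 : G) = 1 := by
  rw [ci, index_eq_one, eq_top_iff]
  intro x _
  rw [mem_c]; simp

theorem ci_aut [Finite G] (φ : MulAut G) (a : G) : ci (φ a) ≤ ci a := by
  have h := (centralizer ({a} : Set G)).index_map_equiv φ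
  rw [ci, ci, ← h]
  refine index_antitone ?_
  rintro _ ⟨x, hx, rfl⟩
  have h1 := mem_c.1 hx
  rw [mem_c]
  show φ a * φ x = φ x * φ a
  rw [← map_mul, h1, map_mul]

def fC (b e m : ℕ) : ℕ := b * e ^ (b * m)

theorem lemC [Finite G] {b e m : ℕ} (hm : Group.rank G ≤ m) (A : Subgroup G) (hb : A.index ≤ b)
    (hc : ∀ x ∈ A, ∀ y ∈ A, x * y = y * x) (he : ∀ x ∈ A, x ^ e = 1) (he0 : 0 < e) :
    Nat.card G ≤ fC b e m := by
  letI : CommGroup A := { (inferInstance : Group A) with
    mul_comm := fun x y => Subtype.ext (hc _ x.2 _ y.2) }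
  have h1 := card_dvd_exponent_pow_rank' A (n := e) fun g => Subtype.ext (he _ g.2)
  have h2 := Nat.le_of_dvd (pow_pos he0 _) h1
  have h3 : Group.rank A ≤ b * m := (rank_le_index_mul_rank A).trans (Nat.mul_le_mul hb hm)
  have h4 := Nat.pow_le_pow_right he0 h3
  rw [← A.index_mul_card, fC]
  exact Nat.mul_le_mul hb (h2.trans h4)

def fB (b e m : ℕ) : ℕ := fC b (b.factorial * e) m

theorem lemB [Finite G] {b e m : ℕ} (hm : Group.rank G ≤ m) {J : Set G} (hJ : closure J = ⊤)
    (he : ∀ j ∈ J, j ^ e = 1) (he0 : 0 < e) (hb : (center G).index ≤ b) :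
    Nat.card G ≤ fB b e m := by
  refine lemC hm (center G) hb (fun x _ y hy => mem_center_iff.1 hy x) ?_
    (Nat.mul_pos b.factorial_pos he0)
  intro x _
  have h1 : ∀ y ∈ closure J, (MonoidHom.transferCenterPow G y) ^ e = 1 := by
    intro y hy
    induction hy using closure_induction with
    | mem j hj => rw [← map_pow, he j hj, map_one]
    | one => simp
    | mul a b _ _ ha hb =>
      have : Commute (MonoidHom.transferCenterPow G a) (MonoidHom.transferCenterPow G b) :=
        Subtype.ext (mem_center_iff.1 (MonoidHom.transferCenterPow G b).2 _)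
      rw [map_mul, this.mul_pow, ha, hb, mul_one]
    | inv a _ ha => rw [map_inv, inv_pow, ha, inv_one]
  have h2 : (MonoidHom.transferCenterPow G x) ^ e = 1 := h1 x (by rw [hJ]; trivial)
  have h3 : (x ^ (center G).index) ^ e = 1 := congrArg Subtype.val h2
  obtain ⟨d, hd⟩ := Nat.dvd_factorial (Nat.pos_of_ne_zero (center G).index_ne_zero_of_finite) hb
  rw [hd, mul_assoc, mul_comm d, ← mul_assoc, pow_mul, pow_mul, h3, one_pow]

section Count

variable [Fintype G] [DecidableEq G] (β : MulAut G) (hβ : ∀ g, β (β g) = g) {c : ℕ}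
  (hc : Nat.card {g : G // β g = g} ≤ c)

include hβ hc in
theorem card_inv : Fintype.card G ≤ c * (Finset.univ.filter fun g : G => β g = g⁻¹).card := by
  rw [← Finset.card_univ]
  refine Finset.card_le_mul_card_image_of_maps_to (f := fun g => g * (β g)⁻¹) ?_ c ?_
  · intro g _
    simp [hβ]
  · intro w _
    by_cases hne : (Finset.univ.filter fun g : G => g * (β g)⁻¹ = w).Nonempty
    · obtain ⟨h, hh⟩ := hne
      have hh := (Finset.mem_filter.1 hh).2
      refine le_trans ?_ hc
      rw [Nat.subtype_card (Finset.univ.filter fun g : G => β g = g) (by simp)]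
      refine Finset.card_le_card_of_injOn (fun g => h⁻¹ * g) ?_ ?_
      · intro g hg
        have hg := (Finset.mem_filter.1 hg).2
        have e : g * (β g)⁻¹ = h * (β h)⁻¹ := hg.trans hh.symm
        simp only [Finset.coe_filter, Finset.mem_univ, true_and, Set.mem_ofPred_eq, map_mul, map_inv]
        calc (β h)⁻¹ * β g = h⁻¹ * (h * (β h)⁻¹) * β g := by group
          _ = h⁻¹ * g := by rw [← e]; group
      · intro a _ b _ e
        exact mul_left_cancel e
    · rw [Finset.not_nonempty_iff_eq_empty.1 hne]; simp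

theorem card_sq : (Finset.univ.filter fun g : G => β g = g⁻¹).card ^ 2 ≤
    ∑ g : G, Nat.card (centralizer ({g} : Set G)) := by
  set I := Finset.univ.filter fun g : G => β g = g⁻¹ with hI
  rw [pow_two, ← Finset.card_product,
    Finset.card_eq_sum_card_fiberwise (f := fun ab : G × G => ab.1 * ab.2⁻¹) (t := Finset.univ)
      (fun _ _ => Finset.mem_coe.2 (Finset.mem_univ _))]
  refine Finset.sum_le_sum fun g _ => ?_
  by_cases hne : ((I ×ˢ I).filter fun ab : G × G => ab.1 * ab.2⁻¹ = g).Nonempty
  · obtain ⟨h, hh⟩ := hne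
    have key : ∀ ab ∈ (I ×ˢ I).filter fun ab : G × G => ab.1 * ab.2⁻¹ = g,
        ab.1 * β g * ab.1⁻¹ = g⁻¹ := by
      intro ab hab
      obtain ⟨h1, h2⟩ := Finset.mem_filter.1 hab
      obtain ⟨h3, h4⟩ := Finset.mem_product.1 h1
      have h3 := (Finset.mem_filter.1 h3).2
      have h4 := (Finset.mem_filter.1 h4).2
      rw [← h2, map_mul, map_inv, h3, h4]; group
    classical
    rw [Nat.subtype_card (Finset.univ.filter fun x : G => x ∈ centralizer ({g} : Set G)) (by simp)]
    refine Finset.card_le_card_of_injOn (fun ab => ab.1 * h.1⁻¹) ?_ ?_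
    · intro ab hab
      have h1 := key ab hab
      have h2 := key h hh
      simp only [Finset.coe_filter, Finset.mem_univ, true_and, Set.mem_ofPred_eq, mem_c]
      have h3 : β g = h.1⁻¹ * g⁻¹ * h.1 := by rw [← h2]; group
      rw [h3] at h1
      calc g * (ab.1 * h.1⁻¹) = g * (ab.1 * (h.1⁻¹ * g⁻¹ * h.1) * ab.1⁻¹) * (ab.1 * h.1⁻¹ * g) := by
            group
        _ = _ := by rw [h1]; group
    · intro a ha b hb e
      have e1 : a.1 = b.1 := mul_right_cancel e
      have h1 := (Finset.mem_filter.1 ha).2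
      have h2 := (Finset.mem_filter.1 hb).2
      have e2 : a.1 * a.2⁻¹ = b.1 * b.2⁻¹ := h1.trans h2.symm
      rw [e1] at e2
      exact Prod.ext e1 (inv_injective (mul_left_cancel e2))
  · rw [Finset.not_nonempty_iff_eq_empty.1 hne]; simp

include hβ hc in
theorem card_small : Fintype.card G ≤
    2 * c ^ 2 * (Finset.univ.filter fun g : G => ci g ≤ 2 * c ^ 2).card := by
  set n := Fintype.card G with hn
  set S := Finset.univ.filter fun g : G => ci g ≤ 2 * c ^ 2 with hS
  have h1 := card_inv β hβ hc
  have h2 := card_sq β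
  set i := (Finset.univ.filter fun g : G => β g = g⁻¹).card
  set T := ∑ g : G, Nat.card (centralizer ({g} : Set G)) with hT
  have h3 : 2 * c ^ 2 * T ≤ 2 * c ^ 2 * S.card * n + n * n := by
    have : ∀ g : G, 2 * c ^ 2 * Nat.card (centralizer ({g} : Set G)) ≤
        (if ci g ≤ 2 * c ^ 2 then 2 * c ^ 2 * n else 0) + n := by
      intro g
      have e : ci g * Nat.card (centralizer ({g} : Set G)) = n := by
        rw [ci, index_mul_card, hn, Nat.card_eq_fintype_card]
      split_ifs with h
      · have : Nat.card (centralizer ({g} : Set G)) ≤ n := by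
          rw [hn, ← Nat.card_eq_fintype_card]; exact card_le_card_group _
        exact le_trans (Nat.mul_le_mul_left _ this) (Nat.le_add_right _ _)
      · rw [zero_add, ← e]
        exact Nat.mul_le_mul_right _ (by omega)
    rw [hT, Finset.mul_sum]
    refine le_trans (Finset.sum_le_sum fun g _ => this g) ?_
    rw [Finset.sum_add_distrib, ← Finset.sum_filter, Finset.sum_const, Finset.sum_const,
      Finset.card_univ, smul_eq_mul, smul_eq_mul, ← hS, ← hn]
    exact le_of_eq (by ring)
  have hn0 : 0 < n := Fintype.card_pos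
  have h4 : n * n ≤ c ^ 2 * T := by
    calc n * n ≤ (c * i) * (c * i) := Nat.mul_le_mul h1 h1
      _ = c ^ 2 * i ^ 2 := by ring
      _ ≤ _ := Nat.mul_le_mul_left _ h2
  have h5 : n * n ≤ 2 * c ^ 2 * S.card * n := by nlinarith
  exact Nat.le_of_mul_le_mul_right h5 hn0

theorem chain {L : ℕ} (hL : 0 < L) (j : ℕ) :
    (∃ i ≤ j, ∀ g : G, ci g ≤ L ^ (3 * i + 2) → ci g ≤ L ^ (3 * i + 1)) ∨
      j * (Finset.univ.filter fun g : G => ci g ≤ L).card ≤
        (Finset.univ.filter fun g : G => ci g ≤ L ^ (3 * j)).card := by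
  induction j with
  | zero => right; simp
  | succ j ih =>
    rcases ih with ⟨i, hi, h⟩ | ih
    · exact Or.inl ⟨i, by omega, h⟩
    by_cases h : ∀ g : G, ci g ≤ L ^ (3 * j + 2) → ci g ≤ L ^ (3 * j + 1)
    · exact Or.inl ⟨j, by omega, h⟩
    right
    push Not at h
    obtain ⟨x, hx1, hx2⟩ := h
    set S := Finset.univ.filter fun g : G => ci g ≤ L with hS
    have hd : Disjoint (Finset.univ.filter fun g : G => ci g ≤ L ^ (3 * j))
        (S.image fun s => x * s) := by
      rw [Finset.disjoint_left]
      intro y hy hy2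
      obtain ⟨s, hs, rfl⟩ := Finset.mem_image.1 hy2
      have h1 := (Finset.mem_filter.1 hy).2
      have h2 := (Finset.mem_filter.1 hs).2
      have h3 := ci_mul (x * s) s⁻¹
      rw [mul_inv_cancel_right] at h3
      have h4 := Nat.mul_le_mul h1 ((ci_inv s).trans h2)
      rw [← pow_succ] at h4
      omega
    have hsub : (Finset.univ.filter fun g : G => ci g ≤ L ^ (3 * j)) ∪ (S.image fun s => x * s) ⊆
        Finset.univ.filter fun g : G => ci g ≤ L ^ (3 * (j + 1)) := by
      intro y hy
      refine Finset.mem_filter.2 ⟨Finset.mem_univ _, ?_⟩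
      rcases Finset.mem_union.1 hy with hy | hy
      · exact (Finset.mem_filter.1 hy).2.trans (Nat.pow_le_pow_right hL (by omega))
      · obtain ⟨s, hs, rfl⟩ := Finset.mem_image.1 hy
        have h2 := (Finset.mem_filter.1 hs).2
        refine (ci_mul x s).trans ((Nat.mul_le_mul hx1 h2).trans (le_of_eq ?_))
        rw [← pow_succ]; rfl
    have h5 := Finset.card_le_card hsub
    rw [Finset.card_union_of_disjoint hd,
      Finset.card_image_of_injective _ (mul_right_injective x)] at h5
    rw [add_mul, one_mul]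
    omega

end Count

def fA (c m : ℕ) : ℕ :=
  fC (2 * c ^ 2 * ((2 * c ^ 2) ^ (3 * (2 * c ^ 2 + 1) + 1)) ^ (2 * c ^ 2 * m)) c.factorial m

theorem lemA [Finite G] (β : MulAut G) (hβ : ∀ g, β (β g) = g) {c m : ℕ}
    (hc : Nat.card {g : G // β g = g} ≤ c) (hm : Group.rank G ≤ m)
    (hgen : closure (Set.range fun g : G => g * (β g)⁻¹) = ⊤) : (center G).index ≤ fA c m := by
  classical
  letI := Fintype.ofFinite G
  have hc0 : 0 < c := by
    haveI : Nonempty {g : G // β g = g} := ⟨⟨1, map_one β⟩⟩
    exact lt_of_lt_of_le Nat.card_pos hc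
  have h1 := card_small β hβ hc
  set L := 2 * c ^ 2 with hLdef
  have hL : 0 < L := by positivity
  set S := Finset.univ.filter fun g : G => ci g ≤ L with hS
  have hn0 : 0 < Fintype.card G := Fintype.card_pos
  obtain ⟨i, hi, hch⟩ : ∃ i ≤ L + 1, ∀ g : G, ci g ≤ L ^ (3 * i + 2) → ci g ≤ L ^ (3 * i + 1) := by
    rcases chain (G := G) hL (L + 1) with h | h
    · exact h
    · exfalso
      have h2 := h.trans (Finset.card_le_univ _)
      rw [← hS] at h2
      have h3 : S.card = 0 := by nlinarith
      rw [h3] at h1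
      omega
  set N := closure {g : G | ci g ≤ L} with hN
  set R := L ^ (3 * (L + 1) + 1) with hR
  have hR0 : 0 < R := by positivity
  have hNci : ∀ y ∈ N, ci y ≤ R := by
    have : ∀ y ∈ N, ∀ g : G, ci g ≤ L ^ (3 * i + 1) → ci (y * g) ≤ L ^ (3 * i + 1) := by
      intro y hy
      have st : ∀ y : G, ci y ≤ L → ∀ g : G, ci g ≤ L ^ (3 * i + 1) →
          ci (y * g) ≤ L ^ (3 * i + 1) := by
        intro y hy g hg
        refine hch _ ((ci_mul y g).trans ((Nat.mul_le_mul hy hg).trans (le_of_eq ?_)))
        rw [← pow_succ']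
      induction hy using closure_induction'' with
      | mem x hx => exact st x hx
      | inv_mem x hx => exact st _ ((ci_inv x).trans hx)
      | one => intro g hg; rwa [one_mul]
      | mul x y _ _ hx hy => intro g hg; rw [mul_assoc]; exact hx _ (hy _ hg)
    intro y hy
    have h2 := this y hy 1 (by rw [ci_one]; exact Nat.one_le_pow _ _ hL)
    rw [mul_one] at h2
    exact h2.trans (Nat.pow_le_pow_right hL (by omega))
  have hNi : N.index ≤ L := by
    have h2 : S.card ≤ Nat.card N := by
      rw [Nat.subtype_card (Finset.univ.filter fun x : G => x ∈ N) (by simp)]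
      refine Finset.card_le_card fun x hx => Finset.mem_filter.2 ⟨Finset.mem_univ _, ?_⟩
      exact subset_closure (Finset.mem_filter.1 hx).2
    have h3 := N.index_mul_card
    rw [Nat.card_eq_fintype_card (α := G)] at h3
    have h4 : N.index * Nat.card N ≤ L * Nat.card N := by
      rw [h3]; exact h1.trans (Nat.mul_le_mul_left _ h2)
    exact Nat.le_of_mul_le_mul_right h4 Nat.card_pos
  have hCi : (centralizer (N : Set G)).index ≤ R ^ (L * m) := by
    obtain ⟨T, hT1, hT2⟩ := Group.rank_spec N
    have h2 : (⨅ t : T, centralizer ({((t : N) : G)} : Set G)) ≤ centralizer (N : Set G) := by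
      intro g hg
      rw [mem_centralizer_iff]
      intro y hy
      have h3 : closure (T : Set N) ≤ (centralizer ({g} : Set G)).subgroupOf N := by
        rw [closure_le]
        intro t ht
        have := mem_c.1 (mem_iInf.1 hg ⟨t, ht⟩)
        exact mem_c.2 this.symm
      have h4 : (⟨y, hy⟩ : N) ∈ (centralizer ({g} : Set G)).subgroupOf N :=
        h3 (by rw [hT2]; trivial)
      exact (mem_c.1 h4).symm
    refine (index_antitone h2).trans ((index_iInf_le _).trans ?_)
    refine (Finset.prod_le_pow_card _ (fun t : T => ci ((t : N) : G)) R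
      fun t _ => hNci _ (t : N).2).trans ?_
    refine Nat.pow_le_pow_right hR0 ?_
    rw [Finset.card_univ, Fintype.card_coe, hT1]
    exact (rank_le_index_mul_rank N).trans (Nat.mul_le_mul hNi hm)
  set A := N ⊓ centralizer (N : Set G) with hA
  have hAi : A.index ≤ L * R ^ (L * m) := index_inf_le.trans (Nat.mul_le_mul hNi hCi)
  have hNφ : ∀ (φ : MulAut G), ∀ y ∈ N, φ y ∈ N := by
    intro φ y hy
    have : N ≤ N.comap φ.toMonoidHom := by
      rw [hN, closure_le]
      intro g hg
      exact subset_closure ((ci_aut φ g).trans hg)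
    exact this hy
  have hAφ : ∀ (φ : MulAut G), ∀ a ∈ A, φ a ∈ A := by
    rintro φ a ⟨h2, h3⟩
    refine ⟨hNφ φ a h2, mem_centralizer_iff.2 fun y hy => ?_⟩
    have h4 := mem_centralizer_iff.1 h3 _ (hNφ φ⁻¹ y hy)
    have h5 := congrArg φ h4
    simpa using h5
  have hAc : ∀ x ∈ A, ∀ y ∈ A, x * y = y * x := fun x hx y hy =>
    mem_centralizer_iff.1 hy.2 x hx.1
  have hAinv : ∀ a ∈ A, β (a ^ c.factorial) = (a ^ c.factorial)⁻¹ := by
    intro a ha
    have hcm : Commute a (β a) := hAc _ ha _ (hAφ β a ha)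
    let F : Subgroup G := β.toMonoidHom.eqLocus (MonoidHom.id G)
    have hw : a * β a ∈ F := by
      show β (a * β a) = a * β a
      rw [map_mul, hβ, hcm.eq]
    have hF : Nat.card F ≤ c := hc
    obtain ⟨d, hd⟩ := Nat.dvd_factorial (Nat.card_pos (α := F)) hF
    have h2 : (⟨_, hw⟩ : F) ^ c.factorial = 1 := by rw [hd, pow_mul, pow_card_eq_one', one_pow]
    have h3 : (a * β a) ^ c.factorial = 1 := congrArg Subtype.val h2
    rw [hcm.mul_pow] at h3
    rw [map_pow]
    exact (inv_eq_of_mul_eq_one_right h3).symm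
  have hAz : ∀ a ∈ A, a ^ c.factorial ∈ center G := by
    intro a ha
    have h2 : closure (Set.range fun g : G => g * (β g)⁻¹) ≤
        centralizer ({a ^ c.factorial} : Set G) := by
      rw [closure_le]
      rintro _ ⟨g, rfl⟩
      have h3 := hAinv _ (hAφ (MulAut.conj g⁻¹) a ha)
      rw [← map_pow, MulAut.conj_apply, map_mul, map_mul, hAinv a ha, map_inv, map_inv] at h3
      refine mem_c.2 ?_
      generalize a ^ c.factorial = b at h3
      calc b * (g * (β g)⁻¹) = b * g * ((β g)⁻¹ * b⁻¹ * (β g)⁻¹⁻¹) * ((β g)⁻¹ * b) := by group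
        _ = _ := by rw [map_inv] at h3; rw [h3]; group
    rw [mem_center_iff]
    intro g
    exact (mem_c.1 (h2 (by rw [hgen]; trivial))).symm
  refine lemC (G := G ⧸ center G)
    ((Group.rank_le_of_surjective _ (QuotientGroup.mk'_surjective _)).trans hm)
    (A.map (QuotientGroup.mk' _)) ?_ ?_ ?_ c.factorial_pos
  · exact (Nat.le_of_dvd (Nat.pos_of_ne_zero A.index_ne_zero_of_finite)
      (A.index_map_dvd (QuotientGroup.mk'_surjective _))).trans hAi
  · rintro _ ⟨x, hx, rfl⟩ _ ⟨y, hy, rfl⟩
    rw [← map_mul, ← map_mul, hAc x hx y hy]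
  · rintro _ ⟨x, hx, rfl⟩
    rw [← map_pow]
    exact (QuotientGroup.eq_one_iff _).2 (hAz x hx)

theorem gen_J [Finite G] (α : MulAut G) (hα : ∀ g, α (α g) = g)
    (hgen : closure (Set.range fun g : G => g * (α g)⁻¹) = ⊤) :
    closure {g : G | Odd (orderOf g) ∧ α g = g⁻¹} = ⊤ := by
  haveI : Finite (MulAut G) :=
    Finite.of_injective (fun φ : MulAut G => (φ : G → G)) DFunLike.coe_injective
  let H := G ⋊[(zpowers α).subtype] (zpowers α)
  haveI : Finite H := Finite.of_equiv _ SemidirectProduct.equivProd.symm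
  let a : zpowers α := ⟨α, mem_zpowers α⟩
  let t : H := SemidirectProduct.inr a
  have haa : a * a = 1 := Subtype.ext (MulEquiv.ext hα)
  have ht : t * t = 1 := by rw [← map_mul, haa, map_one]
  have ht' : t⁻¹ = t := inv_eq_of_mul_eq_one_right ht
  have hcomm : ∀ u : zpowers α, u * a = a * u := by
    rintro ⟨_, k, rfl⟩
    exact Subtype.ext ((Commute.refl α).zpow_left k).eq
  haveI : Fact (Nat.Prime 2) := ⟨Nat.prime_two⟩
  have hsn := Bart.bartels (p := 2) (x := t) (k := 1) (by rw [pow_one, pow_two, ht])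
  have hconj : ∀ g : G, (SemidirectProduct.inl (α g) : H) = t * SemidirectProduct.inl g * t⁻¹ := by
    intro g
    have := SemidirectProduct.inl_aut (φ := (zpowers α).subtype) a g
    rw [map_inv] at this
    exact this
  have htop : Bart.SC t = ⊤ := by
    rcases hsn.lt_normal with h | ⟨K, hK, h1, h2⟩
    · exact h
    exfalso
    have htK : t ∈ K := h1 (Bart.self_mem t)
    have h3 : closure (Set.range fun g : G => g * (α g)⁻¹) ≤ K.comap SemidirectProduct.inl := by
      rw [closure_le]
      rintro _ ⟨g, rfl⟩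
      show (SemidirectProduct.inl (g * (α g)⁻¹) : H) ∈ K
      rw [map_mul, map_inv, hconj]
      have := K.mul_mem (hK.conj_mem t htK (SemidirectProduct.inl g)) (K.inv_mem htK)
      simpa only [mul_inv_rev, inv_inv, mul_assoc] using this
    refine h2.ne (eq_top_iff.2 fun h _ => ?_)
    rw [← SemidirectProduct.inl_left_mul_inr_right h]
    refine K.mul_mem (h3 (by rw [hgen]; trivial)) ?_
    obtain ⟨k, hk⟩ := mem_zpowers_iff.1 h.right.2
    have : h.right = a ^ k := Subtype.ext hk.symm
    rw [this, map_zpow]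
    exact K.zpow_mem htK k
  set J := {g : G | Odd (orderOf g) ∧ α g = g⁻¹} with hJ
  have hinv : ∀ u : zpowers α, ∀ x ∈ closure J, (u : MulAut G) x ∈ closure J := by
    intro u x hx
    have : closure J ≤ (closure J).comap (u : MulAut G).toMonoidHom := by
      rw [closure_le]
      rintro g ⟨h1, h2⟩
      refine subset_closure ⟨?_, ?_⟩
      · show Odd (orderOf ((u : MulAut G) g))
        rwa [MulEquiv.orderOf_eq]
      · show α ((u : MulAut G) g) = ((u : MulAut G) g)⁻¹
        have e : (u : MulAut G) * α = α * u := congrArg Subtype.val (hcomm u)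
        rw [← map_inv, ← h2, ← MulAut.mul_apply, ← e, MulAut.mul_apply]
    exact this hx
  let W : Subgroup H :=
    { carrier := {h | h.left ∈ closure J}
      mul_mem' := fun {x y} hx hy => (closure J).mul_mem hx (hinv _ _ hy)
      one_mem' := (closure J).one_mem
      inv_mem' := fun {x} hx => hinv x.right⁻¹ _ ((closure J).inv_mem hx) }
  have htW : t ∈ W := (closure J).one_mem
  have hle : Bart.SC t ≤ W := by
    refine Bart.SC_le fun y g hg e => ?_
    obtain ⟨k, hk⟩ := Bart.odd_of_strong ht hg e
    have hodd := Bart.odd_orderOf hk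
    have hy : y * y = 1 := by
      rw [e]
      calc g * t * g⁻¹ * (g * t * g⁻¹) = g * (t * t) * g⁻¹ := by
            simp only [mul_assoc, inv_mul_cancel_left]
        _ = 1 := by rw [ht, mul_one, mul_inv_cancel]
    have hr : (t * y).right = 1 := by
      have : y.right = a := by
        rw [e]
        show g.right * a * g.right⁻¹ = a
        rw [hcomm]; simp
      show a * y.right = 1
      rw [this, haa]
    have hc : t * y = SemidirectProduct.inl (t * y).left := by
      conv_lhs => rw [← SemidirectProduct.inl_left_mul_inr_right (t * y), hr, map_one, mul_one]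
    have hcW : t * y ∈ W := by
      refine subset_closure ⟨?_, ?_⟩
      · rw [hc, orderOf_injective _ SemidirectProduct.inl_injective] at hodd
        exact hodd
      · refine SemidirectProduct.inl_injective (φ := (zpowers α).subtype) ?_
        rw [hconj, map_inv, ← hc, ← mul_assoc, ht, one_mul, mul_inv_rev,
          inv_eq_of_mul_eq_one_right hy]
    have := W.mul_mem (W.inv_mem htW) hcW
    rwa [inv_mul_cancel_left] at this
  rw [eq_top_iff]
  intro g _
  have : (SemidirectProduct.inl g : H) ∈ W := hle (by rw [htop]; trivial)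
  exact this

def fF (m : ℕ) : ℕ := fB (fB (fA (m ^ m) m) m.factorial m) m.factorial m

theorem main [Finite G] (α : MulAut G) (hα : ∀ g, α (α g) = g)
    (hgen : closure (Set.range fun g : G => g * (α g)⁻¹) = ⊤) :
    Nat.card G ≤ fF (Nat.card {g : G // Odd (orderOf g) ∧ α g = g⁻¹}) := by
  classical
  letI := Fintype.ofFinite G
  have hJ := gen_J α hα hgen
  set J := {g : G | Odd (orderOf g) ∧ α g = g⁻¹} with hJdef
  set m := Nat.card {g : G // Odd (orderOf g) ∧ α g = g⁻¹} with hm
  have hrk : Group.rank G ≤ m := by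
    rw [hm, Nat.subtype_card (Finset.univ.filter fun g : G => Odd (orderOf g) ∧ α g = g⁻¹) (by simp)]
    refine Group.rank_le ?_
    rw [← hJ]; congr 1; ext; simp [hJdef]
  have hpow : ∀ j ∈ J, j ^ m.factorial = 1 := by
    rintro j ⟨h1, h2⟩
    have h3 : orderOf j ≤ m := by
      rw [← Nat.card_zpowers]
      refine Nat.card_le_card_of_injective (fun x => ⟨x.1, ?_, ?_⟩) ?_
      · exact Odd.of_dvd_nat h1 (orderOf_dvd_of_mem_zpowers x.2)
      · obtain ⟨k, hk⟩ := mem_zpowers_iff.1 x.2
        rw [← hk, map_zpow, h2, inv_zpow]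
      · intro x y e
        exact Subtype.ext (congrArg (fun t : {g : G // Odd (orderOf g) ∧ α g = g⁻¹} => t.1) e)
    exact orderOf_dvd_iff_pow_eq_one.1 (Nat.dvd_factorial (orderOf_pos j) h3)
  have hZ : (center G).map (α : G →* G) = center G :=
    characteristic_iff_map_eq.1 inferInstance α
  let β : MulAut (G ⧸ center G) := QuotientGroup.congr (center G) (center G) α hZ
  have hβ : ∀ g : G, β (g : G ⧸ center G) = (α g : G) := fun g => rfl
  have hββ : ∀ g, β (β g) = g := by
    intro g
    obtain ⟨g, rfl⟩ := QuotientGroup.mk_surjective g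
    rw [hβ, hβ, hα]
  have hrk' : Group.rank (G ⧸ center G) ≤ m :=
    (Group.rank_le_of_surjective _ (QuotientGroup.mk'_surjective _)).trans hrk
  have hgen' : closure (Set.range fun g : G ⧸ center G => g * (β g)⁻¹) = ⊤ := by
    rw [eq_top_iff, ← map_top_of_surjective _ (QuotientGroup.mk'_surjective (center G)), ← hgen,
      MonoidHom.map_closure]
    refine closure_mono ?_
    rintro _ ⟨_, ⟨g, rfl⟩, rfl⟩
    exact ⟨g, rfl⟩
  have hJ' : closure (QuotientGroup.mk' (center G) '' J) = ⊤ := by
    rw [← MonoidHom.map_closure, hJ, map_top_of_surjective _ (QuotientGroup.mk'_surjective _)]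
  have hfix : Nat.card {g : G ⧸ center G // β g = g} ≤ m ^ m := by
    have hz : ∀ g : {g : G ⧸ center G // β g = g}, (g.1.out)⁻¹ * α g.1.out ∈ center G := by
      intro g
      rw [← QuotientGroup.eq, ← hβ, QuotientGroup.out_eq', g.2]
    rw [hm, ← Nat.card_fun]
    refine Nat.card_le_card_of_injective
      (fun g j => ⟨g.1.out * j.1 * (g.1.out)⁻¹, ?_, ?_⟩) ?_
    · have := j.2.1
      rwa [← MulAut.conj_apply, MulEquiv.orderOf_eq]
    · have h1 := mem_center_iff.1 (hz g) j.1⁻¹
      rw [map_mul, map_mul, map_inv, j.2.2]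
      generalize g.1.out = x at h1
      calc α x * j.1⁻¹ * (α x)⁻¹ = x * (x⁻¹ * α x * j.1⁻¹) * (α x)⁻¹ := by group
        _ = _ := by rw [← h1]; group
    · intro g g' e
      have h1 : closure J ≤ centralizer ({(g.1.out)⁻¹ * g'.1.out} : Set G) := by
        rw [closure_le]
        intro j hj
        have h2 : g.1.out * j * (g.1.out)⁻¹ = g'.1.out * j * (g'.1.out)⁻¹ :=
          congrArg (fun t : {g : G // Odd (orderOf g) ∧ α g = g⁻¹} => t.1) (congrFun e ⟨j, hj⟩)
        refine mem_c.2 ?_
        generalize g.1.out = x at h2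
        generalize g'.1.out = y at h2
        calc x⁻¹ * y * j = x⁻¹ * (y * j * y⁻¹) * y := by group
          _ = _ := by rw [← h2]; group
      refine Subtype.ext ?_
      rw [← QuotientGroup.out_eq' g.1, ← QuotientGroup.out_eq' g'.1, QuotientGroup.eq,
        mem_center_iff]
      intro x
      exact (mem_c.1 (h1 (by rw [hJ]; trivial))).symm
  have h1 := lemA β hββ hfix hrk' hgen'
  have h2 := lemB hrk' hJ' (e := m.factorial) (by
    rintro _ ⟨j, hj, rfl⟩
    rw [← map_pow, hpow j hj, map_one]) m.factorial_pos h1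
  exact lemB hrk hJ hpow m.factorial_pos h2

end H13.InvBd
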