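import Mathlib

/-! Additive maps normalising the alternating group on the even-weight module of odd degree. -/

set_option autoImplicit false

namespace H13.Pm

open Equiv

variable {n : ℕ}

/-- the vector vanishing exactly at `i` -/
def vv (i : Fin n) : Fin n → ZMod 2 := fun j => if j = i then 0 else 1

theorem z2 (a : ZMod 2) : a = 0 ∨ a = 1 := by revert a; decide

theorem vv_eq (i : Fin n) : vv i = (fun _ => 1) + Pi.single i 1 := by
  ext j
  by_cases h : j = i
  · subst h; simp [vv]; decide
  · simp [vv, h]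

theorem vv_even (hn : Odd n) (i : Fin n) : ∑ j, vv i j = 0 := by
  obtain ⟨m, rfl⟩ := hn
  rw [vv_eq]
  simp only [Pi.add_apply, Finset.sum_add_distrib, Finset.sum_const, Finset.card_univ, Fintype.card_fin,
    Finset.sum_pi_single', Finset.mem_univ, if_true, nsmul_eq_mul, mul_one]
  push_cast
  have : (2 : ZMod 2) = 0 := rfl
  rw [this, zero_mul, zero_add]; rfl

theorem vv_inj {i j : Fin n} (h : vv i = vv j) : i = j := by
  by_contra e
  have := congrFun h i
  simp [vv, e] at this

theorem vv_perm (σ : Perm (Fin n)) (i : Fin n) : (fun j => vv i (σ⁻¹ j)) = vv (σ i) := by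
  ext j; simp only [vv, Perm.inv_eq_iff_eq]

/-- the orbit of a vector under the alternating group -/
def Orb (v : Fin n → ZMod 2) : Set (Fin n → ZMod 2) :=
  {w | ∃ τ ∈ alternatingGroup (Fin n), w = fun j => v (τ⁻¹ j)}

theorem small (hn : Odd n) {w : Fin n → ZMod 2} (hw : ∑ j, w j = 0) (h : (Orb w).ncard ≤ n) :
    w = 0 ∨ ∃ j, w = vv j := by
  classical
  by_contra hc
  push Not at hc
  set S := Finset.univ.filter fun j => w j = 1 with hS
  have mS : ∀ j, j ∈ S ↔ w j = 1 := fun j => by simp [hS]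
  have mC : ∀ j, j ∈ Sᶜ ↔ w j = 0 := fun j => by
    rw [Finset.mem_compl, mS]; rcases z2 (w j) with e | e <;> simp [e]
  have ev : 2 ∣ S.card := by
    rw [← ZMod.natCast_eq_zero_iff, ← hw, hS, Finset.card_filter]
    push_cast
    exact Finset.sum_congr rfl fun j _ => by rcases z2 (w j) with e | e <;> simp [e]
  have s0 : S.card ≠ 0 := fun e => hc.1 (funext fun j => (mC j).1 (by rw [Finset.card_eq_zero.1 e]; simp))
  have c1 : Sᶜ.card ≠ 1 := fun e => by
    obtain ⟨j, hj⟩ := Finset.card_eq_one.1 e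
    refine hc.2 j (funext fun k => ?_)
    by_cases hk : k = j
    · subst hk; simp only [vv, if_true]; exact (mC k).1 (by rw [hj]; simp)
    · simp only [vv, hk, if_false]
      exact (z2 (w k)).resolve_left fun e => hk (by simpa [hj] using (mC k).2 e)
  have sc : S.card + Sᶜ.card = n := by rw [Finset.card_add_card_compl, Fintype.card_fin]
  have hle : (S ×ˢ Sᶜ).card ≤ (Orb w).ncard := by
    rw [← Set.ncard_coe_finset]
    refine Set.ncard_le_ncard_of_injOn (fun q => fun j => w (swap q.1 q.2 j)) ?_ ?_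
    · rintro ⟨a, c⟩ hq
      obtain ⟨ha, -⟩ := Finset.mem_product.1 (Finset.mem_coe.1 hq)
      obtain ⟨-, hc'⟩ := Finset.mem_product.1 (Finset.mem_coe.1 hq)
      obtain ⟨b, hb, ba⟩ := Finset.exists_mem_ne (by omega : 1 < S.card) a
      have ac : a ≠ c := fun e => by
        have := (mC c).1 hc'; rw [← e, (mS a).1 ha] at this; exact absurd this (by decide)
      refine ⟨(swap a b * swap a c)⁻¹, inv_mem ?_, funext fun j => ?_⟩
      · rw [Perm.mem_alternatingGroup, map_mul, Perm.sign_swap ba.symm, Perm.sign_swap ac]; rfl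
      · rw [inv_inv, Perm.mul_apply, apply_swap_eq_self (((mS a).1 ha).trans ((mS b).1 hb).symm)]
    · rintro ⟨a, c⟩ hq ⟨a', c'⟩ hq' e
      obtain ⟨ha, hc1⟩ := Finset.mem_product.1 (Finset.mem_coe.1 hq)
      obtain ⟨ha', hc2⟩ := Finset.mem_product.1 (Finset.mem_coe.1 hq')
      rw [mS] at ha ha'
      rw [mC] at hc1 hc2
      dsimp only at ha ha' hc1 hc2 e
      have n01 : (0 : ZMod 2) ≠ 1 := by decide
      have e1 : a = a' := by
        by_contra ne
        have := congrFun e a
        rw [swap_apply_left, swap_apply_of_ne_of_ne ne (fun z => n01 (by rw [← hc2, ← z, ha])), hc1, ha] at this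
        exact n01 this
      have e2 : c = c' := by
        by_contra ne
        have := congrFun e c
        rw [swap_apply_right, swap_apply_of_ne_of_ne (fun z => n01 (by rw [← hc1, z, ha'])) ne, hc1, ha] at this
        exact n01 this.symm
      rw [e1, e2]
  rw [Finset.card_product] at hle
  obtain ⟨m, hm⟩ := hn
  have h2 : 2 ≤ S.card := by omega
  have h3 : 3 ≤ Sᶜ.card := by omega
  nlinarith

theorem key (hn : Odd n) (a : (Fin n → ZMod 2) → Fin n → ZMod 2)
    (h0 : ∀ v, ∑ j, v j = 0 → ∑ j, a v j = 0)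
    (h1 : ∀ v w, ∑ j, v j = 0 → ∑ j, w j = 0 → a (v + w) = a v + a w)
    (h2 : ∀ v w, ∑ j, v j = 0 → ∑ j, w j = 0 → a v = a w → v = w)
    (h3 : ∀ τ ∈ alternatingGroup (Fin n), ∃ τ' ∈ alternatingGroup (Fin n), ∀ v, ∑ j, v j = 0 →
      (fun j => a v (τ⁻¹ j)) = a fun j => v (τ'⁻¹ j)) :
    ∃ σ : Perm (Fin n), ∀ v, ∑ j, v j = 0 → a v = fun j => v (σ⁻¹ j) := by
  classical
  have a0 : a 0 = 0 := by
    have := h1 0 0 (by simp) (by simp)
    rw [add_zero] at this
    exact left_eq_add.1 this
  have hf : ∀ i, ∃ j, a (vv i) = vv j := fun i => by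
    have : (Orb (a (vv i))).ncard ≤ n := by
      refine le_trans (Set.ncard_le_ncard (t := Set.range fun j => a (vv j)) ?_) ?_
      · rintro _ ⟨τ, hτ, rfl⟩
        obtain ⟨τ', -, h⟩ := h3 τ hτ
        exact ⟨τ' i, by rw [h _ (vv_even hn i), vv_perm]⟩
      · rw [← Set.image_univ]
        exact (Set.ncard_image_le).trans (by simp [Set.ncard_univ])
    rcases small hn (h0 _ (vv_even hn i)) this with e | e
    · exact ⟨i, by rw [h2 _ 0 (vv_even hn i) (by simp) (e.trans a0.symm), a0]⟩
    · exact e
  choose f hf using hf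
  have inj : Function.Injective f := fun i j e =>
    vv_inj (h2 _ _ (vv_even hn i) (vv_even hn j) (by rw [hf, hf, e]))
  let σ : Perm (Fin n) := ofBijective f (Finite.injective_iff_bijective.1 inj)
  refine ⟨σ, fun v hv => ?_⟩
  have ind : ∀ s : Finset (Fin n), ∑ j, (∑ i ∈ s, vv i) j = 0 ∧
      a (∑ i ∈ s, vv i) = fun j => (∑ i ∈ s, vv i) (σ⁻¹ j) := fun s => by
    induction s using Finset.induction_on with
    | empty => exact ⟨by simp, by rw [Finset.sum_empty]; exact a0⟩
    | insert i s hi ih =>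
      rw [Finset.sum_insert hi]
      refine ⟨by simp only [Pi.add_apply, Finset.sum_add_distrib, vv_even hn i, ih.1, add_zero], ?_⟩
      rw [h1 _ _ (vv_even hn i) ih.1, ih.2, hf]
      exact congrArg (· + _) (vv_perm σ i).symm
  have e : v = ∑ i ∈ Finset.univ.filter fun i => v i = 1, vv i := by
    ext j
    rw [Finset.sum_apply, Finset.sum_filter]
    have : ∀ i, (if v i = 1 then vv i j else 0) = v i + (Pi.single j (v j) : Fin n → ZMod 2) i := fun i => by
      by_cases hij : j = i
      · subst hij; rcases z2 (v j) with e | e <;> simp [vv, e]; decide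
      · rcases z2 (v i) with e | e <;> simp [vv, e, hij, Ne.symm hij]
    simp only [this, Finset.sum_add_distrib, hv, zero_add, Finset.sum_pi_single', Finset.mem_univ, if_true]
  rw [e]; exact (ind _).2

end H13.Pm
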