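import Mathlib
/-! The cycle inequality for a triple with product one generating a group with few orbits. -/
namespace H13
noncomputable section
open MulAction Module

variable {G Ω : Type*} [Group G] [MulAction G Ω]

def pT (g : G) : (Ω → ℚ) →ₗ[ℚ] (Ω → ℚ) := LinearMap.id - LinearMap.funLeft ℚ ℚ (fun w => g⁻¹ • w)
theorem pT_app (g : G) (v : Ω → ℚ) (w : Ω) : pT g v w = v w - v (g⁻¹ • w) := rfl
theorem pT_mul (g h : G) (v : Ω → ℚ) : pT (g * h) v = pT g (fun w => v (h⁻¹ • w)) + pT h v := by
  funext w; simp only [pT_app, Pi.add_apply, mul_inv_rev, mul_smul]; ring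
theorem pT_inv (g : G) (v : Ω → ℚ) : pT g⁻¹ v = - pT g (fun w => v (g • w)) := by
  funext w; simp only [pT_app, Pi.neg_apply, inv_inv, smul_inv_smul]; ring
theorem mem_ker_pT {g : G} {v : Ω → ℚ} : v ∈ LinearMap.ker (pT g) ↔ ∀ w, v (g • w) = v w := by
  rw [LinearMap.mem_ker, funext_iff]
  simp only [pT_app, Pi.zero_apply, sub_eq_zero]
  exact ⟨fun h w => by simpa using h (g • w), fun h w => by simpa using h (g⁻¹ • w)⟩
def kd (Ω : Type*) [MulAction G Ω] (g : G) : ℕ := finrank ℚ (LinearMap.ker (pT (Ω := Ω) g))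
theorem kd_inv (g : G) : kd Ω g⁻¹ = kd Ω g := by
  have : LinearMap.ker (pT (Ω := Ω) g⁻¹) = LinearMap.ker (pT g) := by
    ext v; simp only [mem_ker_pT]
    exact ⟨fun h w => by simpa using (h (g • w)).symm, fun h w => by simpa using (h (g⁻¹ • w)).symm⟩
  unfold kd; rw [this]

theorem ree [Fintype Ω] (x y : G) (a b : Ω)
    (tr : ∀ w, ∃ g ∈ Subgroup.closure {x, y}, g • a = w ∨ g • b = w) :
    kd Ω x + kd Ω y + kd Ω (x * y) ≤ Fintype.card Ω + 4 := by
  classical
  set X := LinearMap.range (pT (Ω := Ω) x)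
  set Y := LinearMap.range (pT (Ω := Ω) y)
  have hx := (pT (Ω := Ω) x).finrank_range_add_finrank_ker
  have hy := (pT (Ω := Ω) y).finrank_range_add_finrank_ker
  have hs := Submodule.finrank_sup_add_finrank_inf_eq X Y
  rw [finrank_fintype_fun_eq_card] at hx hy
  -- the sum of the two ranges has codimension at most two
  have h1 : Fintype.card Ω ≤ finrank ℚ ↥(X ⊔ Y) + 2 := by
    have m : ∀ g ∈ Subgroup.closure {x, y}, ∀ v : Ω → ℚ, pT g v ∈ X ⊔ Y := by
      intro g hg
      induction hg using Subgroup.closure_induction with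
      | mem g hg =>
        rcases hg with rfl | rfl
        exacts [fun v => Submodule.mem_sup_left ⟨v, rfl⟩, fun v => Submodule.mem_sup_right ⟨v, rfl⟩]
      | one => intro v; convert Submodule.zero_mem _; funext w; simp [pT_app]
      | mul g h _ _ ig ih => intro v; rw [pT_mul]; exact add_mem (ig _) (ih _)
      | inv g _ ig => intro v; rw [pT_inv]; exact neg_mem (ig _)
    have s : ∀ (g : G) (c : Ω), (Pi.single (g • c) 1 : Ω → ℚ) = Pi.single c 1 - pT g (Pi.single c 1) := by
      intro g c; funext w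
      simp only [pT_app, Pi.sub_apply, sub_sub_cancel, Pi.single_apply, inv_smul_eq_iff]
    have t : (X ⊔ Y) ⊔ Submodule.span ℚ {(Pi.single a 1 : Ω → ℚ), Pi.single b 1} = ⊤ := by
      rw [eq_top_iff, ← (Pi.basisFun ℚ Ω).span_eq, Submodule.span_le]
      rintro _ ⟨w, rfl⟩
      obtain ⟨g, hg, e⟩ := tr w
      rw [Pi.basisFun_apply]
      rcases e with rfl | rfl <;> rw [SetLike.mem_coe, s] <;>
        exact sub_mem (Submodule.mem_sup_right (Submodule.subset_span (by simp))) (Submodule.mem_sup_left (m g hg _))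
    have u := Submodule.finrank_add_le_finrank_add_finrank (X ⊔ Y) (Submodule.span ℚ {(Pi.single a 1 : Ω → ℚ), Pi.single b 1})
    rw [t, finrank_top, finrank_fintype_fun_eq_card] at u
    have v : finrank ℚ (Submodule.span ℚ {(Pi.single a 1 : Ω → ℚ), Pi.single b 1}) ≤ 2 := by
      have := finrank_span_finset_le_card (R := ℚ) ({(Pi.single a 1 : Ω → ℚ), Pi.single b 1} : Finset (Ω → ℚ))
      rw [Set.finrank, Finset.coe_pair] at this
      exact this.trans Finset.card_le_two
    omega
  have h2 : kd Ω (x * y) ≤ finrank ℚ ↥(X ⊓ Y) + 2 := by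
    let K := LinearMap.ker (pT (Ω := Ω) (x * y))
    let f : K →ₗ[ℚ] ↥(X ⊓ Y) × (ℚ × ℚ) := LinearMap.prod
      (LinearMap.codRestrict _ (pT y ∘ₗ K.subtype) fun v => ⟨⟨-fun w => v.1 (y⁻¹ • w), by
        have := v.2
        rw [LinearMap.mem_ker, pT_mul] at this
        rw [map_neg]; exact neg_eq_of_add_eq_zero_right this⟩, ⟨v, rfl⟩⟩)
      (LinearMap.prod (LinearMap.proj a ∘ₗ K.subtype) (LinearMap.proj b ∘ₗ K.subtype))
    have hf : Function.Injective f := by
      rw [injective_iff_map_eq_zero]
      intro v hv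
      have e1 : v.1 ∈ LinearMap.ker (pT y) := congrArg (fun t : ↥(X ⊓ Y) × (ℚ × ℚ) => t.1.1) hv
      have ea : v.1 a = 0 := congrArg (fun t => t.2.1) hv
      have eb : v.1 b = 0 := congrArg (fun t => t.2.2) hv
      have e2 := mem_ker_pT.1 v.2
      rw [mem_ker_pT] at e1
      have m : ∀ g ∈ Subgroup.closure {x, y}, ∀ w, v.1 (g • w) = v.1 w := by
        intro g hg
        induction hg using Subgroup.closure_induction with
        | mem g hg =>
          rcases hg with rfl | rfl
          · intro w; have := e2 (y⁻¹ • w); rw [mul_smul, smul_inv_smul] at this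
            rw [this, ← e1, smul_inv_smul]
          · exact e1
        | one => simp
        | mul g h _ _ ig ih => intro w; rw [mul_smul, ig, ih]
        | inv g _ ig => intro w; rw [← ig, smul_inv_smul]
      ext w
      obtain ⟨g, hg, e⟩ := tr w
      rcases e with rfl | rfl <;> rw [m g hg] <;> assumption
    have := LinearMap.finrank_le_finrank_of_injective hf
    unfold kd
    simpa using this
  change finrank ℚ X + kd Ω x = _ at hx
  change finrank ℚ Y + kd Ω y = _ at hy
  omega

theorem kd_ge [Fintype Ω] [Finite G] (g : G) (F : Finset Ω) (hF : ∀ w ∈ F, g • w = w) :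
    Fintype.card Ω + (orderOf g - 1) * F.card ≤ orderOf g * kd Ω g := by
  classical
  let Z := Subgroup.zpowers g
  let _ := Fintype.ofFinite Z
  let _ : ∀ a : Z, Fintype (fixedBy Ω a) := fun a => Fintype.ofFinite _
  let _ := Fintype.ofFinite (Quotient (orbitRel Z Ω))
  have b := sum_card_fixedBy_eq_card_orbits_mul_card_group Z Ω
  have cz : Fintype.card Z = orderOf g := by rw [← Nat.card_eq_fintype_card, Nat.card_zpowers]
  have k : Fintype.card (Quotient (orbitRel Z Ω)) ≤ kd Ω g := by
    let f : (Quotient (orbitRel Z Ω) → ℚ) →ₗ[ℚ] LinearMap.ker (pT (Ω := Ω) g) :=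
      LinearMap.codRestrict _ (LinearMap.funLeft ℚ ℚ (Quotient.mk _)) fun v => mem_ker_pT.2 fun w =>
        congrArg v (Quotient.sound ⟨⟨g, Subgroup.mem_zpowers g⟩, rfl⟩)
    have hf : Function.Injective f := fun u v e => funext fun q => by
      induction q using Quotient.inductionOn with
      | h w => exact congrFun (congrArg Subtype.val e) w
    unfold kd
    simpa using LinearMap.finrank_le_finrank_of_injective hf
  rw [← Finset.add_sum_erase _ _ (Finset.mem_univ 1), cz] at b
  have o : Fintype.card (fixedBy Ω (1 : Z)) = Fintype.card Ω := by simp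
  have s : (orderOf g - 1) * F.card ≤ ∑ a ∈ Finset.univ.erase (1 : Z), Fintype.card (fixedBy Ω a) := by
    have := Finset.card_nsmul_le_sum (Finset.univ.erase (1 : Z)) (fun a => Fintype.card (fixedBy Ω a)) F.card fun a _ => by
      rw [← Fintype.card_coe]
      refine Fintype.card_le_of_injective (fun w => ⟨w.1, ?_⟩) fun u v e => Subtype.ext (congrArg (fun t : fixedBy Ω a => t.1) e)
      have : Z ≤ stabilizer G w.1 := (Subgroup.zpowers_le).2 (hF _ w.2)
      exact this a.2
    rwa [Finset.card_erase_of_mem (Finset.mem_univ _), Finset.card_univ, cz, smul_eq_mul] at this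
  rw [o] at b
  nlinarith

theorem fix_mod [Fintype Ω] [DecidableEq Ω] [Finite G] {g : G} {p : ℕ} (hp : p.Prime) (o : orderOf g = p) :
    Fintype.card Ω ≡ (Finset.univ.filter fun w : Ω => g • w = w).card [MOD p] := by
  have := Fact.mk hp
  have h : IsPGroup p (Subgroup.zpowers g) := IsPGroup.of_card (n := 1) (by rw [Nat.card_zpowers, o, pow_one])
  have := h.card_modEq_card_fixedPoints Ω
  rw [Nat.card_eq_fintype_card] at this
  convert this
  rw [← Fintype.card_coe, ← Nat.card_eq_fintype_card]
  refine Nat.card_congr (Equiv.subtypeEquivRight fun w => ?_)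
  simp only [Finset.mem_filter, Finset.mem_univ, true_and, mem_fixedPoints]
  exact ⟨fun e a => (Subgroup.zpowers_le (H := stabilizer G w)).2 e a.2, fun e => e ⟨g, Subgroup.mem_zpowers g⟩⟩
end
end H13
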