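import Cfsg.Agent.H13.Rk2

/-! An abstract description of `PSp₄(q)` near its subgroup `(SL₂(q) ∘ SL₂(q)).2`, and the
simplicity of its 2-fusion system. -/

set_option autoImplicit false

namespace H13

open Cfsg Cfsg.FusionSystem

structure SpW (L G : Type*) [Group L] [Group G] where
  ε : L
  d : L × L →* G
  τ : G
  εε : ε * ε = 1
  ε1 : ε ≠ 1
  εc : ∀ x, x * ε = ε * x
  inv : ∀ x : L, x * x = 1 → x = 1 ∨ x = ε
  ker : ∀ x y, d (x, y) = 1 ↔ (x = 1 ∧ y = 1) ∨ (x = ε ∧ y = ε)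
  ττ : τ * τ = 1
  τd : ∀ x y, τ * d (x, y) = d (y, x) * τ
  τn : ∀ u, τ ≠ d u
  cent : ∀ g, g * d (ε, 1) = d (ε, 1) * g → ∃ u, g = d u ∨ g = d u * τ
  om : ∀ i j : L, i * i = ε → j * j = ε → j * i * j⁻¹ = i⁻¹ → ∃ ω, ω * i * ω⁻¹ = j
  gam : ∀ i : L, i * i = ε → ∃ (γ : G) (υ : MulAut L), γ ^ 2 ^ 2 = 1 ∧
    γ * d (ε, 1) * γ⁻¹ = τ ∧ γ * τ * γ⁻¹ = d (ε, 1) ∧
    (∀ c, γ * d (c, c) * γ⁻¹ = d (υ c, υ c)) ∧ υ i = i ∧ ∀ j, j * i * j⁻¹ = i⁻¹ → υ j = i * j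

namespace SpW

variable {L G : Type*} [Group L] [Group G] (w : SpW L G)

theorem τinv : w.τ⁻¹ = w.τ := inv_eq_of_mul_eq_one_right w.ττ

theorem εinv : w.ε⁻¹ = w.ε := inv_eq_of_mul_eq_one_right w.εε

theorem τd' (u : L × L) : w.τ * w.d u = w.d u.swap * w.τ := w.τd u.1 u.2

theorem dmul (x y x' y' : L) : w.d (x, y) * w.d (x', y') = w.d (x * x', y * y') := by
  rw [← map_mul]; rfl

theorem dinv (x y : L) : (w.d (x, y))⁻¹ = w.d (x⁻¹, y⁻¹) := by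
  rw [← map_inv]; rfl

theorem τconj (x y : L) : w.τ * w.d (x, y) * w.τ⁻¹ = w.d (y, x) := by
  rw [w.τd, mul_inv_cancel_right]

theorem conjτ (x y : L) : w.d (x, y) * w.τ * (w.d (x, y))⁻¹ = w.d (x * y⁻¹, y * x⁻¹) * w.τ := by
  rw [w.dinv, mul_assoc, w.τd, ← mul_assoc, w.dmul]

theorem ne (u v : L × L) : w.d u ≠ w.d v * w.τ := fun h =>
  w.τn (v⁻¹ * u) (by rw [map_mul, map_inv, h, inv_mul_cancel_left])

theorem d_eq {x y x' y' : L} (h : w.d (x, y) = w.d (x', y')) :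
    (x = x' ∧ y = y') ∨ (x = w.ε * x' ∧ y = w.ε * y') := by
  have : w.d (x * x'⁻¹, y * y'⁻¹) = 1 := by rw [← w.dmul, ← w.dinv, h, mul_inv_cancel]
  simpa only [mul_inv_eq_iff_eq_mul, one_mul] using (w.ker _ _).1 this

theorem z_eq : w.d (1, w.ε) = w.d (w.ε, 1) := by
  have := (w.ker w.ε w.ε).2 (Or.inr ⟨rfl, rfl⟩)
  rw [← mul_one (w.d (1, w.ε)), ← this, w.dmul, one_mul, w.εε]

/-- The subgroup `d(A)⟨τ⟩`. -/
def W (A : Subgroup (L × L)) (hA : ∀ u ∈ A, u.swap ∈ A) : Subgroup G where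
  carrier := {g | ∃ u ∈ A, g = w.d u ∨ g = w.d u * w.τ}
  one_mem' := ⟨1, A.one_mem, Or.inl (map_one _).symm⟩
  mul_mem' := by
    rintro _ _ ⟨u, hu, rfl | rfl⟩ ⟨v, hv, rfl | rfl⟩
    · exact ⟨u * v, A.mul_mem hu hv, Or.inl (map_mul _ _ _).symm⟩
    · exact ⟨u * v, A.mul_mem hu hv, Or.inr (by rw [map_mul, mul_assoc])⟩
    · exact ⟨u * v.swap, A.mul_mem hu (hA v hv), Or.inr (by
        rw [map_mul, mul_assoc, w.τd', mul_assoc])⟩
    · exact ⟨u * v.swap, A.mul_mem hu (hA v hv), Or.inl (by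
        rw [map_mul, mul_assoc, ← mul_assoc w.τ, w.τd', mul_assoc, w.ττ, mul_one])⟩
  inv_mem' := by
    rintro _ ⟨u, hu, rfl | rfl⟩
    · exact ⟨u⁻¹, A.inv_mem hu, Or.inl (map_inv _ _).symm⟩
    · exact ⟨u⁻¹.swap, hA _ (A.inv_mem hu), Or.inr (by
        rw [mul_inv_rev, w.τinv, ← map_inv, w.τd'])⟩

variable {A : Subgroup (L × L)} {hA : ∀ u ∈ A, u.swap ∈ A}

theorem mem_W {g : G} : g ∈ w.W A hA ↔ ∃ u ∈ A, g = w.d u ∨ g = w.d u * w.τ := Iff.rfl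

theorem τ_mem : w.τ ∈ w.W A hA := ⟨1, A.one_mem, Or.inr (by simp)⟩

theorem d_mem {u : L × L} (h : u ∈ A) : w.d u ∈ w.W A hA := ⟨u, h, Or.inl rfl⟩

theorem d_mem_iff (hε : (w.ε, w.ε) ∈ A) {u : L × L} : w.d u ∈ w.W A hA ↔ u ∈ A := by
  refine ⟨?_, w.d_mem⟩
  rintro ⟨v, hv, h | h⟩
  · rcases w.d_eq (x := u.1) (y := u.2) (x' := v.1) (y' := v.2) h with h | h
    · exact (Prod.ext h.1 h.2 : u = v) ▸ hv
    · exact (Prod.ext h.1 h.2 : u = (w.ε, w.ε) * v) ▸ A.mul_mem hε hv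
  · exact absurd h (w.ne _ _)

theorem dτ_mem_iff (hε : (w.ε, w.ε) ∈ A) {u : L × L} : w.d u * w.τ ∈ w.W A hA ↔ u ∈ A := by
  rw [Subgroup.mul_mem_cancel_right _ w.τ_mem, w.d_mem_iff hε]

theorem le_of_W {K : Subgroup G} (h1 : ∀ u ∈ A, w.d u ∈ K) (h2 : w.τ ∈ K) : w.W A hA ≤ K := by
  rintro _ ⟨u, hu, rfl | rfl⟩
  exacts [h1 u hu, K.mul_mem (h1 u hu) h2]

theorem mem_normalizer_W [Finite G] {g : G} (h1 : ∀ u ∈ A, g * w.d u * g⁻¹ ∈ w.W A hA)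
    (h2 : g * w.τ * g⁻¹ ∈ w.W A hA) : g ∈ Subgroup.normalizer (w.W A hA : Set G) :=
  normalizer_of_finite (w.le_of_W (K := (w.W A hA).comap (MulAut.conj g).toMonoidHom) h1 h2)

/-- The candidate Sylow subgroup. -/
def S₀ (Q : Subgroup L) : Subgroup G := w.W (Q.prod Q) fun _ h => ⟨h.2, h.1⟩

/-- The diagonal modulo signs. -/
def Δ (Q : Subgroup L) : Subgroup (L × L) where
  carrier := {u | u.1 ∈ Q ∧ (u.2 = u.1 ∨ u.2 = w.ε * u.1)}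
  one_mem' := ⟨Q.one_mem, Or.inl rfl⟩
  mul_mem' := by
    rintro ⟨x, y⟩ ⟨x', y'⟩ ⟨h1, h2⟩ ⟨h3, h4⟩
    refine ⟨Q.mul_mem h1 h3, ?_⟩
    simp only at h2 h4
    rcases h2 with rfl | rfl <;> rcases h4 with rfl | rfl
    · exact Or.inl rfl
    · exact Or.inr (by simp only [Prod.mk_mul_mk, ← mul_assoc, w.εc])
    · exact Or.inr (by simp only [Prod.mk_mul_mk, mul_assoc])
    · exact Or.inl (by
        simp only [Prod.mk_mul_mk]
        rw [← w.εc x, mul_assoc, ← mul_assoc w.ε, w.εε, one_mul])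
  inv_mem' := by
    rintro ⟨x, y⟩ ⟨h1, h2⟩
    refine ⟨Q.inv_mem h1, ?_⟩
    simp only at h2
    rcases h2 with rfl | rfl
    · exact Or.inl rfl
    · exact Or.inr (by simp only [Prod.inv_mk, mul_inv_rev, w.εinv, w.εc])

theorem Δ_swap {Q : Subgroup L} (hε : w.ε ∈ Q) : ∀ u ∈ w.Δ Q, u.swap ∈ w.Δ Q := by
  rintro ⟨x, y⟩ ⟨h1, h2⟩
  simp only at h2
  rcases h2 with rfl | rfl
  · exact ⟨h1, Or.inl rfl⟩
  · exact ⟨Q.mul_mem hε h1, Or.inr (by simp [← mul_assoc, w.εε])⟩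

/-- Generators of a quaternion subgroup. -/
structure QG (Q : Subgroup L) (k : ℕ) (a b : L) : Prop where
  ha : a ∈ Q
  hb : b ∈ Q
  oa : orderOf a = 2 ^ (k + 2)
  aε : a ^ 2 ^ (k + 1) = w.ε
  bb : b * b = w.ε
  ba : b * a * b⁻¹ = a⁻¹
  mem : ∀ g ∈ Q, ∃ i : ℤ, g = a ^ i ∨ g = a ^ i * b

variable {w} {Q : Subgroup L} {k : ℕ} {a b : L} (h : w.QG Q k a b)
include h

theorem QG.ε_mem : w.ε ∈ Q := h.bb ▸ Q.mul_mem h.hb h.hb

theorem QG.conj (i j : ℤ) : (a ^ i * b) * a ^ j * (a ^ i * b)⁻¹ = (a ^ j)⁻¹ := by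
  calc (a ^ i * b) * a ^ j * (a ^ i * b)⁻¹ = a ^ i * (b * a * b⁻¹) ^ j * (a ^ i)⁻¹ := by
        rw [conj_zpow]; group
    _ = (a ^ j)⁻¹ := by rw [h.ba]; group

theorem QG.sq (i : ℤ) : (a ^ i * b) * (a ^ i * b) = w.ε := by
  have := h.conj 0 i
  rw [zpow_zero, one_mul] at this
  calc (a ^ i * b) * (a ^ i * b) = a ^ i * (b * a ^ i * b⁻¹) * (b * b) := by group
    _ = w.ε := by rw [this, h.bb]; group

theorem QG.aa : a * a ≠ 1 := by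
  rw [← pow_two]
  refine pow_ne_one_of_lt_orderOf (by omega) ?_
  rw [h.oa]
  exact Nat.pow_lt_pow_right (a := 2) (m := 1) (by omega) (by omega)

theorem QG.center {x : L} (hx : x ∈ Q) (hc : ∀ r ∈ Q, x * r = r * x) : x = 1 ∨ x = w.ε := by
  obtain ⟨i, rfl | rfl⟩ := h.mem x hx
  · refine w.inv _ ?_
    have := h.conj 0 i
    rw [zpow_zero, one_mul, ← hc b h.hb, mul_inv_cancel_right] at this
    exact mul_eq_one_iff_eq_inv.2 this
  · have := h.conj i 1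
    rw [zpow_one, hc a h.ha, mul_inv_cancel_right] at this
    exact absurd (mul_eq_one_iff_eq_inv.2 this) h.aa

theorem QG.d_mem_iff {x y : L} : w.d (x, y) ∈ w.S₀ Q ↔ x ∈ Q ∧ y ∈ Q :=
  w.d_mem_iff (Subgroup.mem_prod.2 ⟨h.ε_mem, h.ε_mem⟩)

theorem QG.dτ_mem_iff {x y : L} : w.d (x, y) * w.τ ∈ w.S₀ Q ↔ x ∈ Q ∧ y ∈ Q :=
  w.dτ_mem_iff (Subgroup.mem_prod.2 ⟨h.ε_mem, h.ε_mem⟩)

theorem QG.z_mem : w.d (w.ε, 1) ∈ w.S₀ Q := h.d_mem_iff.2 ⟨h.ε_mem, Q.one_mem⟩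

theorem QG.eq_z {g : G} (hg : g ∈ w.S₀ Q) (h1 : g ≠ 1) (hc : ∀ s ∈ w.S₀ Q, s * g = g * s) :
    g = w.d (w.ε, 1) := by
  obtain ⟨⟨x, y⟩, ⟨hx, hy⟩, rfl | rfl⟩ := hg
  · have h2 : x = 1 ∨ x = w.ε := h.center hx fun r hr => by
      have := hc _ (h.d_mem_iff.2 ⟨hr, Q.one_mem⟩)
      rw [w.dmul, w.dmul] at this
      rcases w.d_eq this with e | e
      · exact e.1.symm
      · exact absurd (by simpa using e.2) w.ε1
    have h3 : y = 1 ∨ y = w.ε := h.center hy fun r hr => by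
      have := hc _ (h.d_mem_iff.2 ⟨Q.one_mem, hr⟩)
      rw [w.dmul, w.dmul] at this
      rcases w.d_eq this with e | e
      · exact e.2.symm
      · exact absurd (by simpa using e.1) w.ε1
    rcases h2 with rfl | rfl <;> rcases h3 with rfl | rfl
    · exact absurd (map_one _) h1
    · exact w.z_eq
    · rfl
    · exact absurd ((w.ker _ _).2 (Or.inr ⟨rfl, rfl⟩)) h1
  · have := hc _ (h.d_mem_iff.2 ⟨h.ha, Q.one_mem⟩)
    rw [mul_assoc (w.d _) w.τ, w.τd, ← mul_assoc, ← mul_assoc, mul_left_inj, w.dmul, w.dmul] at this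
    refine absurd ?_ h.aa
    rcases w.d_eq this with e | e
    · rw [show a = 1 by simpa using e.1, one_mul]
    · rw [show a = w.ε by simpa using e.1, w.εε]

theorem QG.z_comm {s : G} (hs : s ∈ w.S₀ Q) : s * w.d (w.ε, 1) = w.d (w.ε, 1) * s := by
  have h1 : ∀ u, w.d u * w.d (w.ε, 1) = w.d (w.ε, 1) * w.d u := fun ⟨x, y⟩ => by
    rw [w.dmul, w.dmul, w.εc, mul_one, one_mul]
  obtain ⟨u, -, rfl | rfl⟩ := hs
  · exact h1 u
  · rw [mul_assoc, w.τd, w.z_eq, ← mul_assoc, h1, mul_assoc]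

theorem QG.z_ne : w.d (w.ε, 1) ≠ 1 := fun e => by
  rcases (w.ker _ _).1 e with e | e
  exacts [w.ε1 e.1, w.ε1 e.2.symm]

/-- The shape of elements normalizing `S₀`. -/
theorem QG.normalizer [Finite L] {g : G} (hg : g ∈ Subgroup.normalizer (w.S₀ Q : Set G)) :
    ∃ s ∈ w.S₀ Q, ∃ y ∈ Subgroup.normalizer (Q : Set L), g = s * w.d (y, y) := by
  have h1 : g * w.d (w.ε, 1) * g⁻¹ = w.d (w.ε, 1) := by
    refine h.eq_z (conj_mem_of_normalizer hg h.z_mem) (by simpa using h.z_ne) fun s hs => ?_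
    have := h.z_comm (conj_mem_of_normalizer' hg hs)
    calc s * (g * w.d (w.ε, 1) * g⁻¹) = g * (g⁻¹ * s * g * w.d (w.ε, 1)) * g⁻¹ := by group
      _ = g * w.d (w.ε, 1) * g⁻¹ * s := by rw [this]; group
  have key : ∀ x y, w.d (x, y) ∈ Subgroup.normalizer (w.S₀ Q : Set G) →
      ∃ s ∈ w.S₀ Q, ∃ c ∈ Subgroup.normalizer (Q : Set L), w.d (x, y) = s * w.d (c, c) := by
    intro x y hg
    have h2 := conj_mem_of_normalizer hg w.τ_mem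
    rw [w.conjτ, h.dτ_mem_iff] at h2
    refine ⟨_, h.d_mem_iff.2 ⟨h2.1, Q.one_mem⟩, y, normalizer_of_finite fun r hr => ?_, ?_⟩
    · have h3 := conj_mem_of_normalizer hg (h.d_mem_iff.2 ⟨Q.one_mem, hr⟩)
      rw [w.dinv, w.dmul, w.dmul, h.d_mem_iff] at h3
      exact h3.2
    · rw [w.dmul, one_mul, inv_mul_cancel_right]
  obtain ⟨⟨x, y⟩, rfl | rfl⟩ := w.cent g (mul_inv_eq_iff_eq_mul.1 h1)
  · exact key x y hg
  · obtain ⟨s, hs, c, hc, e⟩ := key x y ((Subgroup.mul_mem_cancel_right _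
      (Subgroup.le_normalizer w.τ_mem)).1 hg)
    refine ⟨s * w.τ, Subgroup.mul_mem _ hs w.τ_mem, c, hc, ?_⟩
    rw [e, mul_assoc, mul_assoc, w.τd]

theorem QG.diag_mem_normalizer [Finite G] {y : L} (hy : y ∈ Subgroup.normalizer (Q : Set L)) :
    w.d (y, y) ∈ Subgroup.normalizer (w.S₀ Q : Set G) := by
  refine w.mem_normalizer_W ?_ ?_
  · rintro ⟨r, r'⟩ hr
    rw [w.dinv, w.dmul, w.dmul]
    exact h.d_mem_iff.2 ⟨conj_mem_of_normalizer hy hr.1, conj_mem_of_normalizer hy hr.2⟩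
  · rw [w.conjτ, mul_inv_cancel]
    exact h.dτ_mem_iff.2 ⟨Q.one_mem, Q.one_mem⟩

theorem QG.sylIn [Finite L] [Finite G] (hQ : SylIn 2 Q ⊤) : SylIn 2 (w.S₀ Q) ⊤ := by
  have h1 : ∀ u ∈ Q.prod Q, ∃ n, w.d u ^ 2 ^ n = 1 := by
    rintro ⟨x, y⟩ ⟨hx, hy⟩
    obtain ⟨n, hn⟩ := isPGroup_iff_mem.1 hQ.isPGroup x hx
    obtain ⟨m, hm⟩ := isPGroup_iff_mem.1 hQ.isPGroup y hy
    refine ⟨n + m, ?_⟩
    rw [← map_pow, Prod.pow_mk, pow_add, pow_mul, hn, one_pow, mul_comm, pow_mul, hm, one_pow]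
    exact map_one _
  refine ⟨le_top, isPGroup_iff_mem.2 ?_, fun T _ hT hle => ?_⟩
  · rintro _ ⟨u, hu, rfl | rfl⟩
    · exact h1 u hu
    · obtain ⟨n, hn⟩ := h1 (u * u.swap) (Subgroup.mul_mem _ hu ⟨hu.2, hu.1⟩)
      refine ⟨n + 1, ?_⟩
      rw [pow_succ', pow_mul, pow_two, mul_assoc, ← mul_assoc w.τ, w.τd', mul_assoc, w.ττ, mul_one,
        ← map_mul, hn]
  · by_contra hn
    obtain ⟨g, ⟨hg1, hg2⟩, hg3⟩ := SetLike.exists_of_lt
      (lt_inf_normalizer hT (lt_of_le_not_ge hle hn))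
    obtain ⟨s, hs, y, hy, rfl⟩ := h.normalizer hg2
    obtain ⟨n, hn⟩ := isPGroup_iff_mem.1 hT _ ((T.mul_mem_cancel_left (hle hs)).1 hg1)
    have h2 : y ^ 2 ^ (n + 1) = 1 := by
      rw [← map_pow, Prod.pow_mk, w.ker] at hn
      rw [pow_succ, pow_mul, pow_two]
      rcases hn with e | e <;> rw [e.1]
      exacts [one_mul _, w.εε]
    have h3 : y ∈ Q := hQ.le_of_le_normalizer (isPGroup_zpowers h2) le_top
      (Subgroup.zpowers_le.2 hy) (Subgroup.mem_zpowers y)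
    exact hg3 (Subgroup.mul_mem _ hs (h.d_mem_iff.2 ⟨h3, h3⟩))

theorem QG.sc {T : Subgroup G} (hz : w.d (w.ε, 1) ∈ T)
    (hT : ∀ x ∈ T, ∀ g, g * x * g⁻¹ ∈ w.S₀ Q → g * x * g⁻¹ ∈ T) : w.S₀ Q ≤ T := by
  have hii : a ^ (2 ^ k : ℤ) * a ^ (2 ^ k : ℤ) = w.ε := by
    rw [← h.aε, ← zpow_add, ← zpow_natCast]
    congr 1
    push_cast
    ring
  have hi : a ^ (2 ^ k : ℤ) ∈ Q := Q.zpow_mem h.ha _
  obtain ⟨γ, -, -, h1, -⟩ := w.gam _ hii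
  have hτ : w.τ ∈ T := h1 ▸ hT _ hz γ (h1 ▸ w.τ_mem)
  have h2 : w.d (a ^ (2 ^ k : ℤ), (a ^ (2 ^ k : ℤ))⁻¹) ∈ T := by
    have h3 := w.conjτ (a ^ (2 ^ k : ℤ)) 1
    rw [inv_one, mul_one, one_mul] at h3
    refine (T.mul_mem_cancel_right hτ).1 (h3 ▸ hT _ hτ _ ?_)
    rw [h3]
    exact h.dτ_mem_iff.2 ⟨hi, Q.inv_mem hi⟩
  have h3 : ∀ m : ℤ, w.d (a ^ m * b, (a ^ (2 ^ k : ℤ))⁻¹) ∈ T := fun m => by
    obtain ⟨ω, hω⟩ := w.om _ _ hii (h.sq m) (h.conj m _)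
    have h4 : w.d (ω, 1) * w.d (a ^ (2 ^ k : ℤ), (a ^ (2 ^ k : ℤ))⁻¹) * (w.d (ω, 1))⁻¹ =
        w.d (a ^ m * b, (a ^ (2 ^ k : ℤ))⁻¹) := by
      rw [w.dinv, w.dmul, w.dmul, hω, inv_one, one_mul, mul_one]
    refine h4 ▸ hT _ h2 _ ?_
    rw [h4]
    exact h.d_mem_iff.2 ⟨Q.mul_mem (Q.zpow_mem h.ha _) h.hb, Q.inv_mem hi⟩
  have h4 : ∀ m : ℤ, w.d (a ^ m, 1) ∈ T := fun m => by
    have := T.mul_mem (h3 m) (T.inv_mem (h3 0))
    rwa [w.dinv, w.dmul, mul_inv_cancel, zpow_zero, one_mul, mul_inv_cancel_right] at this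
  have h5 : ∀ x, w.d (x, 1) ∈ T → w.d (1, x) ∈ T := fun x hx =>
    w.τconj x 1 ▸ T.mul_mem (T.mul_mem hτ hx) (T.inv_mem hτ)
  have h6 : ∀ x ∈ Q, w.d (x, 1) ∈ T := fun x hx => by
    obtain ⟨m, rfl | rfl⟩ := h.mem x hx
    · exact h4 m
    · have := T.mul_mem (h3 m) (h5 _ (h4 (2 ^ k)))
      rwa [w.dmul, mul_one, inv_mul_cancel] at this
  refine w.le_of_W ?_ hτ
  rintro ⟨x, y⟩ ⟨hx, hy⟩
  have := T.mul_mem (h6 x hx) (h5 y (h6 y hy))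
  rwa [w.dmul, mul_one, one_mul] at this

theorem QG.scn [Finite G] (ha : a * a = w.ε) :
    SCN (w.S₀ Q) (w.W (w.Δ Q) (w.Δ_swap h.ε_mem)) := by
  have hε : (w.ε, w.ε) ∈ w.Δ Q := ⟨h.ε_mem, Or.inl rfl⟩
  have hsq : ∀ r ∈ Q, r⁻¹ = r ∨ r⁻¹ = w.ε * r := fun r hr => by
    have : r * r = 1 ∨ r * r = w.ε := by
      obtain ⟨i, rfl | rfl⟩ := h.mem r hr
      · refine w.inv _ ?_
        have : a ^ i * a ^ i = w.ε ^ i := by rw [← ha, Commute.mul_zpow (Commute.refl a)]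
        rw [this, ← Commute.mul_zpow (Commute.refl _), w.εε, one_zpow]
      · exact Or.inr (h.sq i)
    rcases this with e | e
    · exact Or.inl (inv_eq_of_mul_eq_one_right e)
    · exact Or.inr (inv_eq_of_mul_eq_one_right (by rw [← w.εc, ← mul_assoc, e, w.εε]))
  have hd : ∀ r ∈ Q, (r, r⁻¹) ∈ w.Δ Q := fun r hr => ⟨hr, hsq r hr⟩
  have hr : ∀ r ∈ Q, (r, r) ∈ w.Δ Q := fun r hr => ⟨hr, Or.inl rfl⟩
  have hd' : ∀ x ∈ Q, ∀ r ∈ Q, (x * r * x⁻¹, r) ∈ w.Δ Q := fun x hx r h1 => by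
    have := Subgroup.mul_mem _ (Subgroup.mul_mem _ (hd _ (Q.mul_mem hx h1))
      (Subgroup.inv_mem _ (hd x hx))) (Subgroup.mul_mem _ (hr r h1) (Subgroup.inv_mem _ (hd r h1)))
    convert this using 1
    refine Prod.ext ?_ ?_ <;> simp
  have htr : ∀ x y z, (x, y) ∈ w.Δ Q → (y, z) ∈ w.Δ Q → (x, z) ∈ w.Δ Q := fun x y z h1 h2 => by
    have := Subgroup.mul_mem _ (Subgroup.mul_mem _ h1 (Subgroup.inv_mem _ (hr y h2.1))) h2
    convert this using 1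
    refine Prod.ext ?_ ?_ <;> simp
  have hsw : ∀ x y, (x, y) ∈ w.Δ Q → (y, x) ∈ w.Δ Q := fun x y h1 => w.Δ_swap h.ε_mem _ h1
  refine ⟨?_, ?_, ?_⟩
  · refine w.le_of_W ?_ w.τ_mem
    rintro ⟨x, y⟩ h1
    exact h.d_mem_iff.2 ⟨h1.1, (hsw _ _ h1).1⟩
  · refine w.le_of_W ?_ (Subgroup.le_normalizer w.τ_mem)
    rintro ⟨x, y⟩ ⟨hx, hy⟩
    refine w.mem_normalizer_W ?_ ?_
    · rintro ⟨r, r'⟩ h1
      rw [w.dinv, w.dmul, w.dmul]
      exact w.d_mem (htr _ _ _ (hd' x hx r h1.1) (htr _ _ _ h1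
        (hsw _ _ (hd' y hy r' (hsw _ _ h1).1))))
    · rw [w.conjτ, w.dτ_mem_iff hε]
      simpa using hd _ (Q.mul_mem hx (Q.inv_mem hy))
  · have key : ∀ x y, x ∈ Q → w.τ * w.d (x, y) = w.d (x, y) * w.τ → (x, y) ∈ w.Δ Q := by
      intro x y hx e
      rw [w.τd, mul_left_inj] at e
      exact ⟨hx, (w.d_eq e).imp And.left And.left⟩
    rintro _ ⟨⟨⟨x, y⟩, ⟨hx, -⟩, rfl | rfl⟩, h2⟩
    · exact w.d_mem (key x y hx (Subgroup.mem_centralizer_iff.1 h2 _ w.τ_mem))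
    · have := Subgroup.mem_centralizer_iff.1 h2 _ w.τ_mem
      rw [← mul_assoc, mul_left_inj] at this
      exact (w.dτ_mem_iff hε).2 (key x y hx this)

theorem QG.simple [Finite L] [Finite G] (hQ : SylIn 2 Q ⊤) (S : Sylow 2 G) :
    (groupFusionSystem (S : Subgroup G)).IsSimple 2 := by
  have hS := h.sylIn hQ
  refine simple_group_of_top hS (simple_ofSubgroup hS
    (fun e => h.z_ne (Subgroup.mem_bot.1 (e ▸ h.z_mem))) (fun T h1 h2 h3 => ?_) ?_) S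
  · obtain ⟨z, hz, hz2, hz3⟩ := exists_central_mem hS.isPGroup h1 h2
      fun x hx g hg => h3 x hx g trivial (Subgroup.mul_mem _ (Subgroup.mul_mem _ hg (h1 hx))
        (Subgroup.inv_mem _ hg))
    exact h.sc (h.eq_z (h1 hz) (H6.ord2_ne_one hz2) hz3 ▸ hz) fun x hx g => h3 x hx g trivial
  set K := Subgroup.closure {k | k ∈ normalizerIn ⊤ (w.S₀ Q) ∧
      (k ∈ Subgroup.centralizer (w.S₀ Q : Set G) ∨
        ∃ R, SCN (w.S₀ Q) R ∧ k ∈ OUp' 2 (normalizerIn ⊤ R))} with hK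
  have h2 : ∀ g ∈ Subgroup.normalizer (w.S₀ Q : Set G), ∀ n, g ^ 2 ^ n = 1 → g ∈ K :=
    fun g hg n hn => Subgroup.subset_closure ⟨⟨trivial, hg⟩, Or.inr ⟨w.S₀ Q, ⟨le_rfl,
      Subgroup.le_normalizer, centralizerIn_le _ _⟩, mem_oUp'_of_pow ⟨trivial, hg⟩ hn⟩⟩
  let δ : L →* G := w.d.comp ((MonoidHom.id L).prod (MonoidHom.id L))
  have hδ : ∀ y, δ y = w.d (y, y) := fun _ => rfl
  have h3 : ∀ y ∈ Subgroup.normalizer (Q : Set L), ∀ n, y ^ 2 ^ n = 1 → y ∈ K.comap δ :=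
    fun y hy n hn => h2 _ (h.diag_mem_normalizer hy) n (by rw [← map_pow, hn, map_one])
  have h4 : Subgroup.normalizer (Q : Set L) ⊓ Subgroup.normalizer (Subgroup.zpowers a : Set L) ≤
      K.comap δ := by
    refine le_of_pElt_of_coprime (p := 2) (fun y hy => h3 y hy.1) fun y hy hc => ?_
    have h5 : y ∈ Subgroup.centralizer (Q : Set L) := by
      refine H6.centralizes_of_cyclic_index (a := a) (k := k + 2)
        (by rw [← h.oa, pow_orderOf_eq_one]) (fun u hu v hv h1 h2 => ?_) (H6.coprime_two_iff.1 hc)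
        hy.1 (conj_mem_of_normalizer hy.2 (Subgroup.mem_zpowers a))
      obtain ⟨i, rfl | rfl⟩ := h.mem u hu
      · exact absurd (Subgroup.zpow_mem_zpowers a i) h1
      obtain ⟨j, rfl | rfl⟩ := h.mem v hv
      · exact absurd (Subgroup.zpow_mem_zpowers a j) h2
      have e := h.conj 0 (i - j)
      rw [zpow_zero, one_mul] at e
      have : (a ^ i * b)⁻¹ * (a ^ j * b) = a ^ (i - j) := by
        calc (a ^ i * b)⁻¹ * (a ^ j * b) = b⁻¹ * (a ^ (i - j))⁻¹ * b := by group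
          _ = _ := by rw [← e]; group
      exact this ▸ Subgroup.zpow_mem_zpowers a _
    refine Subgroup.subset_closure ⟨⟨trivial, h.diag_mem_normalizer hy.1⟩, Or.inl ?_⟩
    refine Subgroup.mem_centralizer_iff.2 fun s hs => ?_
    refine Subgroup.mem_centralizer_singleton_iff.1 (w.le_of_W ?_ ?_ hs)
    · rintro ⟨r, r'⟩ ⟨h1, h2⟩
      rw [Subgroup.mem_centralizer_singleton_iff, hδ, w.dmul, w.dmul,
        Subgroup.mem_centralizer_iff.1 h5 r h1, Subgroup.mem_centralizer_iff.1 h5 r' h2]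
    · rw [Subgroup.mem_centralizer_singleton_iff, hδ, w.τd]
  have h5 : ∀ y ∈ Subgroup.normalizer (Q : Set L), y * a * y⁻¹ ∈ Subgroup.zpowers a →
      y ∈ K.comap δ := fun y hy h1 => h4 ⟨hy, normalizer_of_finite (by
        rintro _ ⟨i, rfl⟩
        rw [← conj_zpow]
        exact Subgroup.zpow_mem _ h1 i)⟩
  have h6 : Subgroup.normalizer (Q : Set L) ≤ K.comap δ := by
    refine le_of_pElt_of_coprime (p := 2) h3 fun y hy hc => ?_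
    suffices y * y ∈ K.comap δ by
      obtain ⟨m, hm⟩ := H6.exists_sq_pow_of_odd (H6.coprime_two_iff.1 hc)
      rw [← hm, ← Commute.mul_pow (Commute.refl y)]
      exact Subgroup.pow_mem _ this m
    obtain ⟨i, e | e⟩ := h.mem _ (conj_mem_of_normalizer hy h.ha)
    · have := h5 y hy (e ▸ Subgroup.zpow_mem_zpowers a i)
      exact Subgroup.mul_mem _ this this
    obtain ⟨j, hj⟩ : ∃ j, j = a ^ i * b := ⟨_, rfl⟩
    have hjQ : j ∈ Q := hj ▸ Q.mul_mem (Q.zpow_mem h.ha i) h.hb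
    have hja : j * a * j⁻¹ = a⁻¹ := by simpa [← hj] using h.conj i 1
    have hmem : ∀ g ∈ Q, ∃ m : ℤ, g = a ^ m ∨ g = a ^ m * j := fun g hg => by
      obtain ⟨m, rfl | rfl⟩ := h.mem g hg
      · exact ⟨m, Or.inl rfl⟩
      · exact ⟨m - i, Or.inr (by rw [hj]; group)⟩
    rw [← hj] at e
    obtain ⟨m, e' | e'⟩ := hmem _ (conj_mem_of_normalizer hy hjQ)
    · refine h5 _ (Subgroup.mul_mem _ hy hy) ?_
      rw [show y * y * a * (y * y)⁻¹ = y * (y * a * y⁻¹) * y⁻¹ by group, e, e']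
      exact Subgroup.zpow_mem_zpowers a m
    have haa : a * a = w.ε := by
      have h1 : y * (a * a) * y⁻¹ = w.ε := by
        rw [← h.sq i, ← hj, ← e]
        group
      rw [mul_inv_eq_iff_eq_mul, ← w.εc, mul_right_inj] at h1
      exact h1
    obtain ⟨γ, υ, g1, g2, g3, g4, g5, g6⟩ := w.gam a haa
    have hυ : ∀ r ∈ Q, υ r ∈ Q := fun r hr => by
      obtain ⟨n, rfl | rfl⟩ := hmem r hr
      · rw [map_zpow, g5]
        exact hr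
      · rw [map_mul, map_zpow, g5, g6 j hja]
        exact Q.mul_mem (Q.zpow_mem h.ha n) (Q.mul_mem h.ha hjQ)
    have hυ' : ∀ r ∈ Q, ∃ r' ∈ Q, υ r' = r := fun r hr => by
      obtain ⟨n, rfl | rfl⟩ := hmem r hr
      · exact ⟨_, hr, by rw [map_zpow, g5]⟩
      · refine ⟨a ^ (n - 1) * j, Q.mul_mem (Q.zpow_mem h.ha _) hjQ, ?_⟩
        rw [map_mul, map_zpow, g5, g6 j hja]
        group
    have hy' : υ y ∈ Subgroup.normalizer (Q : Set L) := normalizer_of_finite fun r hr => by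
      obtain ⟨r', h1, rfl⟩ := hυ' r hr
      rw [← map_inv, ← map_mul, ← map_mul]
      exact hυ _ (conj_mem_of_normalizer hy h1)
    have hε : (w.ε, w.ε) ∈ w.Δ Q := ⟨h.ε_mem, Or.inl rfl⟩
    have hz : w.d (w.ε, 1) ∈ w.W (w.Δ Q) (w.Δ_swap h.ε_mem) :=
      w.d_mem ⟨h.ε_mem, Or.inr w.εε.symm⟩
    have hγ : γ ∈ Subgroup.normalizer (w.W (w.Δ Q) (w.Δ_swap h.ε_mem) : Set G) := by
      refine w.mem_normalizer_W ?_ (g3 ▸ hz)
      rintro ⟨x, x'⟩ ⟨hx, hx' | hx'⟩ <;> simp only at hx hx' <;> rw [hx']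
      · rw [g4]
        exact w.d_mem ⟨hυ x hx, Or.inl rfl⟩
      · rw [show w.d (x, w.ε * x) = w.d (w.ε, 1) * w.d (x, x) by rw [← w.z_eq, w.dmul, one_mul],
          ← conj_mul, g2, g4]
        exact Subgroup.mul_mem _ w.τ_mem (w.d_mem ⟨hυ x hx, Or.inl rfl⟩)
    have hdy : w.d (y, y) ∈ Subgroup.normalizer (w.W (w.Δ Q) (w.Δ_swap h.ε_mem) : Set G) := by
      refine w.mem_normalizer_W ?_ ?_
      · rintro ⟨x, x'⟩ ⟨hx, hx' | hx'⟩ <;> simp only at hx hx' <;>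
          rw [hx', w.dinv, w.dmul, w.dmul]
        · exact w.d_mem ⟨conj_mem_of_normalizer hy hx, Or.inl rfl⟩
        · refine w.d_mem ⟨conj_mem_of_normalizer hy hx, Or.inr ?_⟩
          simp only [← mul_assoc, w.εc]
      · rw [w.conjτ, mul_inv_cancel]
        exact (w.dτ_mem_iff hε).2 (Subgroup.one_mem _)
    have hγ' : γ ∈ OUp' 2 (normalizerIn ⊤ (w.W (w.Δ Q) (w.Δ_swap h.ε_mem))) :=
      mem_oUp'_of_pow ⟨trivial, hγ⟩ g1
    have hβ : υ y * y⁻¹ ∈ K.comap δ := by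
      refine Subgroup.subset_closure ⟨⟨trivial, h.diag_mem_normalizer
        (Subgroup.mul_mem _ hy' (Subgroup.inv_mem _ hy))⟩, Or.inr ⟨_, h.scn haa, ?_⟩⟩
      have h1 := Subgroup.mul_mem _ hγ' (conj_mem_of_normalizer
        (le_normalizer_oUp' 2 _ (⟨trivial, hdy⟩ : _ ∈ normalizerIn ⊤ _)) (Subgroup.inv_mem _ hγ'))
      rwa [← mul_assoc, ← mul_assoc, g4, w.dinv, w.dmul] at h1
    have hc' : υ y * y ∈ K.comap δ := by
      refine h5 _ (Subgroup.mul_mem _ hy' hy) ?_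
      have h1 : υ (a⁻¹ * j) = j := by rw [map_mul, map_inv, g5, g6 j hja, inv_mul_cancel_left]
      have h2 : υ y * y * a * (υ y * y)⁻¹ = υ ((y * a * y⁻¹)⁻¹ * (y * j * y⁻¹)) := by
        calc υ y * y * a * (υ y * y)⁻¹ = υ y * (y * a * y⁻¹) * (υ y)⁻¹ := by group
          _ = υ (y * (a⁻¹ * j) * y⁻¹) := by rw [e, map_mul, map_mul, h1, map_inv]
          _ = _ := by congr 1; group
      have h3 : j⁻¹ * (a ^ m * j) = (a ^ m)⁻¹ := by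
        have : j * (a ^ m)⁻¹ * j⁻¹ = a ^ m := by rw [← zpow_neg, ← conj_zpow, hja]; group
        calc j⁻¹ * (a ^ m * j) = j⁻¹ * (j * (a ^ m)⁻¹ * j⁻¹ * j) := by rw [this]
          _ = _ := by group
      rw [h2, e, e', h3, map_inv, map_zpow, g5]
      exact Subgroup.inv_mem _ (Subgroup.zpow_mem_zpowers a m)
    have := Subgroup.mul_mem _ (Subgroup.inv_mem _ hβ) hc'
    convert this using 1
    group
  intro g hg
  obtain ⟨s, hs, y, hy, rfl⟩ := h.normalizer hg.2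
  obtain ⟨n, hn⟩ := isPGroup_iff_mem.1 hS.isPGroup s hs
  exact K.mul_mem (h2 s (Subgroup.le_normalizer hs) n hn) (h6 hy)

end SpW

end H13
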