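import Cfsg.Agent.H13.Sp4A
import Cfsg.Agent.H13.SL2Syl

/-! The 2-fusion system of `PSp₄(q)`, `q` odd, is simple. -/

set_option autoImplicit false

namespace H13

open Cfsg Matrix
open scoped MatrixGroups

variable {F : Type*} [Field F]

/-- Kronecker product of two `2 × 2` matrices. -/
def kr (A B : Matrix (Fin 2) (Fin 2) F) : Matrix (Fin 2 ⊕ Fin 2) (Fin 2 ⊕ Fin 2) F :=
  Matrix.fromBlocks (A 0 0 • B) (A 0 1 • B) (A 1 0 • B) (A 1 1 • B)

theorem kr_mul (A B A' B' : Matrix (Fin 2) (Fin 2) F) :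
    kr A B * kr A' B' = kr (A * A') (B * B') := by
  simp only [kr, Matrix.fromBlocks_multiply, Matrix.mul_apply, Fin.sum_univ_two, add_smul,
    Matrix.smul_mul, Matrix.mul_smul, smul_smul, mul_comm]

theorem kr_add_left (A A' B : Matrix (Fin 2) (Fin 2) F) : kr (A + A') B = kr A B + kr A' B := by
  simp only [kr, Matrix.fromBlocks_add, Matrix.add_apply, add_smul]

theorem kr_add_right (A B B' : Matrix (Fin 2) (Fin 2) F) : kr A (B + B') = kr A B + kr A B' := by
  simp only [kr, Matrix.fromBlocks_add, smul_add]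

theorem kr_smul_left (c : F) (A B : Matrix (Fin 2) (Fin 2) F) : kr (c • A) B = kr A (c • B) := by
  simp only [kr, Matrix.smul_apply, smul_eq_mul, smul_smul, mul_comm]

theorem kr_neg_left (A B : Matrix (Fin 2) (Fin 2) F) : kr (-A) B = -kr A B := by
  simp only [kr, Matrix.fromBlocks_neg, Matrix.neg_apply, neg_smul]

theorem kr_neg_right (A B : Matrix (Fin 2) (Fin 2) F) : kr A (-B) = -kr A B := by
  simp only [kr, Matrix.fromBlocks_neg, smul_neg]

theorem kr_zero_right (A : Matrix (Fin 2) (Fin 2) F) : kr A 0 = 0 := by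
  simp only [kr, smul_zero, Matrix.fromBlocks_zero]

theorem kr_transpose (A B : Matrix (Fin 2) (Fin 2) F) : (kr A B)ᵀ = kr Aᵀ Bᵀ := by
  simp only [kr, Matrix.fromBlocks_transpose, Matrix.transpose_smul, Matrix.transpose_apply]

theorem kr_one : kr (1 : Matrix (Fin 2) (Fin 2) F) 1 = 1 := by
  simp [kr]

/-- The rotation by a right angle. -/
def rot (F : Type*) [Field F] : Matrix (Fin 2) (Fin 2) F := !![0, -1; 1, 0]

theorem J_eq : Matrix.J (Fin 2) F = kr (rot F) 1 := by
  simp [kr, rot, Matrix.J]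

theorem mul_rot_mul (A : Matrix (Fin 2) (Fin 2) F) : A * rot F * Aᵀ = A.det • rot F := by
  ext i j
  fin_cases i <;> fin_cases j <;>
    simp [rot, Matrix.mul_apply, Fin.sum_univ_two, Matrix.det_fin_two] <;> ring

theorem kr_mem {A B : Matrix (Fin 2) (Fin 2) F} (h : A.det • (B * Bᵀ) = 1) :
    kr A B ∈ Matrix.symplecticGroup (Fin 2) F := by
  rw [SymplecticGroup.mem_iff, J_eq, kr_transpose, kr_mul, kr_mul, mul_rot_mul, kr_smul_left,
    mul_one, h]

/-- The two coordinate projections. -/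
def e₀ (F : Type*) [Field F] : Matrix (Fin 2) (Fin 2) F := !![1, 0; 0, 0]
def e₁ (F : Type*) [Field F] : Matrix (Fin 2) (Fin 2) F := !![0, 0; 0, 1]
def swm (F : Type*) [Field F] : Matrix (Fin 2) (Fin 2) F := !![0, 1; 1, 0]

theorem e_mul : e₀ F * e₀ F = e₀ F ∧ e₀ F * e₁ F = 0 ∧ e₁ F * e₀ F = 0 ∧ e₁ F * e₁ F = e₁ F ∧
    (e₀ F)ᵀ = e₀ F ∧ (e₁ F)ᵀ = e₁ F ∧ e₀ F + e₁ F = 1 ∧ swm F * e₀ F = e₁ F * swm F ∧
    swm F * e₁ F = e₀ F * swm F ∧ swm F * swm F = 1 ∧ (swm F)ᵀ = swm F := by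
  refine ⟨?_, ?_, ?_, ?_, ?_, ?_, ?_, ?_, ?_, ?_, ?_⟩ <;> ext i j <;> fin_cases i <;> fin_cases j <;>
    simp [e₀, e₁, swm]

/-- The embedding of `SL₂ × SL₂` into `Sp₄`. -/
def spD : SL(2, F) × SL(2, F) →* Matrix.symplecticGroup (Fin 2) F where
  toFun u := ⟨kr u.1.1 (e₀ F) + kr u.2.1 (e₁ F), by
    obtain ⟨h1, h2, h3, h4, h5, h6, h7, -⟩ := e_mul (F := F)
    rw [SymplecticGroup.mem_iff, J_eq]
    simp only [Matrix.transpose_add, kr_transpose, add_mul, mul_add, kr_mul, mul_one, h1, h2, h3,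
      h4, h5, h6, kr_zero_right, add_zero, zero_add, mul_rot_mul, u.1.2, u.2.2, one_smul]
    rw [← kr_add_right, h7]⟩
  map_one' := Subtype.ext (by
    change kr 1 _ + kr 1 _ = 1
    rw [← kr_add_right, e_mul.2.2.2.2.2.2.1, kr_one])
  map_mul' u v := Subtype.ext (by
    obtain ⟨h1, h2, h3, h4, -⟩ := e_mul (F := F)
    change kr (u.1.1 * v.1.1) _ + kr (u.2.1 * v.2.1) _ = (_ + _) * (_ + _)
    simp only [add_mul, mul_add, kr_mul, h1, h2, h3, h4, kr_zero_right, add_zero, zero_add])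

theorem coe_spD (x y : SL(2, F)) : (spD (x, y)).1 = kr x.1 (e₀ F) + kr y.1 (e₁ F) := rfl

theorem coe_spD_diag (x : SL(2, F)) : (spD (x, x)).1 = kr x.1 1 := by
  rw [coe_spD, ← kr_add_right, e_mul.2.2.2.2.2.2.1]

theorem spD_injective :
    Function.Injective (spD : SL(2, F) × SL(2, F) →* Matrix.symplecticGroup (Fin 2) F) := by
  rintro ⟨x, y⟩ ⟨x', y'⟩ h
  have h1 := fun i j => congrArg (fun g : Matrix.symplecticGroup (Fin 2) F => g.1 i j) h
  simp only [coe_spD] at h1
  refine Prod.ext ?_ ?_ <;> ext i j <;> fin_cases i <;> fin_cases j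
  · simpa [kr, e₀, e₁] using h1 (.inl 0) (.inl 0)
  · simpa [kr, e₀, e₁] using h1 (.inl 0) (.inr 0)
  · simpa [kr, e₀, e₁] using h1 (.inr 0) (.inl 0)
  · simpa [kr, e₀, e₁] using h1 (.inr 0) (.inr 0)
  · simpa [kr, e₀, e₁] using h1 (.inl 1) (.inl 1)
  · simpa [kr, e₀, e₁] using h1 (.inl 1) (.inr 1)
  · simpa [kr, e₀, e₁] using h1 (.inr 1) (.inl 1)
  · simpa [kr, e₀, e₁] using h1 (.inr 1) (.inr 1)

/-- The swap of the two planes. -/
def spT (F : Type*) [Field F] : Matrix.symplecticGroup (Fin 2) F :=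
  ⟨kr 1 (swm F), kr_mem (by
    obtain ⟨-, -, -, -, -, -, -, -, -, h1, h2⟩ := e_mul (F := F)
    rw [Matrix.det_one, one_smul, h2, h1])⟩

theorem spT_sq : spT F * spT F = 1 := Subtype.ext (by
  change kr _ _ * kr _ _ = 1
  rw [kr_mul, mul_one, e_mul.2.2.2.2.2.2.2.2.2.1, kr_one])

theorem spT_spD (x y : SL(2, F)) : spT F * spD (x, y) = spD (y, x) * spT F := Subtype.ext (by
  obtain ⟨-, -, -, -, -, -, -, h1, h2, -⟩ := e_mul (F := F)
  change kr _ _ * (_ + _) = (_ + _) * kr _ _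
  simp only [add_mul, mul_add, kr_mul, mul_one, one_mul, h1, h2, add_comm])

theorem coe_neg_one : ((-1 : SL(2, F)) : Matrix (Fin 2) (Fin 2) F) = -1 := rfl

theorem coe_spD_neg : (spD ((-1, -1) : SL(2, F) × SL(2, F))).1 = -1 := by
  rw [coe_spD_diag, coe_neg_one, kr_neg_left, kr_one]

theorem spD_neg_comm (g : Matrix.symplecticGroup (Fin 2) F) :
    g * spD (-1, -1) = spD (-1, -1) * g := Subtype.ext (by
  change g.1 * _ = _ * g.1
  rw [coe_spD_neg, mul_neg, neg_mul, mul_one, one_mul])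

theorem exists_spD (h2 : (2 : F) ≠ 0) {g : Matrix.symplecticGroup (Fin 2) F}
    (h : g * spD (-1, 1) = spD (-1, 1) * g) : ∃ u, g = spD u := by
  obtain ⟨g, hg⟩ := g
  have h1 := fun i j => congrArg (fun g : Matrix.symplecticGroup (Fin 2) F => g.1 i j) h
  have h3 := fun i j => congrFun (congrFun (SymplecticGroup.mem_iff.1 hg) i) j
  simp only [Submonoid.coe_mul, coe_spD, coe_neg_one] at h1
  have key : ∀ a : F, a = -a → a = 0 := fun a ha =>
    (mul_eq_zero.1 (by linear_combination ha : (2 : F) * a = 0)).resolve_left h2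
  have key' : ∀ a : F, -a = a → a = 0 := fun a ha => key a ha.symm
  have z1 := key _ (by simpa [kr, e₀, e₁, Matrix.mul_apply] using h1 (.inl 0) (.inl 1))
  have z2 := key _ (by simpa [kr, e₀, e₁, Matrix.mul_apply] using h1 (.inl 0) (.inr 1))
  have z3 := key _ (by simpa [kr, e₀, e₁, Matrix.mul_apply] using h1 (.inr 0) (.inl 1))
  have z4 := key _ (by simpa [kr, e₀, e₁, Matrix.mul_apply] using h1 (.inr 0) (.inr 1))
  have z5 := key' _ (by simpa [kr, e₀, e₁, Matrix.mul_apply] using h1 (.inl 1) (.inl 0))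
  have z6 := key' _ (by simpa [kr, e₀, e₁, Matrix.mul_apply] using h1 (.inl 1) (.inr 0))
  have z7 := key' _ (by simpa [kr, e₀, e₁, Matrix.mul_apply] using h1 (.inr 1) (.inl 0))
  have z8 := key' _ (by simpa [kr, e₀, e₁, Matrix.mul_apply] using h1 (.inr 1) (.inr 0))
  have d1 := h3 (.inr 0) (.inl 0)
  have d2 := h3 (.inr 1) (.inl 1)
  simp [Matrix.J, Matrix.mul_apply, z1, z2, z3, z4, z5, z6, z7, z8] at d1 d2
  refine ⟨(⟨!![g (.inl 0) (.inl 0), g (.inl 0) (.inr 0); g (.inr 0) (.inl 0), g (.inr 0) (.inr 0)],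
    by rw [Matrix.det_fin_two_of]; linear_combination d1⟩,
    ⟨!![g (.inl 1) (.inl 1), g (.inl 1) (.inr 1); g (.inr 1) (.inl 1), g (.inr 1) (.inr 1)],
    by rw [Matrix.det_fin_two_of]; linear_combination d2⟩), Subtype.ext ?_⟩
  refine Eq.trans ?_ (coe_spD _ _).symm
  ext (i | i) (j | j) <;> fin_cases i <;> fin_cases j <;>
    simp [kr, e₀, e₁, z1, z2, z3, z4, z5, z6, z7, z8]

theorem det_one_add {i : SL(2, F)} (hi : i * i = -1) : (1 + i.1).det = 2 := by
  have h1 := fun a b => congrArg (fun g : SL(2, F) => g.1 a b) hi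
  have h2 := i.2
  have h3 := h1 0 0
  have h4 := h1 1 1
  simp [Matrix.mul_apply, Fin.sum_univ_two, coe_neg_one] at h3 h4
  rw [Matrix.det_fin_two] at h2 ⊢
  have h5 : (i.1 0 0 + i.1 1 1) ^ 2 = 0 := by linear_combination h3 + h4 + 2 * h2
  have h6 := pow_eq_zero_iff two_ne_zero |>.1 h5
  simp
  linear_combination h2 + h6

/-- Conjugation of `SL₂` by an invertible matrix. -/
def slConj (g : GL (Fin 2) F) : MulAut SL(2, F) where
  toFun c := ⟨g.1 * c.1 * g⁻¹.1, by
    rw [Matrix.det_mul, Matrix.det_mul, c.2, mul_one, ← Matrix.det_mul, Units.mul_inv,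
      Matrix.det_one]⟩
  invFun c := ⟨g⁻¹.1 * c.1 * g.1, by
    rw [Matrix.det_mul, Matrix.det_mul, c.2, mul_one, ← Matrix.det_mul, Units.inv_mul,
      Matrix.det_one]⟩
  left_inv c := Subtype.ext (by
    change g⁻¹.1 * (g.1 * c.1 * g⁻¹.1) * g.1 = c.1
    rw [← mul_assoc, ← mul_assoc, Units.inv_mul, one_mul, mul_assoc, Units.inv_mul, mul_one])
  right_inv c := Subtype.ext (by
    change g.1 * (g⁻¹.1 * c.1 * g.1) * g⁻¹.1 = c.1
    rw [← mul_assoc, ← mul_assoc, Units.mul_inv, one_mul, mul_assoc, Units.mul_inv, mul_one])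
  map_mul' c d := Subtype.ext (by
    change g.1 * (c.1 * d.1) * g⁻¹.1 = (g.1 * c.1 * g⁻¹.1) * (g.1 * d.1 * g⁻¹.1)
    simp only [mul_assoc, Units.inv_mul_cancel_left])

theorem slConj_mul (g : GL (Fin 2) F) (c : SL(2, F)) : (slConj g c).1 * g.1 = g.1 * c.1 := by
  change g.1 * c.1 * g⁻¹.1 * g.1 = _
  rw [mul_assoc, Units.inv_mul, mul_one]

theorem slConj_eq {g : GL (Fin 2) F} {c d : SL(2, F)} (h : d.1 * g.1 = g.1 * c.1) :
    slConj g c = d := Subtype.ext (by
  change g.1 * c.1 * g⁻¹.1 = _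
  rw [← h, mul_assoc, Units.mul_inv, mul_one])

theorem anti_of_conj {i j : SL(2, F)} (hi : i * i = -1) (h : j * i * j⁻¹ = i⁻¹) :
    j.1 * i.1 = -(i.1 * j.1) := by
  have h1 : i⁻¹ = -i := inv_eq_of_mul_eq_one_right (by rw [mul_neg, hi, neg_neg])
  rw [h1, mul_inv_eq_iff_eq_mul, neg_mul] at h
  exact congrArg Subtype.val h

variable [Fintype F]

theorem mem_center_sp4 (hF : Odd (Fintype.card F)) {g : Matrix.symplecticGroup (Fin 2) F} :
    g ∈ Subgroup.center (Matrix.symplecticGroup (Fin 2) F) ↔ g = 1 ∨ g = spD (-1, -1) := by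
  constructor
  · intro h
    have hc := Subgroup.mem_center_iff.1 h
    obtain ⟨⟨x, y⟩, rfl⟩ := exists_spD (two_ne_zero_of_odd hF) (hc _).symm
    have h1 := hc (spT F)
    rw [spT_spD, mul_left_inj] at h1
    obtain rfl : y = x := congrArg Prod.fst (spD_injective h1)
    have h2 : y ∈ Subgroup.center SL(2, F) := Subgroup.mem_center_iff.2 fun r => by
      have := hc (spD (r, 1))
      rw [← map_mul, ← map_mul] at this
      exact congrArg Prod.fst (spD_injective this)
    rcases (mem_center_sl2 hF).1 h2 with rfl | rfl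
    · exact Or.inl (map_one _)
    · exact Or.inr rfl
  · rintro (rfl | rfl)
    · exact Subgroup.one_mem _
    · exact Subgroup.mem_center_iff.2 spD_neg_comm

theorem psp4_eq (hF : Odd (Fintype.card F)) {g g' : Matrix.symplecticGroup (Fin 2) F} :
    (QuotientGroup.mk' (Subgroup.center _) g = QuotientGroup.mk' (Subgroup.center _) g') ↔
      g' = g ∨ g' = g * spD (-1, -1) := by
  rw [QuotientGroup.mk'_apply, QuotientGroup.mk'_apply, QuotientGroup.eq, mem_center_sp4 hF,
    inv_mul_eq_iff_eq_mul, inv_mul_eq_iff_eq_mul, mul_one]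

/-- The data for `PSp₄(q)`. -/
def spW (hF : Odd (Fintype.card F)) : SpW SL(2, F) (PSp 2 F) where
  ε := -1
  d := (QuotientGroup.mk' (Subgroup.center _)).comp spD
  τ := QuotientGroup.mk' (Subgroup.center _) (spT F)
  εε := by simp
  ε1 h := two_ne_zero_of_odd hF (by
    have := congrArg (fun g : SL(2, F) => g.1 0 0) h
    simp only [coe_neg_one] at this
    simp at this
    linear_combination -this)
  εc x := by simp
  inv x hx := (em (x = 1)).imp id fun h => sl2_eq_neg_one hF h hx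
  ker x y := by
    rw [MonoidHom.comp_apply, eq_comm, ← map_one (QuotientGroup.mk' _), psp4_eq hF, one_mul,
      ← map_one spD, spD_injective.eq_iff, spD_injective.eq_iff, Prod.ext_iff, Prod.ext_iff]
    rfl
  ττ := by rw [← map_mul, spT_sq, map_one]
  τd x y := by simp only [MonoidHom.comp_apply, ← map_mul, spT_spD]
  τn := by
    rintro ⟨x, y⟩ h
    rcases (psp4_eq hF).1 h with h | h
    · have := congrArg (fun g : Matrix.symplecticGroup (Fin 2) F => g.1 (.inl 0) (.inl 1)) h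
      simp [coe_spD, spT, kr, e₀, e₁, swm] at this
    · have := congrArg (fun g : Matrix.symplecticGroup (Fin 2) F => g.1 (.inl 0) (.inl 1)) h
      simp only [Submonoid.coe_mul, coe_spD_neg] at this
      simp [coe_spD, spT, kr, e₀, e₁, swm] at this
  cent g h := by
    obtain ⟨g, rfl⟩ := QuotientGroup.mk'_surjective _ g
    rw [MonoidHom.comp_apply, ← map_mul, ← map_mul, psp4_eq hF] at h
    rcases h with h | h
    · obtain ⟨u, rfl⟩ := exists_spD (two_ne_zero_of_odd hF) h.symm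
      exact ⟨u, Or.inl rfl⟩
    · obtain ⟨u, hu⟩ := exists_spD (two_ne_zero_of_odd hF) (g := g * spT F) (by
        rw [← mul_assoc, h, mul_assoc, spT_spD, mul_assoc g, ← map_mul, mul_assoc]
        simp)
      refine ⟨u, Or.inr ?_⟩
      rw [MonoidHom.comp_apply, ← map_mul, ← hu, mul_assoc, spT_sq, mul_one]
  om i j hi hj h := by
    have h2 := two_ne_zero_of_odd hF
    have h1 := anti_of_conj hi h
    have hI : i.1 * i.1 = -1 := congrArg Subtype.val hi
    have hJ : j.1 * j.1 = -1 := congrArg Subtype.val hj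
    refine ⟨⟨(2 : F)⁻¹ • ((1 + i.1) * (1 + j.1)), ?_⟩, mul_inv_eq_iff_eq_mul.2 (Subtype.ext ?_)⟩
    · rw [Matrix.det_smul, Matrix.det_mul, det_one_add hi, det_one_add hj, Fintype.card_fin]
      field_simp
    · change (_ • _) * i.1 = j.1 * (_ • _)
      rw [Matrix.smul_mul, Matrix.mul_smul]
      congr 1
      have e1 : i.1 * (j.1 * i.1) = j.1 := by rw [h1, mul_neg, ← mul_assoc, hI]; simp
      have e2 : j.1 * (i.1 * j.1) = i.1 := by
        rw [← mul_assoc, h1, neg_mul, mul_assoc, hJ]; simp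
      simp only [mul_add, add_mul, one_mul, mul_one, mul_assoc, e1, e2, hI, hJ]
      abel
  gam i hi := by
    have h2 := two_ne_zero_of_odd hF
    have hI : i.1 * i.1 = -1 := congrArg Subtype.val hi
    let U : GL (Fin 2) F := Matrix.GeneralLinearGroup.mkOfDetNeZero (1 + i.1)
      (by rw [det_one_add hi]; exact h2)
    have hU : U.1 = 1 + i.1 := rfl
    let γ : Matrix.symplecticGroup (Fin 2) F := ⟨kr (1 + i.1) ((2 : F)⁻¹ • (1 + rot F)), kr_mem (by
      rw [det_one_add hi]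
      ext a b
      fin_cases a <;> fin_cases b <;> simp [rot, Matrix.mul_apply] <;> field_simp <;> ring)⟩
    have hz : (spD ((-1, 1) : SL(2, F) × SL(2, F))).1 = kr 1 (e₁ F - e₀ F) := by
      rw [coe_spD, coe_neg_one, kr_neg_left, ← kr_neg_right, sub_eq_neg_add, kr_add_right]
      rfl
    refine ⟨QuotientGroup.mk' _ γ, slConj U, ?_, ?_, ?_, fun c => ?_, slConj_eq ?_,
      fun j h => slConj_eq ?_⟩
    · have h3 : (γ * γ).1 = kr i.1 (rot F) := by
        change kr _ _ * kr _ _ = _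
        have : (1 + i.1) * (1 + i.1) = (2 : F) • i.1 := by
          simp only [mul_add, add_mul, one_mul, mul_one, hI, two_smul]
          abel
        rw [kr_mul, this, kr_smul_left]
        congr 1
        ext a b
        fin_cases a <;> fin_cases b <;> simp [rot, Matrix.mul_apply] <;> field_simp <;> ring
      rw [← map_pow, show γ ^ 2 ^ 2 = (γ * γ) * (γ * γ) by
          rw [show 2 ^ 2 = 2 + 2 from rfl, pow_add, sq],
        ← map_one (QuotientGroup.mk' _)]
      congr 1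
      refine Subtype.ext ?_
      rw [Submonoid.coe_mul, h3, kr_mul, hI, kr_neg_left, ← kr_neg_right, OneMemClass.coe_one,
        ← kr_one]
      congr 1
      ext a b
      fin_cases a <;> fin_cases b <;> simp [rot]
    · rw [mul_inv_eq_iff_eq_mul, MonoidHom.comp_apply, ← map_mul, ← map_mul, psp4_eq hF]
      refine Or.inr (Subtype.ext ?_)
      rw [Submonoid.coe_mul, Submonoid.coe_mul, Submonoid.coe_mul, coe_spD_neg, hz]
      change kr _ _ * kr _ _ = kr _ _ * kr _ _ * _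
      rw [kr_mul, kr_mul, mul_neg, mul_one, mul_one, one_mul, ← kr_neg_right]
      congr 1
      ext a b
      fin_cases a <;> fin_cases b <;> simp [rot, swm, e₀, e₁, Matrix.mul_apply]
    · rw [mul_inv_eq_iff_eq_mul, MonoidHom.comp_apply, ← map_mul, ← map_mul, psp4_eq hF]
      refine Or.inl (Subtype.ext ?_)
      rw [Submonoid.coe_mul, Submonoid.coe_mul, hz]
      change kr _ _ * kr _ _ = kr _ _ * kr _ _
      rw [kr_mul, kr_mul, mul_one, one_mul]
      congr 1
      ext a b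
      fin_cases a <;> fin_cases b <;> simp [rot, swm, e₀, e₁, Matrix.mul_apply]
    · rw [mul_inv_eq_iff_eq_mul, MonoidHom.comp_apply, MonoidHom.comp_apply, ← map_mul, ← map_mul]
      congr 1
      refine Subtype.ext ?_
      rw [Submonoid.coe_mul, Submonoid.coe_mul, coe_spD_diag, coe_spD_diag]
      change kr _ _ * kr _ _ = kr _ _ * kr _ _
      rw [kr_mul, kr_mul, mul_one, one_mul, ← hU, slConj_mul]
    · rw [hU, mul_add, add_mul, one_mul, mul_one]
    · have h1 := anti_of_conj hi h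
      rw [hU, Matrix.SpecialLinearGroup.coe_mul, mul_add, add_mul, one_mul, mul_one, mul_assoc, h1,
        mul_neg, ← mul_assoc, hI, add_comm]
      simp

theorem simple_psp4 (hF : Odd (Fintype.card F)) (S : Sylow 2 (PSp 2 F)) :
    (groupFusionSystem (S : Subgroup (PSp 2 F))).IsSimple 2 := by
  obtain ⟨k, a, b, h1, h2, h3, h4, h5, h6, -, h8, -⟩ := sl2_gens hF (default : Sylow 2 SL(2, F))
  exact SpW.QG.simple (w := spW hF) ⟨h1, h2, h3, h4, h5, h6, h8⟩ (sylIn_top _) S

end H13
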