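import Cfsg.Agent.H27.MCls
import Cfsg.Agent.H27.MSub
import Cfsg.Agent.H13.Ree
/-! Generation of the Mathieu group on 23 points by triples of prime orders. -/
namespace H13
noncomputable section
open H27 Cfsg MulAction

structure Tr23 where
  p : ℕ
  q : ℕ
  r : ℕ
  X : Net
  Y : Net
  Z : Net
  u : List ℕ
  v : List ℕ
def ordC (p : ℕ) (N : Net) : Bool := and' (powChk 5 24 p [N]) (neL 24 [N] [.nil])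
def Tr23.chk (t : Tr23) : Bool :=
  and' (allL [t.X, t.Y, t.Z] m24chk) (and' (fixChk [t.X, t.Y, t.Z] 23) (and' (ordC t.p t.X) (and' (ordC t.q t.Y) (and' (ordC t.r t.Z)
    (and' (eqL 5 24 [t.X, t.Y, t.Z] []) (and' (eqL 5 24 (wordN [t.X, t.Y] t.u) (wordN g23N [0]))
      (eqL 5 24 (wordN [t.X, t.Y] t.v) (wordN g23N [1]))))))))
def triT : List Tr23 := [⟨2, 5, 11, (.cons 1 0x114010 (.cons 2 0x332020 (.cons 4 0x50200 (.cons 8 0x95 (.cons 16 0xdc (.cons 8 0x94 (.cons 4 0x50000 (.cons 2 0x332000 (.cons 1 0x114010 .nil))))))))),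
    (.cons 1 0x440114 (.cons 2 0x23222 (.cons 4 0x90a07 (.cons 8 0xfc (.cons 16 0x9e (.cons 8 0x80 (.cons 4 0x10900 (.cons 2 0x21220 (.cons 1 0x440114 .nil))))))))),
    (.cons 1 0x111101 (.cons 2 0x133033 (.cons 4 0x10e0b (.cons 8 0x4e (.cons 16 0x79 (.cons 8 0x68 (.cons 4 0x60400 (.cons 2 0x131220 (.cons 1 0x10040 .nil))))))))),
    [0, 1, 1, 0, 1, 1, 1, 1, 0, 1, 1, 1, 0, 1, 0, 1, 0, 1, 1, 0, 1, 1, 1, 1, 0, 1, 1, 0, 1, 0, 1, 0, 1, 0], [1, 0, 1, 1, 1, 0, 1, 1, 1, 0, 1, 0, 1, 1, 0, 1, 1, 0, 1, 1, 1, 1, 0, 1, 0, 1, 0, 1, 0, 1, 1, 1, 1, 0, 1, 1]⟩,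
  ⟨2, 5, 23, (.cons 1 0x4100 (.cons 2 0x112001 (.cons 4 0xe0800 (.cons 8 0xc8 (.cons 16 0x87 (.cons 8 0x80 (.cons 4 0xb0800 (.cons 2 0x2000 (.cons 1 0x4000 .nil))))))))),
    (.cons 1 0x1105 (.cons 2 0x221212 (.cons 4 0x10609 (.cons 8 0x46 (.cons 16 0xf (.cons 8 0xf (.cons 4 0x80000 (.cons 2 0x230030 (.cons 1 0x140044 .nil))))))))),
    (.cons 1 0x104111 (.cons 2 0x213303 (.cons 4 0x1000a (.cons 8 0xa3 (.cons 16 0x9e (.cons 8 0x18 (.cons 4 0xd0800 (.cons 2 0x310210 (.cons 1 0x514 .nil))))))))),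
    [0, 1, 1, 0, 1, 1, 0, 1, 1, 1, 0, 1, 0, 1, 1, 1, 0, 1, 1, 1, 1, 0, 1, 1, 1, 1, 0, 1, 0, 1, 0, 1, 1, 1, 0], [1, 1, 1, 0, 1, 1, 1, 0, 1, 0, 1, 0, 1, 1, 1, 0, 1, 1, 0, 1, 1, 1, 0, 1, 1, 1, 0, 1, 1, 0, 1, 0, 1, 0, 1]⟩,
  ⟨2, 7, 7, (.cons 1 0x101440 (.cons 2 0x32130 (.cons 4 0xb0700 (.cons 8 0xd5 (.cons 16 0x87 (.cons 8 0x85 (.cons 4 0xb0500 (.cons 2 0x32000 (.cons 1 0x101440 .nil))))))))),
    (.cons 1 0x455015 (.cons 2 0x30031 (.cons 4 0x90308 (.cons 8 0xc1 (.cons 16 0xbc (.cons 8 0x14 (.cons 4 0x90000 (.cons 2 0x32030 (.cons 1 0x400154 .nil))))))))),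
    (.cons 1 0x541405 (.cons 2 0x21210 (.cons 4 0xb0602 (.cons 8 0x57 (.cons 16 0x2b (.cons 8 0x9 (.cons 4 0x80000 (.cons 2 0x20010 (.cons 1 0x411000 .nil))))))))),
    [1, 1, 0, 1, 1, 1, 1, 0, 1, 1, 0, 1, 0, 1, 1, 1, 1, 1, 0, 1, 0, 1, 0, 1, 1, 0, 1, 1, 0, 1, 1, 1, 1, 0], [1, 1, 1, 0, 1, 1, 0, 1, 1, 1, 1, 0, 1, 1, 0, 1, 1, 1, 0, 1, 1, 0, 1, 1, 0, 1, 1, 0, 1, 1]⟩,
  ⟨2, 7, 11, (.cons 1 0x4000 (.cons 2 0x100010 (.cons 4 0x30100 (.cons 8 0x22 (.cons 16 0x5e (.cons 8 0x2 (.cons 4 0x30000 (.cons 2 0x100010 .nil)))))))),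
    (.cons 1 0x444400 (.cons 2 0x123001 (.cons 4 0x10f0a (.cons 8 0xd3 (.cons 16 0x7c (.cons 8 0x40 (.cons 4 0x10200 (.cons 2 0x322120 (.cons 1 0x414410 .nil))))))))),
    (.cons 1 0x414410 (.cons 2 0x313032 (.cons 4 0x6080b (.cons 8 0xde (.cons 16 0x6f (.cons 8 0x44 (.cons 4 0x20000 (.cons 2 0x101020 (.cons 1 0x400404 .nil))))))))),
    [1, 0, 1, 1, 1, 0, 1, 0, 1, 1, 0, 1, 1, 0, 1, 0, 1, 1, 0, 1, 1, 0, 1, 1, 1, 0, 1, 1, 1], [1, 1, 0, 1, 0, 1, 1, 0, 1, 1, 1, 0, 1, 0, 1, 0, 1, 1, 0, 1, 1, 1, 1, 1, 1, 0, 1, 0]⟩,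
  ⟨2, 7, 23, (.cons 1 0x11000 (.cons 2 0x12101 (.cons 4 0x10000 (.cons 8 0xab (.cons 16 0x27 (.cons 8 0x26 (.cons 4 0x40000 (.cons 2 0x102000 (.cons 1 0x11000 .nil))))))))),
    (.cons 1 0x55150 (.cons 2 0x20130 (.cons 4 0xe0a04 (.cons 8 0x20 (.cons 16 0xe2 (.cons 8 0xc2 (.cons 4 0x80400 (.cons 2 0x33000 (.cons 1 0x141440 .nil))))))))),
    (.cons 1 0x544000 (.cons 2 0x233220 (.cons 4 0x90e07 (.cons 8 0x29 (.cons 16 0xbb (.cons 8 0x30 (.cons 4 0x20300 (.cons 2 0x20130 (.cons 1 0x410114 .nil))))))))),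
    [1, 1, 0, 1, 0, 1, 0, 1, 1, 0, 1, 1, 0, 1, 1, 1, 1, 1, 0, 1, 0, 1, 0, 1, 0, 1, 1, 1, 1, 1, 1], [0, 1, 0, 1, 1, 1, 1, 0, 1, 0, 1, 1, 1, 1, 0, 1, 1, 0, 1, 1, 0, 1, 1, 1, 0, 1, 1, 0, 1, 0, 1, 1, 1]⟩,
  ⟨2, 11, 11, (.cons 1 0x115000 (.cons 2 0x330300 (.cons 4 0x50000 (.cons 8 0x4f (.cons 16 0x9f (.cons 8 0xf (.cons 4 0x50000 (.cons 2 0x210000 (.cons 1 0x114000 .nil))))))))),
    (.cons 1 0x155554 (.cons 2 0x232300 (.cons 4 0x10a00 (.cons 8 0xe (.cons 16 0x9d (.cons 8 0x18 (.cons 4 0xc0800 (.cons 2 0x221210 (.cons 1 0x105500 .nil))))))))),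
    (.cons 1 0x101401 (.cons 2 0x21211 (.cons 4 0xa0906 (.cons 8 0xf0 (.cons 16 0xb7 (.cons 8 0x86 (.cons 4 0xc0200 (.cons 2 0x120300 (.cons 1 0x50414 .nil))))))))),
    [0, 1, 0, 1, 1, 0, 1, 0, 1, 1, 1, 1, 1, 1, 0, 1, 1, 1, 0, 1, 0, 1, 1, 1, 1, 1, 0, 1, 1, 0, 1, 1], [0, 1, 0, 1, 1, 1, 1, 1, 0, 1, 1, 1, 0, 1, 0, 1, 1, 1, 1, 1, 1, 1, 0, 1, 0, 1, 0, 1, 1, 1]⟩,
  ⟨2, 11, 23, (.cons 1 0x440000 (.cons 2 0x130200 (.cons 4 0xe0c04 (.cons 8 0x9 (.cons 16 0xcf (.cons 8 0x9 (.cons 4 0xa0800 (.cons 2 0x130000 (.cons 1 0x440000 .nil))))))))),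
    (.cons 1 0x554015 (.cons 2 0x230003 (.cons 4 0x10703 (.cons 8 0x88 (.cons 16 0xf (.cons 8 0x9 (.cons 4 0x20900 (.cons 2 0x11220 (.cons 1 0x545100 .nil))))))))),
    (.cons 1 0x1114 (.cons 2 0x32331 (.cons 4 0xe0a0c (.cons 8 0xc5 (.cons 16 0xb7 (.cons 8 0x83 (.cons 4 0x90000 (.cons 2 0x121000 (.cons 1 0x140100 .nil))))))))),
    [1, 1, 0, 1, 1, 0, 1, 0, 1, 0, 1, 0, 1, 1, 1, 1, 1, 0, 1, 1, 1, 1, 1, 0, 1, 0, 1, 0], [0, 1, 1, 1, 1, 0, 1, 1, 0, 1, 1, 0, 1, 0, 1, 0, 1, 0, 1, 0, 1, 0, 1, 0, 1, 1, 1, 0, 1, 1, 1, 0]⟩,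
  ⟨2, 23, 23, (.cons 1 0x154110 (.cons 2 0x2211 (.cons 4 0xe0005 (.cons 8 0x29 (.cons 16 0xa1 (.cons 8 0x21 (.cons 4 0xa0000 (.cons 2 0x2200 (.cons 1 0x54110 .nil))))))))),
    (.cons 1 0x11545 (.cons 2 0x102332 (.cons 4 0x60e05 (.cons 8 0xb1 (.cons 16 0x2f (.cons 8 0x25 (.cons 4 0xd00 (.cons 2 0x12030 (.cons 1 0x50500 .nil))))))))),
    (.cons 1 0x511040 (.cons 2 0x1031 (.cons 4 0x7010f (.cons 8 0xf (.cons 16 0xf9 (.cons 8 0x9 (.cons 4 0x50200 (.cons 2 0x21100 (.cons 1 0x504000 .nil))))))))),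
    [1, 1, 0, 1, 1, 1, 1, 1, 1, 0, 1, 1, 1, 0, 1, 0, 1, 1, 0, 1, 1, 0, 1, 0, 1, 0, 1, 1, 1, 0], [0, 1, 1, 1, 0, 1, 1, 0, 1, 0, 1, 0, 1, 0, 1, 1, 1, 1, 0, 1, 1, 1, 0, 1, 1, 1, 1, 1, 1, 0, 1]⟩,
  ⟨3, 3, 11, (.cons 1 0x455040 (.cons 2 0x1031 (.cons 4 0x509 (.cons 8 0x2c (.cons 16 0xb9 (.cons 8 0x28 (.cons 4 0x20400 (.cons 2 0x1030 (.cons 1 0x500040 .nil))))))))),
    (.cons 1 0x55050 (.cons 2 0x2022 (.cons 4 0x40d0b (.cons 8 0xf (.cons 16 0x2 (.cons 8 0x2 (.cons 4 0x20900 (.cons 2 0x102000 (.cons 1 0x54000 .nil))))))))),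
    (.cons 1 0x401005 (.cons 2 0x212131 (.cons 4 0x20606 (.cons 8 0x88 (.cons 16 0xbc (.cons 8 0xb0 (.cons 4 0x900 (.cons 2 0x10320 (.cons 1 0x455400 .nil))))))))),
    [1, 0, 1, 0, 1, 0, 1, 0, 0, 1, 0, 0, 1, 0, 1, 0, 0, 1, 1, 0, 0, 1, 1, 0, 0, 1, 0, 1, 1, 0, 1, 1, 0], [1, 0, 0, 1, 1, 0, 0, 1, 0, 0, 1, 0, 1, 1, 0, 1, 1, 0, 1, 0, 1, 1, 0, 0, 1, 0, 0, 1, 0, 1]⟩,
  ⟨3, 3, 23, (.cons 1 0x555505 (.cons 2 0x201011 (.cons 4 0xd0e00 (.cons 8 0x87 (.cons 16 0xe3 (.cons 8 0xa1 (.cons 4 0xd0600 (.cons 2 0x1000 (.cons 1 0x454404 .nil))))))))),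
    (.cons 1 0x140544 (.cons 2 0x312100 (.cons 4 0x30304 (.cons 8 0xb8 (.cons 16 0xf5 (.cons 8 0xb1 (.cons 4 0xa0000 (.cons 2 0x201300 (.cons 1 0x11140 .nil))))))))),
    (.cons 1 0x545441 (.cons 2 0x331310 (.cons 4 0x20300 (.cons 8 0x6e (.cons 16 0xeb (.cons 8 0xc2 (.cons 4 0xc0e00 (.cons 2 0x101020 (.cons 1 0x504110 .nil))))))))),
    [0, 0, 1, 0, 0, 1, 1, 0, 1, 1, 0, 1, 0, 0, 1, 0, 0, 1, 1, 0, 1, 0, 1, 0, 0, 1, 1, 0], [0, 0, 1, 0, 0, 1, 0, 1, 1, 0, 0, 1, 0, 0, 1, 0, 1, 1, 0, 0, 1, 1, 0, 0, 1, 1, 0, 1, 0, 0, 1, 1, 0]⟩,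
  ⟨3, 5, 5, (.cons 1 0x450044 (.cons 2 0x222321 (.cons 4 0x60d0a (.cons 8 0x69 (.cons 16 0x6a (.cons 4 0x40d00 (.cons 2 0x202100 (.cons 1 0x450444 .nil)))))))),
    (.cons 1 0x151455 (.cons 2 0x2111 (.cons 4 0x4070d (.cons 8 0x72 (.cons 16 0x74 (.cons 8 0x24 (.cons 4 0x400 (.cons 2 0x12220 (.cons 1 0x155104 .nil))))))))),
    (.cons 1 0x545440 (.cons 2 0x22100 (.cons 4 0x30b08 (.cons 8 0x8a (.cons 16 0xb3 (.cons 8 0x23 (.cons 4 0x20000 (.cons 2 0x10310 (.cons 1 0x554100 .nil))))))))),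
    [1, 1, 0, 1, 1, 1, 0, 1, 0, 1, 1, 0, 0, 1, 0, 1, 1, 1, 0, 1], [1, 0, 1, 1, 1, 1, 0, 1, 1, 1, 0, 1, 0, 1, 1, 1, 1, 0, 1, 1, 1, 0, 1, 1, 1, 0, 1]⟩,
  ⟨3, 5, 7, (.cons 1 0x150410 (.cons 2 0x222221 (.cons 4 0x90307 (.cons 8 0x94 (.cons 16 0x83 (.cons 8 0x80 (.cons 4 0x10500 (.cons 2 0x222130 (.cons 1 0x150414 .nil))))))))),
    (.cons 1 0x401505 (.cons 2 0x210022 (.cons 4 0xc0f (.cons 8 0xa3 (.cons 16 0x1e (.cons 8 0x6 (.cons 4 0x30c00 (.cons 2 0x230010 (.cons 1 0x511440 .nil))))))))),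
    (.cons 1 0x404110 (.cons 2 0x321001 (.cons 4 0x20605 (.cons 8 0xe7 (.cons 16 0xcb (.cons 8 0xa (.cons 4 0x300 (.cons 2 0x302310 (.cons 1 0x514114 .nil))))))))),
    [1, 1, 0, 1, 0, 1, 0, 0, 1, 1, 0, 0, 1, 0, 1, 0, 0, 1, 1, 0, 0, 1, 1, 1, 0], [1, 1, 0, 1, 0, 1, 1, 0, 1, 0, 1, 1, 1, 0, 1, 1, 0, 1, 0, 1, 0, 1, 1, 0, 1, 1, 0]⟩,
  ⟨3, 5, 11, (.cons 1 0x50454 (.cons 2 0x121020 (.cons 4 0x70804 (.cons 8 0x6e (.cons 16 0x3c (.cons 4 0x70000 (.cons 2 0x103020 (.cons 1 0x51140 .nil)))))))),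
    (.cons 1 0x15441 (.cons 2 0x322100 (.cons 4 0x9090c (.cons 8 0x99 (.cons 16 0x1f (.cons 8 0x16 (.cons 4 0xc0200 (.cons 2 0x230200 (.cons 1 0x151000 .nil))))))))),
    (.cons 1 0x114454 (.cons 2 0x111023 (.cons 4 0x60008 (.cons 8 0xd2 (.cons 16 0x7f (.cons 8 0x72 (.cons 4 0x50c00 (.cons 2 0x20200 (.cons 1 0x140540 .nil))))))))),
    [1, 1, 0, 1, 1, 1, 1, 0, 1, 0, 1, 0, 1, 1, 1, 0, 0, 1, 0, 1, 0, 1, 0, 0], [0, 0, 1, 1, 1, 0, 0, 1, 0, 1, 1, 0, 1, 0, 0, 1, 1, 1, 1, 0, 0]⟩,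
  ⟨3, 5, 23, (.cons 1 0x514410 (.cons 2 0x1010 (.cons 4 0x10e08 (.cons 8 0xf (.cons 16 0x36 (.cons 8 0x22 (.cons 4 0x30c00 (.cons 2 0x201100 (.cons 1 0x514410 .nil))))))))),
    (.cons 1 0x145440 (.cons 2 0x133331 (.cons 4 0xa05 (.cons 8 0x8c (.cons 16 0x5b (.cons 8 0x18 (.cons 4 0x400 (.cons 2 0x11010 (.cons 1 0x145550 .nil))))))))),
    (.cons 1 0x4114 (.cons 2 0x101200 (.cons 4 0x10c04 (.cons 8 0xca (.cons 16 0x1f (.cons 8 0x1 (.cons 4 0x20200 (.cons 2 0x30000 (.cons 1 0x141000 .nil))))))))),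
    [1, 1, 1, 0, 0, 1, 0, 0, 1, 1, 0, 0, 1, 1, 0, 1, 0, 0, 1, 1, 1, 0, 1, 1, 0, 0, 1], [0, 1, 1, 1, 1, 0, 1, 0, 1, 1, 0, 0, 1, 0, 1, 0, 1, 1, 0]⟩,
  ⟨3, 7, 7, (.cons 1 0x45050 (.cons 2 0x131312 (.cons 4 0x20701 (.cons 8 0x78 (.cons 16 0x35 (.cons 8 0x21 (.cons 4 0x20400 (.cons 2 0x130200 (.cons 1 0x55050 .nil))))))))),
    (.cons 1 0x511114 (.cons 2 0x301132 (.cons 4 0x90905 (.cons 8 0xb5 (.cons 16 0xd4 (.cons 8 0x14 (.cons 4 0x50000 (.cons 2 0x111300 (.cons 1 0x551510 .nil))))))))),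
    (.cons 1 0x415055 (.cons 2 0x100230 (.cons 4 0xe0b0a (.cons 8 0x64 (.cons 16 0x8f (.cons 8 0xd (.cons 4 0x20800 (.cons 2 0x102030 (.cons 1 0x445144 .nil))))))))),
    [0, 1, 0, 1, 1, 0, 0, 1, 0, 0, 1, 0, 1, 0, 1, 1, 1, 0, 0, 1, 1, 0, 0, 1, 0], [0, 1, 0, 1, 1, 1, 0, 0, 1, 1, 1, 1, 1, 1, 0, 1, 1, 1, 0, 1, 1, 1, 1, 1]⟩,
  ⟨3, 7, 11, (.cons 1 0x100050 (.cons 2 0x220011 (.cons 4 0x30403 (.cons 8 0xb3 (.cons 16 0xb4 (.cons 8 0x34 (.cons 4 0x20500 (.cons 2 0x211010 (.cons 1 0x100050 .nil))))))))),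
    (.cons 1 0x410500 (.cons 2 0x30303 (.cons 4 0x10c08 (.cons 8 0x64 (.cons 16 0x37 (.cons 8 0x5 (.cons 2 0x232120 (.cons 1 0x414554 .nil)))))))),
    (.cons 1 0x105140 (.cons 2 0x212 (.cons 4 0x20700 (.cons 8 0xc7 (.cons 16 0x2f (.cons 8 0x4 (.cons 4 0x40400 (.cons 2 0x122120 (.cons 1 0x41500 .nil))))))))),
    [0, 0, 1, 0, 0, 1, 0, 1, 0, 0, 1, 0, 1, 1, 1, 0, 1, 0, 1, 1, 1, 0, 1, 1, 1, 0, 1], [0, 1, 1, 1, 0, 0, 1, 0, 0, 1, 0, 1, 0, 1, 1, 0, 0, 1, 0, 0, 1, 0, 1, 0]⟩,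
  ⟨3, 7, 23, (.cons 1 0x14550 (.cons 2 0x231212 (.cons 4 0xe0d0c (.cons 8 0xb1 (.cons 16 0x69 (.cons 8 0x9 (.cons 4 0xe0000 (.cons 2 0x231330 (.cons 1 0x55410 .nil))))))))),
    (.cons 1 0x545015 (.cons 2 0x232102 (.cons 4 0x40203 (.cons 8 0xc0 (.cons 16 0x72 (.cons 8 0x40 (.cons 4 0x50800 (.cons 2 0x211220 (.cons 1 0x441404 .nil))))))))),
    (.cons 1 0x404410 (.cons 2 0x301331 (.cons 4 0x10002 (.cons 8 0x78 (.cons 16 0x7e (.cons 8 0x42 (.cons 4 0x30900 (.cons 2 0x310010 (.cons 1 0x514140 .nil))))))))),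
    [1, 0, 1, 1, 0, 0, 1, 0, 0, 1, 0, 1, 1, 0, 1, 1, 1, 0, 0, 1, 1, 0, 1, 1, 1, 0], [1, 0, 0, 1, 1, 1, 0, 1, 0, 0, 1, 1, 1, 1, 1, 0, 0, 1, 1, 0, 0, 1, 1, 0, 1, 1, 1]⟩,
  ⟨3, 11, 11, (.cons 1 0x45040 (.cons 2 0x333230 (.cons 4 0xd0101 (.cons 8 0x1c (.cons 16 0x9e (.cons 8 0x1a (.cons 4 0xd0800 (.cons 2 0x333230 (.cons 1 0x55000 .nil))))))))),
    (.cons 1 0x554011 (.cons 2 0x300220 (.cons 4 0xa0e0d (.cons 8 0x46 (.cons 16 0x8f (.cons 8 0x4 (.cons 4 0x60600 (.cons 2 0x113100 (.cons 1 0x411140 .nil))))))))),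
    (.cons 1 0x454540 (.cons 2 0x10021 (.cons 4 0xf0906 (.cons 8 0x1a (.cons 16 0x7a (.cons 8 0x42 (.cons 4 0xc0700 (.cons 2 0x230100 (.cons 1 0x440540 .nil))))))))),
    [1, 1, 0, 0, 1, 1, 0, 0, 1, 1, 0, 1, 0, 1, 0, 1, 1, 0, 1, 1, 0, 1, 0, 1], [1, 1, 0, 1, 1, 0, 1, 1, 0, 1, 0, 1, 0, 1, 0, 1, 0, 0, 1, 0, 1, 0]⟩,
  ⟨3, 11, 23, (.cons 1 0x50014 (.cons 2 0x1322 (.cons 4 0x1090b (.cons 8 0xf (.cons 16 0x53 (.cons 4 0x50800 (.cons 2 0x111210 (.cons 1 0x44040 .nil)))))))),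
    (.cons 1 0x514414 (.cons 2 0x133130 (.cons 4 0xf060d (.cons 8 0xc9 (.cons 16 0x7c (.cons 8 0x4c (.cons 4 0x30800 (.cons 2 0x131020 (.cons 1 0x441144 .nil))))))))),
    (.cons 1 0x145411 (.cons 2 0x331130 (.cons 4 0xc0b (.cons 8 0xc2 (.cons 16 0x9c (.cons 4 0x50200 (.cons 2 0x203030 (.cons 1 0x41400 .nil)))))))),
    [0, 0, 1, 0, 0, 1, 1, 1, 1, 0, 1, 0, 1, 1, 0, 1, 0, 1, 0, 1, 1, 1], [0, 0, 1, 0, 1, 1, 1, 0, 1, 1, 0, 1, 1, 1, 1, 1, 1, 0, 0, 1, 1, 1, 1]⟩,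
  ⟨3, 23, 23, (.cons 1 0x1110 (.cons 2 0x100301 (.cons 4 0x40101 (.cons 8 0x1e (.cons 16 0x3f (.cons 8 0x32 (.cons 4 0x50000 (.cons 2 0x10000 (.cons 1 0x51510 .nil))))))))),
    (.cons 1 0x550105 (.cons 2 0x330101 (.cons 4 0xc0200 (.cons 8 0xdd (.cons 16 0xae (.cons 8 0x6 (.cons 4 0x400 (.cons 2 0x120000 (.cons 1 0x551400 .nil))))))))),
    (.cons 1 0x5055 (.cons 2 0x123002 (.cons 4 0x60805 (.cons 8 0x8d (.cons 16 0x3d (.cons 8 0x38 (.cons 4 0x40000 (.cons 2 0x131010 (.cons 1 0x44550 .nil))))))))),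
    [0, 1, 0, 1, 0, 0, 1, 0, 1, 0, 0, 1, 1, 1, 1, 1, 0, 0, 1, 1, 0, 1, 1, 1, 1], [0, 0, 1, 1, 1, 1, 0, 1, 0, 1, 0, 1, 1, 0, 1, 1, 1, 0, 1, 1, 1, 0, 1, 0, 1, 1, 0]⟩,
  ⟨5, 5, 5, (.cons 1 0x155504 (.cons 2 0x22132 (.cons 4 0xb0702 (.cons 8 0x40 (.cons 16 0xc7 (.cons 8 0x3 (.cons 4 0xb0300 (.cons 2 0x132020 (.cons 1 0x41150 .nil))))))))),
    (.cons 1 0x505104 (.cons 2 0x203122 (.cons 4 0xa0208 (.cons 8 0x34 (.cons 16 0xb4 (.cons 8 0x84 (.cons 4 0x80200 (.cons 2 0x232000 (.cons 1 0x445400 .nil))))))))),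
    (.cons 1 0x505414 (.cons 2 0x211102 (.cons 4 0x20604 (.cons 8 0xb7 (.cons 16 0x3f (.cons 8 0x36 (.cons 4 0x100 (.cons 2 0x212020 (.cons 1 0x505510 .nil))))))))),
    [0, 0, 0, 1, 0, 1, 0, 1, 1, 0, 0, 1, 1, 0, 0, 0, 1, 1, 1, 0, 0, 0, 1, 1, 1], [1, 0, 0, 0, 0, 1, 0, 1, 1, 0, 1, 1, 1, 1, 0, 0, 1, 0, 0, 1, 0, 1, 0]⟩,
  ⟨5, 5, 7, (.cons 1 0x440115 (.cons 2 0x201232 (.cons 4 0x50301 (.cons 8 0x4f (.cons 16 0xd2 (.cons 8 0x50 (.cons 4 0x70c00 (.cons 2 0x200220 (.cons 1 0x441100 .nil))))))))),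
    (.cons 1 0x14041 (.cons 2 0x211100 (.cons 4 0xe0c01 (.cons 8 0x4c (.cons 16 0x65 (.cons 8 0x40 (.cons 4 0x20800 (.cons 2 0x230010 (.cons 1 0x110140 .nil))))))))),
    (.cons 1 0x444145 (.cons 2 0x120112 (.cons 4 0x10702 (.cons 8 0xe3 (.cons 16 0xda (.cons 8 0xca (.cons 4 0x50100 (.cons 2 0x101120 (.cons 1 0x550044 .nil))))))))),
    [0, 0, 1, 0, 1, 1, 1, 0, 1, 0, 1, 1, 1, 0, 0, 0, 0, 1, 1, 1, 1, 0, 1, 0], [0, 0, 0, 1, 0, 0, 0, 1, 0, 1, 0, 1, 1, 1, 1, 0, 0, 1, 0, 1, 1, 0, 1]⟩,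
  ⟨5, 5, 11, (.cons 1 0x115444 (.cons 2 0x110320 (.cons 4 0x60c01 (.cons 8 0xf0 (.cons 16 0x3d (.cons 4 0x20400 (.cons 2 0x110110 (.cons 1 0x114150 .nil)))))))),
    (.cons 1 0x110404 (.cons 2 0x11210 (.cons 4 0x30002 (.cons 8 0x94 (.cons 16 0x5e (.cons 8 0x46 (.cons 4 0x30300 (.cons 2 0x130220 (.cons 1 0x1454 .nil))))))))),
    (.cons 1 0x411040 (.cons 2 0x131032 (.cons 4 0xf0603 (.cons 8 0xca (.cons 16 0xb2 (.cons 8 0xa2 (.cons 4 0x30000 (.cons 2 0x130020 (.cons 1 0x505110 .nil))))))))),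
    [1, 1, 1, 1, 0, 0, 0, 1, 1, 1, 0, 1, 1, 0, 0, 0, 1, 1, 0, 0, 1, 1, 0], [0, 1, 0, 1, 1, 0, 1, 1, 0, 0, 1, 1, 1, 0, 0, 1, 1, 0, 0, 1]⟩,
  ⟨5, 5, 23, (.cons 1 0x444014 (.cons 2 0x12320 (.cons 4 0x40304 (.cons 8 0x1e (.cons 16 0x6b (.cons 8 0x23 (.cons 4 0xe0800 (.cons 2 0x200 (.cons 1 0x454100 .nil))))))))),
    (.cons 1 0x515014 (.cons 2 0x131130 (.cons 4 0xd0b08 (.cons 8 0x5a (.cons 16 0x5e (.cons 8 0x1c (.cons 4 0xd0200 (.cons 2 0x333120 (.cons 1 0x501410 .nil))))))))),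
    (.cons 1 0x50504 (.cons 2 0x112333 (.cons 4 0xf0a05 (.cons 8 0x56 (.cons 16 0xd4 (.cons 4 0x90300 (.cons 2 0x21100 (.cons 1 0x54050 .nil)))))))),
    [0, 1, 0, 0, 1, 0, 0, 1, 1, 1, 0, 1, 1, 0, 0, 1, 0, 0, 0, 1, 0, 0], [0, 0, 1, 1, 1, 0, 0, 0, 0, 1, 1, 1, 0, 1, 1, 1, 0, 1, 0, 0, 1, 1, 0, 0]⟩,
  ⟨5, 7, 7, (.cons 1 0x414151 (.cons 2 0x310312 (.cons 4 0xa0508 (.cons 8 0x37 (.cons 16 0xa7 (.cons 8 0x25 (.cons 4 0xc0000 (.cons 2 0x320000 (.cons 1 0x514150 .nil))))))))),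
    (.cons 1 0x115050 (.cons 2 0x112312 (.cons 4 0xc0c0e (.cons 8 0x37 (.cons 16 0x96 (.cons 8 0x94 (.cons 4 0xa0800 (.cons 2 0x2010 (.cons 1 0x55040 .nil))))))))),
    (.cons 1 0x451101 (.cons 2 0x110010 (.cons 4 0xf0904 (.cons 8 0x60 (.cons 16 0x1a (.cons 8 0x1a (.cons 4 0x10d00 (.cons 2 0x112020 (.cons 1 0x405100 .nil))))))))),
    [1, 0, 0, 1, 0, 0, 1, 1, 0, 1, 0, 1, 1, 0, 0, 1, 1, 0, 0, 1, 0, 0], [1, 1, 0, 0, 1, 1, 1, 0, 0, 1, 0, 0, 1, 0, 1, 1, 1, 1, 1, 1, 0]⟩,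
  ⟨5, 7, 11, (.cons 1 0x4105 (.cons 2 0x200332 (.cons 4 0x90907 (.cons 8 0x3a (.cons 16 0xd3 (.cons 8 0x2 (.cons 4 0x10000 (.cons 2 0x320320 (.cons 1 0x5140 .nil))))))))),
    (.cons 1 0x410504 (.cons 2 0x223330 (.cons 4 0xd0a0d (.cons 8 0x95 (.cons 16 0xe9 (.cons 8 0xa1 (.cons 4 0x50500 (.cons 2 0x33120 (.cons 1 0x510410 .nil))))))))),
    (.cons 1 0x54400 (.cons 2 0x120323 (.cons 4 0x3090e (.cons 8 0x5b (.cons 16 0x15 (.cons 8 0x14 (.cons 4 0x200 (.cons 2 0x1200 (.cons 1 0x1500 .nil))))))))),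
    [0, 0, 1, 0, 1, 0, 0, 0, 1, 0, 1, 1, 1, 0, 1, 1, 0, 1, 0, 1, 1, 0, 1, 0], [0, 0, 1, 0, 0, 1, 1, 0, 1, 0, 1, 0, 1, 0, 0, 1, 0, 1, 0, 1, 1, 1, 0, 0]⟩,
  ⟨5, 7, 23, (.cons 1 0x141045 (.cons 2 0x312100 (.cons 4 0xe0c01 (.cons 8 0xf0 (.cons 16 0xf9 (.cons 8 0xb1 (.cons 4 0x30800 (.cons 2 0x310010 (.cons 1 0x150040 .nil))))))))),
    (.cons 1 0x150145 (.cons 2 0x101322 (.cons 4 0x20e0b (.cons 8 0x1a (.cons 16 0x43 (.cons 8 0x40 (.cons 4 0x30100 (.cons 2 0x10100 (.cons 1 0x50440 .nil))))))))),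
    (.cons 1 0x441514 (.cons 2 0x312333 (.cons 4 0x70607 (.cons 8 0x1b (.cons 16 0x7a (.cons 8 0x60 (.cons 4 0x90000 (.cons 2 0x130100 (.cons 1 0x504004 .nil))))))))),
    [0, 0, 1, 1, 1, 1, 0, 1, 0, 0, 1, 1, 0, 1, 1, 0, 1, 1, 1, 0, 0, 1, 1, 0], [0, 0, 0, 0, 1, 1, 1, 1, 1, 0, 1, 0, 1, 0, 1, 1, 1, 0, 1, 1, 1, 1, 0]⟩,
  ⟨5, 11, 11, (.cons 1 0x40540 (.cons 2 0x310101 (.cons 4 0x3040e (.cons 8 0x40 (.cons 16 0x78 (.cons 8 0x68 (.cons 4 0xf0800 (.cons 2 0x310110 (.cons 1 0x145540 .nil))))))))),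
    (.cons 1 0x404040 (.cons 2 0x33031 (.cons 4 0x60106 (.cons 8 0x11 (.cons 16 0xf3 (.cons 8 0x72 (.cons 4 0x40000 (.cons 2 0x233300 (.cons 1 0x505004 .nil))))))))),
    (.cons 1 0x500115 (.cons 2 0x210111 (.cons 4 0x306 (.cons 8 0x48 (.cons 16 0xbe (.cons 8 0x90 (.cons 4 0x10100 (.cons 2 0x22010 (.cons 1 0x410440 .nil))))))))),
    [1, 1, 0, 1, 0, 1, 1, 1, 1, 0, 0, 0, 1, 1, 1, 0, 1, 0, 0], [0, 0, 1, 1, 0, 0, 1, 1, 1, 1, 0, 0, 1, 0, 0, 1, 1, 0, 1, 0, 0, 0]⟩,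
  ⟨5, 11, 23, (.cons 1 0x544450 (.cons 2 0x20011 (.cons 4 0xc010b (.cons 8 0xd (.cons 16 0xfa (.cons 8 0x8 (.cons 4 0xc0400 (.cons 2 0x200100 (.cons 1 0x544144 .nil))))))))),
    (.cons 1 0x100441 (.cons 2 0x1003 (.cons 4 0x60105 (.cons 8 0x5e (.cons 16 0x1b (.cons 8 0x19 (.cons 4 0x20200 (.cons 2 0x131300 (.cons 1 0x151410 .nil))))))))),
    (.cons 1 0x504404 (.cons 2 0x311313 (.cons 4 0x50d05 (.cons 8 0x79 (.cons 16 0xf6 (.cons 8 0xa0 (.cons 4 0xf0200 (.cons 2 0x320020 (.cons 1 0x440444 .nil))))))))),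
    [0, 0, 0, 0, 1, 1, 0, 1, 1, 1, 1, 1, 0, 0, 1, 1, 1, 0, 0, 1, 0, 0], [0, 1, 0, 1, 0, 1, 0, 0, 1, 1, 1, 0, 0, 0, 1, 1, 0, 1, 1, 1, 1, 1, 1]⟩,
  ⟨5, 23, 23, (.cons 1 0x151054 (.cons 2 0x320313 (.cons 4 0x1000a (.cons 8 0x52 (.cons 16 0xd3 (.cons 8 0x13 (.cons 4 0x90000 (.cons 2 0x310210 (.cons 1 0x44 .nil))))))))),
    (.cons 1 0x51415 (.cons 2 0x210033 (.cons 4 0x10503 (.cons 8 0xe7 (.cons 16 0x8b (.cons 8 0x8b (.cons 4 0x200 (.cons 2 0x300110 (.cons 1 0x114050 .nil))))))))),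
    (.cons 1 0x445540 (.cons 2 0x302133 (.cons 4 0xa070d (.cons 8 0x83 (.cons 16 0xef (.cons 8 0xe5 (.cons 4 0x800 (.cons 2 0x110000 (.cons 1 0x455110 .nil))))))))),
    [0, 0, 0, 0, 1, 0, 0, 1, 1, 1, 1, 1, 0, 1, 1, 1, 1, 0, 1, 1, 1, 1], [0, 1, 1, 0, 0, 1, 1, 1, 0, 1, 1, 1, 1, 1, 0, 1, 0, 0, 1, 1, 1, 0, 1]⟩,
  ⟨7, 7, 7, (.cons 1 0x545105 (.cons 2 0x120303 (.cons 4 0xf010f (.cons 8 0x5a (.cons 16 0xbc (.cons 8 0x8 (.cons 4 0xd0800 (.cons 2 0x122100 (.cons 1 0x545514 .nil))))))))),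
    (.cons 1 0x41041 (.cons 2 0x223210 (.cons 4 0xd0a09 (.cons 8 0x19 (.cons 16 0x90 (.cons 8 0x90 (.cons 4 0x100 (.cons 2 0x203100 (.cons 1 0x5150 .nil))))))))),
    (.cons 1 0x140105 (.cons 2 0x112011 (.cons 4 0x1090f (.cons 8 0x23 (.cons 16 0x3c (.cons 8 0x28 (.cons 4 0x20000 (.cons 2 0x111210 (.cons 1 0x141100 .nil))))))))),
    [0, 0, 1, 1, 1, 0, 1, 1, 0, 1, 1, 0, 1, 0, 0, 1, 0, 0, 1, 0, 0, 0, 1], [0, 1, 0, 0, 1, 0, 1, 1, 0, 1, 0, 0, 1, 0, 0, 0, 0, 1, 1]⟩,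
  ⟨7, 7, 11, (.cons 1 0x444145 (.cons 2 0x212120 (.cons 4 0x407 (.cons 8 0x5a (.cons 16 0x83 (.cons 8 0x1 (.cons 4 0x20600 (.cons 2 0x211200 (.cons 1 0x540104 .nil))))))))),
    (.cons 1 0x511041 (.cons 2 0x133130 (.cons 4 0x5020a (.cons 8 0x39 (.cons 16 0xfe (.cons 8 0x52 (.cons 4 0x30000 (.cons 2 0x100310 (.cons 1 0x555040 .nil))))))))),
    (.cons 1 0x104110 (.cons 2 0x221 (.cons 4 0x10200 (.cons 8 0x46 (.cons 16 0x6f (.cons 8 0x2d (.cons 4 0x10700 (.cons 2 0x30100 (.cons 1 0x50054 .nil))))))))),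
    [1, 1, 0, 1, 0, 0, 0, 1, 1, 1, 1, 0, 0, 0, 1, 0, 1, 0, 1, 0, 1, 0], [1, 0, 1, 0, 1, 1, 1, 1, 0, 0, 0, 1, 0, 0, 1, 0, 0, 0, 1, 0, 1, 1, 1, 0]⟩,
  ⟨7, 7, 23, (.cons 1 0x1410 (.cons 2 0x1021 (.cons 4 0x30908 (.cons 8 0x4c (.cons 16 0x7d (.cons 8 0x21 (.cons 4 0x20b00 (.cons 2 0x121200 (.cons 1 0x150010 .nil))))))))),
    (.cons 1 0x500105 (.cons 2 0x131021 (.cons 4 0x80409 (.cons 8 0x5a (.cons 16 0xcf (.cons 8 0x4f (.cons 4 0xc0800 (.cons 2 0x130200 (.cons 1 0x545500 .nil))))))))),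
    (.cons 1 0x5410 (.cons 2 0x123212 (.cons 4 0x20d0d (.cons 8 0x94 (.cons 16 0x27 (.cons 8 0x24 (.cons 4 0x10100 (.cons 2 0x100300 (.cons 1 0x155004 .nil))))))))),
    [1, 1, 0, 0, 1, 0, 1, 0, 0, 0, 1, 1, 1, 1, 1, 0, 1, 0, 0, 1, 1, 1], [1, 1, 1, 1, 0, 0, 0, 0, 1, 1, 0, 0, 1, 0, 1, 1, 1, 0, 0, 0, 0, 0, 1, 1]⟩,
  ⟨7, 11, 11, (.cons 1 0x15111 (.cons 2 0x112132 (.cons 4 0x60904 (.cons 8 0x66 (.cons 16 0x4d (.cons 8 0x41 (.cons 4 0x10500 (.cons 2 0x132330 (.cons 1 0x41150 .nil))))))))),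
    (.cons 1 0x550445 (.cons 2 0x31320 (.cons 4 0x90d06 (.cons 8 0x6 (.cons 16 0x38 (.cons 8 0x18 (.cons 4 0x30800 (.cons 2 0x2220 (.cons 1 0x455010 .nil))))))))),
    (.cons 1 0x155505 (.cons 2 0x130131 (.cons 4 0x60e0d (.cons 8 0xfa (.cons 16 0x59 (.cons 8 0x18 (.cons 4 0x40d00 (.cons 2 0x113010 (.cons 1 0x150140 .nil))))))))),
    [1, 1, 1, 1, 1, 1, 1, 1, 0, 0, 1, 1, 0, 0, 1, 0, 0, 0, 1, 0, 0], [0, 0, 0, 1, 0, 0, 1, 0, 0, 0, 0, 1, 0, 1, 0, 0, 0, 1, 0, 1, 0, 1]⟩,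
  ⟨7, 11, 23, (.cons 1 0x1054 (.cons 2 0x213 (.cons 4 0x3000a (.cons 8 0xf2 (.cons 16 0x7d (.cons 8 0x24 (.cons 4 0x70600 (.cons 2 0x3200 (.cons 1 0x101400 .nil))))))))),
    (.cons 1 0x55441 (.cons 2 0x2103 (.cons 4 0x90509 (.cons 8 0x20 (.cons 16 0xa7 (.cons 8 0x83 (.cons 4 0xb0a00 (.cons 2 0x122210 (.cons 1 0x50440 .nil))))))))),
    (.cons 1 0x10044 (.cons 2 0x2230 (.cons 4 0x70a0f (.cons 8 0x2d (.cons 16 0x59 (.cons 8 0x18 (.cons 4 0x10600 (.cons 2 0x30100 (.cons 1 0x104050 .nil))))))))),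
    [1, 1, 0, 0, 0, 1, 0, 0, 1, 1, 0, 0, 1, 1, 0, 0, 1, 1, 0, 0, 0], [0, 1, 0, 1, 1, 0, 0, 1, 1, 1, 0, 0, 0, 1, 1, 0, 1, 0, 0, 1, 0, 0, 1, 1]⟩,
  ⟨7, 23, 23, (.cons 1 0x415455 (.cons 2 0x333303 (.cons 4 0xb0d0c (.cons 8 0x5a (.cons 16 0xb4 (.cons 8 0x20 (.cons 4 0xd0900 (.cons 2 0x330220 (.cons 1 0x411410 .nil))))))))),
    (.cons 1 0x44004 (.cons 2 0x13033 (.cons 4 0xa010d (.cons 8 0x86 (.cons 16 0xe5 (.cons 8 0x60 (.cons 4 0x80000 (.cons 2 0x132120 (.cons 1 0x41400 .nil))))))))),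
    (.cons 1 0x500401 (.cons 2 0x232333 (.cons 4 0x8030a (.cons 8 0x4e (.cons 16 0xbe (.cons 8 0x92 (.cons 4 0x30000 (.cons 2 0x31130 (.cons 1 0x540100 .nil))))))))),
    [1, 0, 0, 1, 0, 1, 1, 1, 1, 1, 1, 1, 0, 0, 0, 1, 0, 0, 1, 1, 0, 1], [0, 1, 1, 0, 0, 1, 0, 1, 1, 1, 1, 1, 1, 0, 0, 0, 1, 0, 1, 1, 1, 0, 1]⟩,
  ⟨11, 11, 11, (.cons 1 0x510515 (.cons 2 0x13332 (.cons 4 0xb0c (.cons 8 0x2 (.cons 16 0x8f (.cons 8 0xc (.cons 4 0xc00 (.cons 2 0x211020 (.cons 1 0x455500 .nil))))))))),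
    (.cons 1 0x415444 (.cons 2 0x233313 (.cons 4 0x10302 (.cons 8 0x81 (.cons 16 0x3b (.cons 8 0x12 (.cons 4 0x90a00 (.cons 2 0x1230 (.cons 1 0x405150 .nil))))))))),
    (.cons 1 0x545105 (.cons 2 0x231230 (.cons 4 0xe0206 (.cons 8 0x46 (.cons 16 0x79 (.cons 8 0x18 (.cons 4 0x40300 (.cons 2 0x10000 (.cons 1 0x455140 .nil))))))))),
    [1, 0, 0, 0, 1, 1, 0, 0, 0, 0, 0, 0, 1, 0, 1, 0, 1, 0, 0, 1, 0, 1], [1, 0, 1, 1, 0, 1, 0, 1, 1, 1, 1, 0, 1, 0, 1, 1, 0, 0, 0, 0, 1, 0, 1, 1]⟩,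
  ⟨11, 11, 23, (.cons 1 0x441144 (.cons 2 0x113113 (.cons 4 0x20e00 (.cons 8 0xb (.cons 16 0xcf (.cons 8 0x4c (.cons 4 0x80000 (.cons 2 0x320030 (.cons 1 0x410440 .nil))))))))),
    (.cons 1 0x110141 (.cons 2 0x1201 (.cons 4 0xd0f0e (.cons 8 0xff (.cons 16 0xb7 (.cons 8 0x87 (.cons 4 0xc0c00 (.cons 2 0x100100 (.cons 1 0x115544 .nil))))))))),
    (.cons 1 0x115451 (.cons 2 0x12030 (.cons 4 0x40d0b (.cons 8 0x2e (.cons 16 0x1f (.cons 8 0x12 (.cons 4 0x20000 (.cons 2 0x111010 (.cons 1 0x10500 .nil))))))))),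
    [0, 1, 1, 0, 1, 0, 0, 0, 0, 1, 1, 0, 1, 1, 1, 0, 0, 0, 0, 0, 0, 0], [0, 0, 0, 0, 1, 0, 0, 0, 1, 0, 1, 0, 1, 1, 1, 1, 1, 0, 0, 0, 0, 0, 0, 0]⟩,
  ⟨11, 23, 23, (.cons 1 0x555415 (.cons 2 0x31321 (.cons 4 0xe060a (.cons 8 0x30 (.cons 16 0x5b (.cons 8 0x58 (.cons 4 0xd0900 (.cons 2 0x12120 (.cons 1 0x500054 .nil))))))))),
    (.cons 1 0x105104 (.cons 2 0x302122 (.cons 4 0x10c0d (.cons 8 0x2c (.cons 16 0x1f (.cons 8 0x1 (.cons 4 0xc0100 (.cons 2 0x212000 (.cons 1 0x14410 .nil))))))))),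
    (.cons 1 0x4441 (.cons 2 0x120221 (.cons 4 0x10a06 (.cons 8 0x1 (.cons 16 0x3d (.cons 8 0x30 (.cons 4 0x50300 (.cons 2 0x123200 (.cons 1 0x54140 .nil))))))))),
    [0, 1, 1, 1, 1, 0, 0, 0, 0, 0, 1, 0, 0, 0, 0, 1, 1, 0, 1, 0, 0, 1, 0], [0, 1, 1, 1, 1, 1, 0, 1, 0, 0, 1, 1, 1, 0, 0, 1, 0, 1, 0, 0, 0, 0]⟩,
  ⟨23, 23, 23, (.cons 1 0x504450 (.cons 2 0x100311 (.cons 4 0x908 (.cons 8 0x8e (.cons 16 0xe1 (.cons 8 0xa0 (.cons 4 0xc0400 (.cons 2 0x120020 (.cons 1 0x450010 .nil))))))))),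
    (.cons 1 0x54141 (.cons 2 0x332020 (.cons 4 0x9080a (.cons 8 0xa2 (.cons 16 0xde (.cons 8 0x9e (.cons 4 0x10100 (.cons 2 0x203230 (.cons 1 0x144500 .nil))))))))),
    (.cons 1 0x511454 (.cons 2 0x222011 (.cons 4 0x5030b (.cons 8 0xcc (.cons 16 0xfa (.cons 8 0x32 (.cons 4 0x40000 (.cons 2 0x30000 (.cons 1 0x440140 .nil))))))))),
    [1, 0, 1, 1, 0, 1, 0, 1, 0, 0, 0, 0, 0, 0, 0, 0, 1, 1], [0, 0, 0, 0, 1, 1, 1, 1, 0, 0, 0, 1, 1, 1, 1, 1, 1, 1, 1, 0, 1, 1, 0, 1]⟩]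
theorem triT_chk : allL triT Tr23.chk = true := by decide +kernel
theorem triT_all : ∀ p ∈ [2, 3, 5, 7, 11, 23], ∀ q ∈ [2, 3, 5, 7, 11, 23], ∀ r ∈ [2, 3, 5, 7, 11, 23], p ≤ q → q ≤ r → ¬ (p = 2 ∧ q = 2) →
    ¬ ((p = 2 ∧ q = 3) ∨ (p = 2 ∧ q = 5 ∧ r = 5) ∨ (p = 2 ∧ q = 5 ∧ r = 7) ∨ (p = 3 ∧ q = 3 ∧ r ≤ 7)) →
    ∃ t ∈ triT, t.p = p ∧ t.q = q ∧ t.r = r := by decide +kernel

theorem Tr23.gen {t : Tr23} (c : t.chk = true) (hp : t.p.Prime) (hq : t.q.Prime) (hr : t.r.Prime) :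
    ∃ x y z : Spor.M23, orderOf x = t.p ∧ orderOf y = t.q ∧ orderOf z = t.r ∧ x * y * z = 1 ∧ Subgroup.closure {x, y} = ⊤ := by
  simp only [Tr23.chk, and'_eq, Bool.and_eq_true] at c
  obtain ⟨c1, c2, c3, c4, c5, c6, c7, c8⟩ := c
  have a := actsL_mm c1
  have m := a.stab_pt (b := 23) (by norm_num) c2
  simp only [List.map_cons, List.map_nil] at a m
  obtain _ | ⟨aX, _ | ⟨aY, _ | ⟨aZ, _⟩⟩⟩ := id a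
  have a2 : ActsL 24 GE.e [mm t.X, mm t.Y] [t.X, t.Y] := .cons aX (.cons aY .nil)
  let x : H23 := ⟨mm t.X, m _ (by simp)⟩
  let y : H23 := ⟨mm t.Y, m _ (by simp)⟩
  let z : H23 := ⟨mm t.Z, m _ (by simp)⟩
  refine ⟨m23Equiv x, m23Equiv y, m23Equiv z, ?_, ?_, ?_, ?_, ?_⟩
  · rw [MulEquiv.orderOf_eq, ← Subgroup.orderOf_coe]; exact aX.mm_order hp c3
  · rw [MulEquiv.orderOf_eq, ← Subgroup.orderOf_coe]; exact aY.mm_order hq c4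
  · rw [MulEquiv.orderOf_eq, ← Subgroup.orderOf_coe]; exact aZ.mm_order hr c5
  · rw [← map_mul, ← map_mul, map_eq_one_iff _ m23Equiv.injective]
    apply Subtype.ext
    have := a.prod_eq_mm .nil c6
    simpa [mul_assoc, x, y, z] using this
  · have h : H23 ≤ cl [mm t.X, mm t.Y] := by
      rw [← cl_g23]
      apply cl_le
      have e0 := (a2.word t.u).prod_eq_mm (g23_acts.word [0]) c7
      have e1 := (a2.word t.v).prod_eq_mm (g23_acts.word [1]) c8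
      have m0 := wordG_prod_mem (gs := [mm t.X, mm t.Y]) (fun _ => mem_cl) t.u
      have m1 := wordG_prod_mem (gs := [mm t.X, mm t.Y]) (fun _ => mem_cl) t.v
      rw [e0] at m0; rw [e1] at m1
      intro g hg
      simp only [g23N, List.map_cons, List.map_nil, List.mem_cons, List.not_mem_nil, or_false] at hg
      rcases hg with rfl | rfl
      · simpa [wordG, g23N] using m0
      · simpa [wordG, g23N] using m1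
    have h' : Subgroup.closure {x, y} = ⊤ := by
      apply Subgroup.map_injective H23.subtype_injective
      rw [MonoidHom.map_closure, ← MonoidHom.range_eq_map, Subgroup.range_subtype, Set.image_pair]
      refine le_antisymm ((Subgroup.closure_le _).2 ?_) (h.trans (cl_le fun g hg => Subgroup.subset_closure (by simpa [x, y] using hg)))
      rintro _ (rfl | rfl)
      exacts [x.2, y.2]
    have := congrArg (Subgroup.map m23Equiv.toMonoidHom) h'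
    rwa [MonoidHom.map_closure, Set.image_pair, Subgroup.map_top_of_surjective _ m23Equiv.surjective] at this

theorem kd23 {g : Spor.M23} {p : ℕ} (o : orderOf g = p) :
    (p = 2 → 16 ≤ kd GolayPt g) ∧ (p = 3 → 12 ≤ kd GolayPt g) ∧ (p = 5 → 8 ≤ kd GolayPt g) ∧ (p = 7 → 6 ≤ kd GolayPt g) ∧ 1 ≤ kd GolayPt g := by
  have k := kd_ge g (Finset.univ.filter fun w : GolayPt => g • w = w) (by simp)
  have n : Fintype.card GolayPt = 24 := by decide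
  let g' : MM := ⟨g.1, g.2.1⟩
  have e : (Finset.univ.filter fun w : GolayPt => g • w = w) = fixF g' := by
    ext w; rw [mem_fixF]; simp; rfl
  have o' : orderOf g' = p := by rw [← o, ← Subgroup.orderOf_coe, ← Subgroup.orderOf_coe g]
  have f0 : (fixF g').card ≠ 0 := Finset.card_ne_zero.2 ⟨none, mem_fixF.2 g.2.2⟩
  rw [n, o] at k
  refine ⟨?_, ?_, ?_, ?_, ?_⟩
  · rintro rfl
    obtain ⟨c, hc⟩ := conj_z2a o' f0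
    rw [e, hc, fixF_conj, Finset.card_smul_finset, fix_z2a, card_eO0] at k
    omega
  · rintro rfl
    obtain ⟨c, hc⟩ := conj_x3a o' f0
    rw [e, hc, fixF_conj, Finset.card_smul_finset, fix_x3a, card_hex0] at k
    omega
  · rintro rfl
    have := fix_mod (Ω := GolayPt) (by norm_num) o
    rw [n, Nat.ModEq] at this
    omega
  · rintro rfl
    have := fix_mod (Ω := GolayPt) (by norm_num) o
    rw [n, Nat.ModEq] at this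
    omega
  · rcases Nat.eq_zero_or_pos (kd GolayPt g) with h | h
    · rw [h] at k; omega
    · exact h

theorem ree23 {x y z : Spor.M23} (e : x * y * z = 1) (c : Subgroup.closure {x, y} = ⊤) :
    kd GolayPt x + kd GolayPt y + kd GolayPt z ≤ 28 := by
  have := ree x y (none : GolayPt) (some 0) fun w => by
    rw [c]
    by_cases h : w = none
    · exact ⟨1, trivial, .inl (by simp [h])⟩
    · obtain ⟨g, hg⟩ := exists_smul_list (l := [none, some 0]) (l' := [none, w]) (by simp) (by simpa using Ne.symm h) rfl (by simp)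
      simp only [List.map_cons, List.map_nil, List.cons.injEq, and_true] at hg
      exact ⟨⟨g.1, g.2, hg.1⟩, trivial, .inr hg.2⟩
  rwa [eq_inv_of_mul_eq_one_left e, kd_inv, (by decide : Fintype.card GolayPt = 24)] at this
end
end H13
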