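import Cfsg.Agent.H29.Gr

/-! An extraspecial group of order `2 ^ 13` from generators and relations. -/

set_option autoImplicit false

namespace H13.Xs

open Subgroup

variable {G : Type*} [Group G] {ι : Type*}

/-- normal forms -/
def NF (z : G) (g : ι → G) : List ι → Set G
  | [] => {1, z}
  | i :: L => NF z g L ∪ (fun x => g i * x) '' NF z g L

theorem nf_card [Finite G] (z : G) (g : ι → G) (L : List ι) : (NF z g L).ncard ≤ 2 ^ (L.length + 1) := by
  induction L with
  | nil => exact (Set.ncard_insert_le _ _).trans (by simp)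
  | cons i L ih =>
    refine (Set.ncard_union_le _ _).trans ?_
    have := Set.ncard_image_le (f := fun x => g i * x) (s := NF z g L)
    rw [List.length_cons, pow_succ]; omega

theorem nf_one (z : G) (g : ι → G) (L : List ι) : (1 : G) ∈ NF z g L := by
  induction L with
  | nil => exact Or.inl rfl
  | cons i L ih => exact Or.inl ih

theorem nf_z {z : G} {g : ι → G} (z2 : z * z = 1) (zg : ∀ i, z * g i = g i * z) (L : List ι) :
    ∀ x ∈ NF z g L, z * x ∈ NF z g L := by
  induction L with
  | nil =>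
    rintro x (rfl | rfl)
    · exact Or.inr (mul_one _)
    · exact Or.inl z2
  | cons i L ih =>
    rintro x (hx | ⟨x, hx, rfl⟩)
    · exact Or.inl (ih x hx)
    · exact Or.inr ⟨z * x, ih x hx, by dsimp only; rw [← mul_assoc, ← zg, mul_assoc]⟩

theorem nf_g {z : G} {g : ι → G} (z2 : z * z = 1) (zg : ∀ i, z * g i = g i * z) (g2 : ∀ i, g i * g i = 1)
    (gg : ∀ i j, g i * g j = g j * g i ∨ g i * g j = z * (g j * g i)) (L : List ι) :
    ∀ j ∈ L, ∀ x ∈ NF z g L, g j * x ∈ NF z g L := by
  induction L with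
  | nil => simp
  | cons i L ih =>
    intro j hj x hx
    rcases List.mem_cons.1 hj with rfl | hj
    · rcases hx with hx | ⟨x, hx, rfl⟩
      · exact Or.inr ⟨x, hx, rfl⟩
      · exact Or.inl (by dsimp only; rwa [← mul_assoc, g2, one_mul])
    · rcases hx with hx | ⟨x, hx, rfl⟩
      · exact Or.inl (ih j hj x hx)
      · rcases gg j i with e | e
        · exact Or.inr ⟨_, ih j hj x hx, by dsimp only; rw [← mul_assoc, ← e, mul_assoc]⟩
        · exact Or.inr ⟨_, nf_z z2 zg L _ (ih j hj x hx), by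
            dsimp only; rw [← mul_assoc (g j), e, ← mul_assoc (g i), ← zg]; simp only [mul_assoc]⟩

theorem gen [Finite G] [Fintype ι] [DecidableEq ι] [Nonempty ι] {z : G} {g : ι → G} (π : ι → ι) (z1 : z ≠ 1)
    (z2 : z * z = 1) (zg : ∀ i, z * g i = g i * z) (g2 : ∀ i, g i * g i = 1)
    (gg : ∀ i j, g (π i) * g j = (if j = i then z else 1) * (g j * g (π i))) (hπ : Function.Surjective π) :
    Nat.card (closure (Set.range g)) = 2 ^ (Fintype.card ι + 1) ∧ Cfsg.IsExtraspecial 2 (closure (Set.range g)) := by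
  classical
  set Q := closure (Set.range g) with hQ
  have gQ : ∀ i, g i ∈ Q := fun i => subset_closure ⟨i, rfl⟩
  have gi : ∀ i, (g i)⁻¹ = g i := fun i => inv_eq_of_mul_eq_one_right (g2 i)
  have gg' : ∀ i j, g i * g j = g j * g i ∨ g i * g j = z * (g j * g i) := fun i j => by
    obtain ⟨i, rfl⟩ := hπ i
    rw [gg]; split_ifs
    · exact Or.inr rfl
    · exact Or.inl (one_mul _)
  have ind : ∀ P : G → Prop, P 1 → (∀ i x, x ∈ Q → P x → P (g i * x)) → ∀ x ∈ Q, P x := fun P h1 h2 x hx => by
    induction hx using closure_induction_left with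
    | one => exact h1
    | mul_left y hy x hx ih => obtain ⟨i, rfl⟩ := hy; exact h2 i x hx ih
    | inv_mul_cancel y hy x hx ih => obtain ⟨i, rfl⟩ := hy; rw [gi]; exact h2 i x hx ih
  have zc : ∀ x ∈ Q, x * z = z * x := ind _ (by simp) fun i x _ h => by
    rw [mul_assoc, h, ← mul_assoc, ← zg, mul_assoc]
  have zQ : z ∈ Q := by
    obtain ⟨i⟩ := ‹Nonempty ι›
    have := gg i i
    rw [if_pos rfl, ← mul_inv_eq_iff_eq_mul] at this
    rw [← this]; exact mul_mem (mul_mem (gQ _) (gQ _)) (inv_mem (mul_mem (gQ _) (gQ _)))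
  have cg : ∀ j, ∀ x ∈ Q, x * g j = g j * x ∨ x * g j = z * (g j * x) := fun j => ind _ (by simp) fun i x _ h => by
    rcases h with h | h <;> rcases gg' i j with e | e
    · left; rw [mul_assoc, h, ← mul_assoc, e, mul_assoc]
    · right; rw [mul_assoc, h, ← mul_assoc, e]; simp only [mul_assoc]
    · right; rw [mul_assoc, h, ← mul_assoc, ← zg, mul_assoc, ← mul_assoc (g i), e, mul_assoc]
    · left; rw [mul_assoc, h, ← mul_assoc, ← zg, mul_assoc, ← mul_assoc (g i), e, ← mul_assoc, ← mul_assoc, z2,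
        one_mul, mul_assoc]
  have sq : ∀ x ∈ Q, x * x = 1 ∨ x * x = z := ind _ (by simp) fun i x hx h => by
    have e : g i * x * (g i * x) = g i * (x * g i) * x := by simp only [mul_assoc]
    rcases cg i x hx with e1 | e1 <;> rw [e, e1]
    · rwa [← mul_assoc, g2, one_mul]
    · rw [← mul_assoc, ← zg, mul_assoc z, ← mul_assoc (g i), g2, one_mul, mul_assoc]
      rcases h with h | h <;> rw [h]
      · exact Or.inr (mul_one _)
      · exact Or.inl z2
  have ub : Nat.card Q ≤ 2 ^ (Fintype.card ι + 1) := by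
    have := nf_card z g (Finset.univ : Finset ι).toList
    rw [Finset.length_toList, Finset.card_univ] at this
    refine le_trans ?_ this
    rw [← SetLike.coe_sort_coe, Nat.card_coe_set_eq]
    exact Set.ncard_le_ncard (ind _ (nf_one z g _) fun i x _ h => nf_g z2 zg g2 gg' _ i (by simp) x h)
  have nz : ∀ w : G, z * w ≠ w := fun w e => z1 (mul_eq_right.1 e)
  let φ : Q →* (ι → ℤˣ) := MonoidHom.mk' (fun x j => if (x : G) * g j = g j * x then 1 else -1) fun x y => by
    funext j
    rw [Pi.mul_apply, coe_mul]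
    rcases cg j x x.2 with e | e <;> rcases cg j y y.2 with f | f
    · rw [if_pos e, if_pos f, if_pos (by rw [mul_assoc, f, ← mul_assoc, e, mul_assoc]), one_mul]
    · rw [if_pos e, if_neg (show ¬ (y : G) * g j = g j * y by rw [f]; exact nz _), if_neg, one_mul]
      rw [mul_assoc, f, ← mul_assoc, zc x x.2, mul_assoc, ← mul_assoc (x : G), e, mul_assoc]; exact nz _
    · rw [if_pos f, if_neg (show ¬ (x : G) * g j = g j * x by rw [e]; exact nz _), if_neg, mul_one]
      rw [mul_assoc, f, ← mul_assoc, e, mul_assoc, mul_assoc]; exact nz _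
    · rw [if_neg (show ¬ (x : G) * g j = g j * x by rw [e]; exact nz _),
        if_neg (show ¬ (y : G) * g j = g j * y by rw [f]; exact nz _), if_pos]
      · simp
      · rw [mul_assoc, f, ← mul_assoc, zc x x.2, mul_assoc, ← mul_assoc (x : G), e, ← mul_assoc, ← mul_assoc, z2,
          one_mul, mul_assoc]
  have hφ : ∀ (x : Q) j, φ x j = if (x : G) * g j = g j * x then 1 else -1 := fun _ _ => rfl
  have rt : φ.range = ⊤ := by
    rw [eq_top_iff]; intro f _
    rw [← Finset.univ_prod_mulSingle f]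
    refine prod_mem fun i _ => ?_
    rcases Int.units_eq_one_or (f i) with e | e <;> rw [e]
    · rw [Pi.mulSingle_one]; exact one_mem _
    · refine ⟨⟨g (π i), gQ _⟩, funext fun j => ?_⟩
      rw [hφ, gg]
      by_cases h : j = i
      · subst h; rw [if_pos rfl, if_neg (nz _), Pi.mulSingle_eq_same]
      · rw [if_neg h, one_mul, if_pos rfl, Pi.mulSingle_eq_of_ne h]
  have c1 := φ.ker.card_mul_index
  rw [index_ker, rt, card_top, Nat.card_fun, Nat.card_eq_fintype_card (α := ℤˣ), Fintype.card_units_int,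
    Nat.card_eq_fintype_card (α := ι)] at c1
  have oz : orderOf z = 2 := orderOf_eq_prime (by rw [pow_two, z2]) z1
  have le : zpowers (⟨z, zQ⟩ : Q) ≤ φ.ker := zpowers_le.2 (funext fun j => by rw [hφ, if_pos (zg j)]; rfl)
  have cz : Nat.card (zpowers (⟨z, zQ⟩ : Q)) = 2 := by rw [Nat.card_zpowers, ← orderOf_coe, oz]
  have c2 := card_le_of_le le
  have p0 : 0 < 2 ^ Fintype.card ι := by positivity
  have c3 : Nat.card φ.ker = 2 := by
    rw [pow_succ] at ub
    have : Nat.card φ.ker ≤ 2 := by nlinarith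
    omega
  have c4 : Nat.card Q = 2 ^ (Fintype.card ι + 1) := by rw [← c1, c3, pow_succ, mul_comm]
  have ke := eq_of_le_of_card_ge le (by omega)
  refine ⟨c4, H29.isExtraspecial_two zQ oz zc ?_ fun x hx => ⟨sq x hx, fun h => ?_⟩⟩
  · have : 0 < Fintype.card ι := Fintype.card_pos
    rw [c4]; exact lt_of_lt_of_le (by norm_num) (Nat.pow_le_pow_right two_pos (show 2 ≤ _ by omega))
  · have : (⟨x, hx⟩ : Q) ∈ φ.ker := funext fun j => by rw [hφ, if_pos (h _ (gQ j))]; rfl
    rw [← ke] at this
    obtain ⟨k, hk⟩ := this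
    have hk' : z ^ k = x := congrArg Subtype.val hk
    have e2 : z ^ (2 : ℤ) = 1 := by rw [zpow_two, z2]
    rw [← hk', zpow_eq_zpow_emod k e2]
    rcases Int.emod_two_eq_zero_or_one k with e | e <;> simp [e]

theorem xs {G : Type*} [Group G] [Finite G] (z : G) (a b : Fin 6 → G) (z1 : z ≠ 1) (z2 : z * z = 1) (a2 : ∀ i, a i * a i = 1) (b2 : ∀ i, b i * b i = 1) (za : ∀ i, Commute z (a i)) (zb : ∀ i, Commute z (b i)) (aa : ∀ i j, Commute (a i) (a j)) (bb : ∀ i j, Commute (b i) (b j)) (ab : ∀ i j, a i * b j = (if i = j then z else 1) * (b j * a i)) : Nat.card (Subgroup.closure (Set.range a ∪ Set.range b)) = 2 ^ 13 ∧ Cfsg.IsExtraspecial 2 (Subgroup.closure (Set.range a ∪ Set.range b)) := by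
  have := gen (g := Sum.elim a b) Sum.swap z1 z2 (by rintro (i | i); exacts [za i, zb i])
    (by rintro (i | i); exacts [a2 i, b2 i]) ?_ (fun i => ⟨i.swap, Sum.swap_swap i⟩)
  · rw [Set.Sum.elim_range] at this
    simpa using this
  · rintro (i | i) (j | j) <;> simp only [Sum.swap_inl, Sum.swap_inr, Sum.elim_inl, Sum.elim_inr]
    · rw [ab j i]
      by_cases h : j = i
      · simp only [h, if_true]; rw [← mul_assoc, z2, one_mul]
      · simp [h]
    · simpa using (bb i j).eq
    · simpa using (aa i j).eq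
    · rw [ab i j]; simp [eq_comm]

end H13.Xs
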